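import Mathlib

/-!
# Reflections and tori in a symplectic space

`Z` is a finite vector space over `ZMod q` with a non-degenerate alternating form `f`, and `A` a group
acting faithfully by isometries.  A *reflection* is an involution whose `-1` eigenspace is a plane, a
*torus element* `a` has `a ^ 2 ^ (n - 1)` a reflection and is trivial on the fixed points of this reflection.
-/

set_option autoImplicit false
set_option linter.unusedSectionVars false
set_option linter.style.haveILetI false

namespace Cfsg.Agent.Lib.BryG.Sym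

open Module

variable {q : ℕ} [Fact q.Prime] {Z : Type*} [AddCommGroup Z] [Module (ZMod q) Z]
variable {A : Type*} [Group A] [DistribMulAction A Z] [SMulCommClass A (ZMod q) Z]

/-- The `-1` eigenspace. -/
def Pl (q : ℕ) [Fact q.Prime] (Z : Type*) [AddCommGroup Z] [Module (ZMod q) Z] {A : Type*} [Group A]
    [DistribMulAction A Z] [SMulCommClass A (ZMod q) Z] (r : A) : Submodule (ZMod q) Z where
  carrier := {v | r • v = -v}
  add_mem' := by
    intro a b ha hb
    simp only [Set.mem_ofPred_eq] at *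
    rw [smul_add, ha, hb]
    abel
  zero_mem' := by simp
  smul_mem' := by
    intro c v hv
    simp only [Set.mem_ofPred_eq] at *
    rw [smul_comm, hv, smul_neg]

theorem mem_Pl {r : A} {v : Z} : v ∈ Pl q Z r ↔ r • v = -v := Iff.rfl

/-- A reflection. -/
structure IsRefl (q : ℕ) [Fact q.Prime] (Z : Type*) [AddCommGroup Z] [Module (ZMod q) Z] {A : Type*} [Group A]
    [DistribMulAction A Z] [SMulCommClass A (ZMod q) Z] (r : A) : Prop where
  sq : r * r = 1
  dim : finrank (ZMod q) (Pl q Z r) = 2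

/-- The data of the form. -/
structure IsSym (A : Type*) [Group A] [DistribMulAction A Z]
    (f : Z →ₗ[ZMod q] Z →ₗ[ZMod q] ZMod q) : Prop where
  two : (2 : ZMod q) ≠ 0
  alt : ∀ v, f v v = 0
  nd : ∀ v, (∀ w, f v w = 0) → v = 0
  inv : ∀ (x : A) (v w : Z), f (x • v) (x • w) = f v w

variable {f : Z →ₗ[ZMod q] Z →ₗ[ZMod q] ZMod q}

theorem IsSym.anti (hf : IsSym A f) (v w : Z) : f v w = - f w v := by
  have h := hf.alt (v + w)
  simp only [map_add, LinearMap.add_apply, hf.alt, zero_add, add_zero] at h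
  rw [add_comm] at h
  exact eq_neg_of_add_eq_zero_left h

theorem eq_zero_of_eq_neg (h2 : (2 : ZMod q) ≠ 0) {v : Z} (h : v = -v) : v = 0 := by
  have h1 : (2 : ZMod q) • v = 0 := by
    rw [two_smul]
    nth_rewrite 1 [h]
    simp
  exact (smul_eq_zero.mp h1).resolve_left h2

theorem eq_zero_of_eq_neg' (h2 : (2 : ZMod q) ≠ 0) {t : ZMod q} (h : t = -t) : t = 0 := by
  have h1 : 2 * t = 0 := by
    rw [two_mul]
    nth_rewrite 1 [h]
    simp
  exact (mul_eq_zero.mp h1).resolve_left h2

section inv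

variable {r s : A}

theorem smul_smul_of_sq (hr : r * r = 1) (v : Z) : r • r • v = v := by
  rw [smul_smul, hr, one_smul]

/-- The decomposition into eigenspaces. -/
theorem decomp (h2 : (2 : ZMod q) ≠ 0) (hr : r * r = 1) (v : Z) :
    ∃ p c : Z, r • p = -p ∧ r • c = c ∧ v = p + c := by
  refine ⟨(2 : ZMod q)⁻¹ • (v - r • v), (2 : ZMod q)⁻¹ • (v + r • v), ?_, ?_, ?_⟩
  · rw [smul_comm, smul_sub, smul_smul_of_sq hr, ← smul_neg, neg_sub]
  · rw [smul_comm, smul_add, smul_smul_of_sq hr, add_comm]
  · rw [← smul_add]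
    have e : v - r • v + (v + r • v) = (2 : ZMod q) • v := by
      rw [two_smul]
      abel
    rw [e, smul_smul, inv_mul_cancel₀ h2, one_smul]

variable (hf : IsSym A f)
include hf

/-- Different eigenspaces are orthogonal. -/
theorem f_P_C {p c : Z} (hp : r • p = -p) (hc : r • c = c) : f p c = 0 := by
  have h := hf.inv r p c
  rw [hp, hc, map_neg, LinearMap.neg_apply] at h
  exact eq_zero_of_eq_neg' hf.two h.symm

theorem f_C_P {p c : Z} (hp : r • p = -p) (hc : r • c = c) : f c p = 0 := by
  rw [hf.anti, f_P_C hf hp hc, neg_zero]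

/-- The `-1` eigenspace is non-degenerate. -/
theorem P_nd (hr : r * r = 1) {p : Z} (hp : r • p = -p) (h : ∀ p', r • p' = -p' → f p p' = 0) : p = 0 := by
  apply hf.nd
  intro w
  obtain ⟨p', c, hp', hc, rfl⟩ := decomp hf.two hr w
  rw [map_add, h p' hp', f_P_C hf hp hc, add_zero]

theorem C_nd (hr : r * r = 1) {c : Z} (hc : r • c = c) (h : ∀ c', r • c' = c' → f c c' = 0) : c = 0 := by
  apply hf.nd
  intro w
  obtain ⟨p', c', hp', hc', rfl⟩ := decomp hf.two hr w
  rw [map_add, h c' hc', f_C_P hf hp' hc, add_zero]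

/-- The perp of the `-1` eigenspace is the fixed space. -/
theorem mem_C_of_perp (hr : r * r = 1) {v : Z} (h : ∀ p, r • p = -p → f v p = 0) : r • v = v := by
  obtain ⟨p, c, hp, hc, rfl⟩ := decomp hf.two hr v
  have h0 : p = 0 := by
    apply P_nd hf hr hp
    intro p' hp'
    have h1 := h p' hp'
    rw [map_add, LinearMap.add_apply, f_C_P hf hp' hc, add_zero] at h1
    exact h1
  subst h0
  simpa using hc

theorem mem_P_of_perp (hr : r * r = 1) {v : Z} (h : ∀ c, r • c = c → f v c = 0) : r • v = -v := by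
  obtain ⟨p, c, hp, hc, rfl⟩ := decomp hf.two hr v
  have h0 : c = 0 := by
    apply C_nd hf hr hc
    intro c' hc'
    have h1 := h c' hc'
    rw [map_add, LinearMap.add_apply, f_P_C hf hp hc', zero_add] at h1
    exact h1
  subst h0
  simpa using hp

/-- Two involutions with the same `-1` eigenspace agree. -/
theorem smul_eq_of_P (hr : r * r = 1) (hs : s * s = 1) (h : ∀ v : Z, r • v = -v ↔ s • v = -v) (v : Z) :
    r • v = s • v := by
  obtain ⟨p, c, hp, hc, rfl⟩ := decomp hf.two hr v
  have hc' : s • c = c := by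
    apply mem_C_of_perp hf hs
    intro p' hp'
    exact f_C_P hf ((h p').mpr hp') hc
  rw [smul_add, smul_add, hp, hc, hc', (h p).mp hp]

theorem eq_of_P [FaithfulSMul A Z] (hr : r * r = 1) (hs : s * s = 1) (h : ∀ v : Z, r • v = -v ↔ s • v = -v) : r = s :=
  FaithfulSMul.eq_of_smul_eq_smul (smul_eq_of_P hf hr hs h)

end inv

section refl

variable [Finite Z] {r s : A}

/-- Two independent vectors span a plane. -/
theorem plane_combo {P : Submodule (ZMod q) Z} (h : finrank (ZMod q) P = 2) {v w : Z} (hv : v ∈ P) (hw : w ∈ P)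
    (hind : ∀ a b : ZMod q, a • v + b • w = 0 → a = 0 ∧ b = 0) {u : Z} (hu : u ∈ P) :
    ∃ a b : ZMod q, u = a • v + b • w := by
  classical
  haveI : Module.Finite (ZMod q) Z := Module.Finite.of_finite
  let v' : P := ⟨v, hv⟩
  let w' : P := ⟨w, hw⟩
  have hli : LinearIndependent (ZMod q) ![v', w'] := by
    rw [LinearIndependent.pair_iff]
    intro a b hab
    have h1 := congrArg Subtype.val hab
    exact hind a b (by simpa [v', w'] using h1)
  have htop := hli.span_eq_top_of_card_eq_finrank (by simp [h])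
  have hu' : (⟨u, hu⟩ : P) ∈ Submodule.span (ZMod q) (Set.range ![v', w']) := by
    rw [htop]
    trivial
  simp only [Matrix.range_cons, Matrix.range_empty, Set.union_empty, Set.singleton_union] at hu'
  rw [Submodule.mem_span_pair] at hu'
  obtain ⟨a, b, hab⟩ := hu'
  refine ⟨a, b, ?_⟩
  have h1 := congrArg Subtype.val hab
  simpa [v', w'] using h1.symm

/-- An injective linear map between planes is surjective. -/
theorem plane_surj {P P' : Submodule (ZMod q) Z} (h : finrank (ZMod q) P = 2) (h' : finrank (ZMod q) P' = 2)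
    (T : Z →ₗ[ZMod q] Z) (hT : ∀ v ∈ P, T v ∈ P') (hinj : ∀ v ∈ P, T v = 0 → v = 0) {w : Z} (hw : w ∈ P') :
    ∃ v ∈ P, w = T v := by
  classical
  haveI : Module.Finite (ZMod q) Z := Module.Finite.of_finite
  let g : P →ₗ[ZMod q] P' := (T ∘ₗ P.subtype).codRestrict P' (fun v => hT v v.2)
  have hg : Function.Injective g := by
    rw [injective_iff_map_eq_zero]
    intro v hv
    have h1 : T v = 0 := congrArg Subtype.val hv
    exact Subtype.ext (hinj v v.2 h1)
  have hcard : finrank (ZMod q) P = finrank (ZMod q) P' := by rw [h, h']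
  have hs : Function.Surjective g := (LinearMap.injective_iff_surjective_of_finrank_eq_finrank hcard).mp hg
  obtain ⟨v, hv⟩ := hs ⟨w, hw⟩
  refine ⟨v, v.2, ?_⟩
  have h1 := congrArg Subtype.val hv
  exact h1.symm

variable (hf : IsSym A f)
include hf

/-- A reflection with a `-1` eigenspace inside another one. -/
theorem eq_of_P_le [FaithfulSMul A Z] (hr : IsRefl q Z r) (hs : IsRefl q Z s) (h : ∀ v : Z, r • v = -v → s • v = -v) :
    r = s := by
  haveI : Module.Finite (ZMod q) Z := Module.Finite.of_finite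
  apply eq_of_P hf hr.sq hs.sq
  have hle : Pl q Z r ≤ Pl q Z s := fun v hv => h v hv
  have heq : Pl q Z r = Pl q Z s :=
    Submodule.eq_of_le_of_finrank_eq hle (by rw [hr.dim, hs.dim])
  intro v
  rw [← mem_Pl (q := q), ← mem_Pl (q := q), heq]

/-- A vector with a partner in the plane. -/
theorem exists_partner (hr : IsRefl q Z r) {v : Z} (hv : r • v = -v) (hv0 : v ≠ 0) :
    ∃ p, r • p = -p ∧ f v p = 1 := by
  by_contra hcon
  push Not at hcon
  apply hv0
  apply P_nd hf hr.sq hv
  intro p' hp'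
  by_contra hne
  apply hcon ((f v p')⁻¹ • p') _
  · rw [map_smul, smul_eq_mul, inv_mul_cancel₀ hne]
  · rw [smul_comm, hp', smul_neg]

/-- The plane in terms of a vector and a partner. -/
theorem combo_of_partner (hr : IsRefl q Z r) {v p : Z} (hv : r • v = -v) (hp : r • p = -p) (hvp : f v p = 1)
    {u : Z} (hu : r • u = -u) : ∃ a b : ZMod q, u = a • v + b • p := by
  refine plane_combo hr.dim (v := v) (w := p) hv hp ?_ hu
  intro a b hab
  have h1 := congrArg (f v) hab
  simp only [map_add, map_smul, hf.alt, smul_eq_mul, mul_zero, zero_add, hvp, mul_one, map_zero] at h1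
  have h3 := congrArg (fun t => f t p) hab
  simp only [map_add, map_smul, LinearMap.add_apply, LinearMap.smul_apply, hf.alt, smul_eq_mul, mul_zero, add_zero,
    hvp, mul_one, map_zero, LinearMap.zero_apply] at h3
  exact ⟨h3, h1⟩

/-- **Two reflections whose planes meet and whose product is a `2`-element agree.** -/
theorem refl_eq_of_meet [FaithfulSMul A Z] (hr : IsRefl q Z r) (hs : IsRefl q Z s) {k : ℕ}
    (hk : (r * s) ^ 2 ^ k = 1) {v₀ : Z} (hv₀r : r • v₀ = -v₀) (hv₀s : s • v₀ = -v₀) (hv₀ : v₀ ≠ 0) : r = s := by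
  obtain ⟨p, hp, hvp⟩ := exists_partner hf hr hv₀r hv₀
  obtain ⟨p', hp', hvp'⟩ := exists_partner hf hs hv₀s hv₀
  set κ := f p' p with hκ
  set ρ₀ := p - p' + κ • v₀ with hρ₀
  have anti := hf.anti (A := A) (f := f)
  have h1 : f ρ₀ v₀ = 0 := by
    rw [hρ₀, map_add, map_sub, LinearMap.add_apply, LinearMap.sub_apply, map_smul, LinearMap.smul_apply, hf.alt,
      anti p v₀, anti p' v₀, hvp, hvp']
    simp
  have h2 : f ρ₀ p = 0 := by
    rw [hρ₀, map_add, map_sub, LinearMap.add_apply, LinearMap.sub_apply, map_smul, LinearMap.smul_apply, hf.alt,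
      hvp, ← hκ]
    simp
  have h3 : f ρ₀ p' = 0 := by
    rw [hρ₀, map_add, map_sub, LinearMap.add_apply, LinearMap.sub_apply, map_smul, LinearMap.smul_apply, hf.alt,
      hvp', anti p p', ← hκ]
    simp
  have hρr : r • ρ₀ = ρ₀ := by
    apply mem_C_of_perp hf hr.sq
    intro u hu
    obtain ⟨a, b, rfl⟩ := combo_of_partner hf hr hv₀r hp hvp hu
    simp [h1, h2]
  have hρs : s • ρ₀ = ρ₀ := by
    apply mem_C_of_perp hf hs.sq
    intro u hu
    obtain ⟨a, b, rfl⟩ := combo_of_partner hf hs hv₀s hp' hvp' hu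
    simp [h1, h3]
  have hp'e : p' = p + κ • v₀ - ρ₀ := by
    rw [hρ₀]
    abel
  have hsp : s • p = (2 : ZMod q) • ρ₀ - p := by
    have e : p = ρ₀ + p' - κ • v₀ := by
      rw [hρ₀]
      abel
    calc s • p = s • (ρ₀ + p' - κ • v₀) := by rw [← e]
      _ = ρ₀ - p' + κ • v₀ := by
          rw [smul_sub, smul_add, hρs, hp', smul_comm, hv₀s, smul_neg]
          abel
      _ = (2 : ZMod q) • ρ₀ - p := by
          rw [two_smul, hp'e]
          abel
  have hxp : (r * s) • p = p + (2 : ZMod q) • ρ₀ := by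
    rw [mul_smul, hsp, smul_sub, smul_comm, hρr, hp]
    abel
  have hxρ : (r * s) • ρ₀ = ρ₀ := by
    rw [mul_smul, hρs, hρr]
  have hpow : ∀ j : ℕ, ((r * s) ^ j) • p = p + (j : ZMod q) • (2 : ZMod q) • ρ₀ := by
    intro j
    induction j with
    | zero => simp
    | succ j ih =>
      rw [pow_succ', mul_smul, ih, smul_add, hxp, smul_comm _ (j : ZMod q), smul_comm _ (2 : ZMod q), hxρ,
        add_assoc]
      push_cast
      rw [add_smul, one_smul, add_comm ((2 : ZMod q) • ρ₀)]
  have hρ0 : ρ₀ = 0 := by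
    have h5 := hpow (2 ^ k)
    rw [hk, one_smul] at h5
    have h6 : ((2 ^ k : ℕ) : ZMod q) • (2 : ZMod q) • ρ₀ = 0 := by
      exact left_eq_add.mp h5
    have h7 : ((2 ^ k : ℕ) : ZMod q) ≠ 0 := by
      push_cast
      exact pow_ne_zero _ hf.two
    exact (smul_eq_zero.mp ((smul_eq_zero.mp h6).resolve_left h7)).resolve_left hf.two
  apply eq_of_P_le hf hr hs
  intro u hu
  obtain ⟨a, b, rfl⟩ := combo_of_partner hf hr hv₀r hp hvp hu
  have hps : s • p = -p := by
    rw [hsp, hρ0, smul_zero, zero_sub]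
  rw [smul_add, smul_comm, hv₀s, smul_comm s b, hps, neg_add, smul_neg, smul_neg]

end refl

section tori

variable [Finite Z]

/-- The orthogonality of two involutions. -/
def Orth (q : ℕ) (Z : Type*) [AddCommGroup Z] {A : Type*} [Group A] [DistribMulAction A Z] (r s : A) : Prop :=
  (∀ v : Z, r • v = -v → s • v = v) ∧ (∀ v : Z, s • v = -v → r • v = v)

/-- The alternative of the main lemma. -/
def Good (q : ℕ) (Z : Type*) [AddCommGroup Z] {A : Type*} [Group A] [DistribMulAction A Z] (r s : A) : Prop :=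
  r = s ∨ Orth q Z r s

theorem Orth.symm {r s : A} (h : Orth q Z r s) : Orth q Z s r := ⟨h.2, h.1⟩

theorem Good.symm {r s : A} (h : Good q Z r s) : Good q Z s r := h.imp Eq.symm Orth.symm

/-- A torus element. -/
structure IsTorus (q : ℕ) [Fact q.Prime] (Z : Type*) [AddCommGroup Z] [Module (ZMod q) Z] {A : Type*} [Group A]
    [DistribMulAction A Z] [SMulCommClass A (ZMod q) Z] (n : ℕ) (a : A) : Prop where
  pow : a ^ 2 ^ n = 1
  refl : IsRefl q Z (a ^ 2 ^ (n - 1))
  fix : ∀ v : Z, (a ^ 2 ^ (n - 1)) • v = v → a • v = v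

theorem IsRefl.exists_ne {r : A} (hr : IsRefl q Z r) : ∃ v : Z, v ≠ 0 ∧ r • v = -v := by
  by_contra hcon
  push Not at hcon
  have h0 : Pl q Z r = ⊥ := by
    rw [eq_bot_iff]
    intro v hv
    by_contra hv0
    exact hcon v hv0 hv
  have h1 := hr.dim
  rw [h0, finrank_bot] at h1
  omega

theorem smul_neg_of_comm {r b : A} (hc : b * r = r * b) {v : Z} (hv : r • v = -v) : r • b • v = -(b • v) := by
  rw [smul_smul, ← hc, mul_smul, hv, smul_neg]

theorem smul_fix_of_comm {r b : A} (hc : b * r = r * b) {v : Z} (hv : r • v = v) : r • b • v = b • v := by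
  rw [smul_smul, ← hc, mul_smul, hv]

theorem pow_comm (a : A) (k : ℕ) : a * a ^ k = a ^ k * a := ((Commute.refl a).pow_right k).eq

/-- The conjugate of an involution. -/
theorem conj_sq {r : A} (hr : r * r = 1) (x : A) : (x * r * x⁻¹) * (x * r * x⁻¹) = 1 := by
  calc (x * r * x⁻¹) * (x * r * x⁻¹) = x * (r * r) * x⁻¹ := by group
    _ = 1 := by rw [hr]; group

theorem mem_Pl_conj {r x : A} {v : Z} : (x * r * x⁻¹) • v = -v ↔ r • (x⁻¹ • v) = -(x⁻¹ • v) := by
  rw [mul_smul, mul_smul]
  constructor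
  · intro h
    have := congrArg (fun w => x⁻¹ • w) h
    simp only [inv_smul_smul, smul_neg] at this
    exact this
  · intro h
    rw [h, smul_neg, smul_inv_smul]

theorem mem_C_conj {r x : A} {v : Z} : (x * r * x⁻¹) • v = v ↔ r • (x⁻¹ • v) = (x⁻¹ • v) := by
  rw [mul_smul, mul_smul]
  constructor
  · intro h
    have := congrArg (fun w => x⁻¹ • w) h
    simp only [inv_smul_smul] at this
    exact this
  · intro h
    rw [h, smul_inv_smul]

/-- The conjugate of a reflection. -/
theorem IsRefl.conj {r : A} (hr : IsRefl q Z r) (x : A) : IsRefl q Z (x * r * x⁻¹) := by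
  refine ⟨conj_sq hr.sq x, ?_⟩
  rw [← hr.dim]
  let e : Z ≃ₗ[ZMod q] Z := DistribMulAction.toLinearEquiv (ZMod q) Z x
  have h : Pl q Z (x * r * x⁻¹) = (Pl q Z r).map (e : Z →ₗ[ZMod q] Z) := by
    ext v
    rw [mem_Pl, mem_Pl_conj, Submodule.mem_map]
    constructor
    · intro h
      exact ⟨x⁻¹ • v, h, by simp [e]⟩
    · rintro ⟨w, hw, rfl⟩
      have e1 : x⁻¹ • ((e : Z →ₗ[ZMod q] Z) w) = w := by simp [e]
      rw [e1]
      exact hw
  rw [h]
  exact LinearEquiv.finrank_map_eq e _

/-- The conjugate of a torus element. -/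
theorem IsTorus.conj {n : ℕ} {a : A} (ha : IsTorus q Z n a) (x : A) : IsTorus q Z n (x * a * x⁻¹) := by
  refine ⟨?_, ?_, ?_⟩
  · rw [conj_pow, ha.pow]
    group
  · rw [conj_pow]
    exact ha.refl.conj x
  · intro v hv
    rw [conj_pow, mem_C_conj] at hv
    have h1 := ha.fix _ hv
    rw [mul_smul, mul_smul, h1, smul_inv_smul]

variable {n : ℕ}

/-- The commutator with a torus element lies in the plane. -/
theorem IsTorus.sub_mem (hf : IsSym A f) {b : A} (hb : IsTorus q Z n b) (v : Z) :
    (b ^ 2 ^ (n - 1)) • (b • v - v) = -(b • v - v) := by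
  obtain ⟨p, c, hp, hc, rfl⟩ := decomp hf.two hb.refl.sq v
  have h1 : b • c = c := hb.fix c hc
  have h2 := smul_neg_of_comm (pow_comm b (2 ^ (n - 1))) hp
  have e : b • (p + c) - (p + c) = b • p - p := by
    rw [smul_add, h1]
    abel
  rw [e, smul_sub, h2, hp]
  abel

theorem IsTorus.refl_fix {b : A} {v : Z} (hv : b • v = v) (k : ℕ) : (b ^ k) • v = v := by
  induction k with
  | zero => simp
  | succ k ih => rw [pow_succ, mul_smul, hv, ih]

/-- **The half of the main lemma.** -/
theorem half (hf : IsSym A f) (hn : 2 ≤ n) {r b : A} (hr : IsRefl q Z r) (hb : IsTorus q Z n b)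
    (h1 : Good q Z r (b * r * b⁻¹)) (h2 : Good q Z r (b ^ 2 * r * (b ^ 2)⁻¹))
    (hdisj : ∀ v : Z, r • v = -v → (b ^ 2 ^ (n - 1)) • v = -v → v = 0) :
    ∀ v : Z, r • v = -v → (b ^ 2 ^ (n - 1)) • v = v := by
  classical
  intro v hv
  set s := b ^ 2 ^ (n - 1) with hs
  have hsdim := hb.refl
  rw [← hs] at hsdim
  rcases h1 with h1 | h1
  · have hc : b * r = r * b := by
      have := congrArg (· * b) h1.symm
      simpa using this
    have h3 : r • (b • v - v) = -(b • v - v) := by
      rw [smul_sub, smul_neg_of_comm hc hv, hv]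
      abel
    have h4 : b • v - v = 0 := hdisj _ h3 (hb.sub_mem hf v)
    have h5 : b • v = v := sub_eq_zero.mp h4
    exact IsTorus.refl_fix h5 _
  · exfalso
    -- (i)
    have hi : ∀ v : Z, r • v = -v → r • b • v = b • v := by
      intro v hv
      apply h1.2
      apply mem_Pl_conj.mpr
      rw [inv_smul_smul]
      exact hv
    have h2z := hf.two
    have hPC : ∀ v : Z, r • v = -v → r • v = v → v = 0 := by
      intro v h h'
      exact eq_zero_of_eq_neg h2z (h'.symm.trans h)
    let T : Z →ₗ[ZMod q] Z := DistribSMul.toLinearMap (ZMod q) Z b - LinearMap.id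
    have hTv : ∀ v, T v = b • v - v := fun v => rfl
    have hinj : ∀ v ∈ Pl q Z r, T v = 0 → v = 0 := by
      intro v hv h0
      rw [hTv, sub_eq_zero] at h0
      have h3 := hi v hv
      rw [h0] at h3
      exact hPC v hv h3
    have hsurj : ∀ w : Z, s • w = -w → ∃ v₁ : Z, r • v₁ = -v₁ ∧ w = b • v₁ - v₁ := by
      intro w hw
      obtain ⟨v₁, hv₁, e⟩ := plane_surj hr.dim hsdim.dim T (fun v _ => hb.sub_mem hf v) hinj hw
      exact ⟨v₁, hv₁, e⟩
    obtain ⟨v₀, hv₀, hv₀r⟩ := hr.exists_ne
    rcases h2 with h2 | h2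
    · have hc : b ^ 2 * r = r * b ^ 2 := by
        have := congrArg (· * b ^ 2) h2.symm
        simpa using this
      have hiii : ∀ v : Z, r • v = -v → r • (b ^ 2) • v = -((b ^ 2) • v) := fun v hv =>
        smul_neg_of_comm hc hv
      have hclaim : ∀ v : Z, r • v = -v → (b ^ 2) • v = v := by
        intro v hv
        obtain ⟨v₁, hv₁, e⟩ := hsurj (b • b • v - b • v) (hb.sub_mem hf (b • v))
        have e2 : (b ^ 2) • v = b • b • v := by rw [pow_two, mul_smul]
        have hX : b • b • v + v₁ = b • v + b • v₁ := by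
          have := congrArg (· + v₁ + b • v) e
          calc b • b • v + v₁ = (b • b • v - b • v) + v₁ + b • v := by abel
            _ = (b • v₁ - v₁) + v₁ + b • v := this
            _ = b • v + b • v₁ := by abel
        have hX0 : b • b • v + v₁ = 0 := by
          apply hPC
          · rw [smul_add, ← e2, hiii v hv, hv₁, neg_add]
          · rw [hX, smul_add, hi v hv, hi v₁ hv₁]
        have h6 : b • v₁ = b • (-v) := by
          have h7 : b • v + b • v₁ = 0 := by rw [← hX, hX0]
          rw [smul_neg]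
          exact eq_neg_of_add_eq_zero_right h7
        have h8 : v₁ = -v := smul_left_cancel b h6
        rw [e2]
        rw [h8] at hX0
        exact sub_eq_zero.mp (by rw [sub_eq_add_neg]; exact hX0)
      -- `b ^ 2` is trivial on the plane of `s`
      have hw : ∀ w : Z, s • w = -w → (b ^ 2) • w = w := by
        intro w hw
        obtain ⟨v₁, hv₁, rfl⟩ := hsurj w hw
        have e4 : (b ^ 2) • b • v₁ = b • (b ^ 2) • v₁ := by
          rw [smul_smul, smul_smul, pow_comm b 2]
        rw [smul_sub, e4, hclaim v₁ hv₁]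
      obtain ⟨w₀, hw₀, hw₀s⟩ := hsdim.exists_ne
      have e3 : s = (b ^ 2) ^ 2 ^ (n - 2) := by
        rw [hs, ← pow_mul, ← pow_succ']
        congr 2
        omega
      have h9 := IsTorus.refl_fix (hw w₀ hw₀s) (2 ^ (n - 2))
      rw [← e3, hw₀s] at h9
      exact hw₀ (eq_zero_of_eq_neg h2z h9.symm)
    · have hiv : ∀ v : Z, r • v = -v → r • (b ^ 2) • v = (b ^ 2) • v := by
        intro v hv
        apply h2.2
        apply mem_Pl_conj.mpr
        rw [inv_smul_smul]
        exact hv
      have hclaim : ∀ v : Z, r • v = -v → v = 0 := by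
        intro v hv
        have e2 : (b ^ 2) • v = b • b • v := by rw [pow_two, mul_smul]
        obtain ⟨v₁, hv₁, e⟩ := hsurj (b • b • v - b • v) (hb.sub_mem hf (b • v))
        have hrw : r • (b • b • v - b • v) = b • b • v - b • v := by
          rw [smul_sub, ← e2, hiv v hv, hi v hv]
        have hv₁0 : v₁ = 0 := by
          rw [e, smul_sub, hi v₁ hv₁, hv₁] at hrw
          have h10 : (2 : ZMod q) • v₁ = 0 := by
            rw [two_smul]
            have h11 : b • v₁ - -v₁ = b • v₁ - v₁ := hrw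
            have h12 : v₁ + v₁ = (b • v₁ - -v₁) - (b • v₁ - v₁) := by abel
            rw [h12, h11, sub_self]
          exact (smul_eq_zero.mp h10).resolve_left h2z
        rw [hv₁0] at e
        simp only [smul_zero, sub_zero] at e
        have h13 : b • b • v = b • v := sub_eq_zero.mp e
        have h14 : b • v = v := smul_left_cancel b h13
        apply hinj v hv
        rw [hTv, h14, sub_self]
      exact hv₀ (hclaim v₀ hv₀r)

end tori

end Cfsg.Agent.Lib.BryG.Sym
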