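import Mathlib
import Cfsg.Agent.Lib.BryG.Sym

/-!
# The main lemma on tori in a `2`-group, and frames
-/

set_option autoImplicit false
set_option linter.unusedSectionVars false
set_option linter.style.haveILetI false

namespace Cfsg.Agent.Lib.BryG.Sym

open Module

variable {q : ℕ} [Fact q.Prime] {Z : Type*} [AddCommGroup Z] [Module (ZMod q) Z]
variable {A : Type*} [Group A] [DistribMulAction A Z] [SMulCommClass A (ZMod q) Z]
variable {f : Z →ₗ[ZMod q] Z →ₗ[ZMod q] ZMod q}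

theorem exists_normal_proper {G : Type*} [Group G] [Finite G] {T H : Subgroup G} (hT : IsPGroup 2 T) (hH : H ≤ T)
    (hne : H ≠ T) : ∃ M : Subgroup G, H ≤ M ∧ M ≤ T ∧ M ≠ T ∧ ∀ t ∈ T, ∀ x ∈ M, t * x * t⁻¹ ∈ M := by
  classical
  haveI : Fact (Nat.Prime 2) := ⟨Nat.prime_two⟩
  haveI : Group.IsNilpotent T := hT.isNilpotent
  have hH' : H.subgroupOf T ≠ ⊤ := by
    intro h
    rw [Subgroup.subgroupOf_eq_top] at h
    exact hne (le_antisymm hH h)
  obtain ⟨M', hM', hle⟩ := (eq_top_or_exists_le_coatom (H.subgroupOf T)).resolve_left hH'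
  have hnorm : Subgroup.normalizer (M' : Set T) = ⊤ :=
    hM'.2 _ (Group.normalizerCondition_of_isNilpotent _ hM'.lt_top)
  have hM'n : M'.Normal := Subgroup.normalizer_eq_top_iff.mp hnorm
  refine ⟨M'.map T.subtype, ?_, Subgroup.map_subtype_le _, ?_, ?_⟩
  · intro h hh
    exact ⟨⟨h, hH hh⟩, hle hh, rfl⟩
  · intro h
    apply hM'.1
    rw [eq_top_iff]
    intro x _
    have hx : (x : G) ∈ M'.map T.subtype := by rw [h]; exact x.2
    obtain ⟨y, hy, hyx⟩ := hx
    have : y = x := Subtype.ext hyx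
    rwa [← this]
  · rintro t ht _ ⟨y, hy, rfl⟩
    exact ⟨⟨t, ht⟩ * y * ⟨t, ht⟩⁻¹, hM'n.conj_mem y hy _, rfl⟩

section main

variable [Finite Z] {n : ℕ}

/-- **The main lemma.** Two torus elements in a `2`-group have equal or orthogonal planes. -/
theorem good_of_tori [Finite A] [FaithfulSMul A Z] (hf : IsSym A f) (hn : 2 ≤ n) :
    ∀ (N : ℕ) (a b : A), Nat.card (Subgroup.closure ({a, b} : Set A)) ≤ N → IsTorus q Z n a → IsTorus q Z n b →
      IsPGroup 2 (Subgroup.closure ({a, b} : Set A)) → Good q Z (a ^ 2 ^ (n - 1)) (b ^ 2 ^ (n - 1)) := by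
  classical
  haveI : Fact (Nat.Prime 2) := ⟨Nat.prime_two⟩
  intro N
  induction N with
  | zero =>
    intro a b h
    have := Nat.card_pos (α := Subgroup.closure ({a, b} : Set A))
    omega
  | succ N ih =>
    have key : ∀ a b : A, Nat.card (Subgroup.closure ({a, b} : Set A)) ≤ N + 1 → IsTorus q Z n a →
        IsPGroup 2 (Subgroup.closure ({a, b} : Set A)) → ∀ j : ℕ,
        Good q Z (a ^ 2 ^ (n - 1)) (b ^ j * a ^ 2 ^ (n - 1) * (b ^ j)⁻¹) := by
      intro a b hcard ha hT j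
      set T := Subgroup.closure ({a, b} : Set A) with hTdef
      have haT : a ∈ T := Subgroup.subset_closure (by simp)
      have hbT : b ∈ T := Subgroup.subset_closure (by simp)
      by_cases hb : b ∈ Subgroup.zpowers a
      · left
        obtain ⟨k, rfl⟩ := Subgroup.mem_zpowers_iff.mp hb
        have hc : Commute (a ^ k) a := (Commute.refl a).zpow_left k
        have hc2 : Commute ((a ^ k) ^ j) (a ^ 2 ^ (n - 1)) := (hc.pow_left j).pow_right _
        rw [hc2.eq]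
        simp
      · have hle : Subgroup.zpowers a ≤ T := by
          rw [Subgroup.zpowers_le]
          exact haT
        have hne : Subgroup.zpowers a ≠ T := fun h => hb (h ▸ hbT)
        obtain ⟨M, hM1, hM2, hM3, hM4⟩ := exists_normal_proper hT hle hne
        have haM : a ∈ M := hM1 (Subgroup.mem_zpowers a)
        have hajM : b ^ j * a * (b ^ j)⁻¹ ∈ M := hM4 _ (pow_mem hbT j) a haM
        have hclle : Subgroup.closure ({a, b ^ j * a * (b ^ j)⁻¹} : Set A) ≤ M := by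
          rw [Subgroup.closure_le]
          rintro x (rfl | rfl)
          · exact haM
          · exact hajM
        have hlt : Nat.card M < Nat.card T :=
          Nat.lt_of_le_of_ne (Subgroup.card_le_of_le hM2) (fun h => hM3 (Subgroup.eq_of_le_of_card_ge hM2 h.ge))
        have hcard2 : Nat.card (Subgroup.closure ({a, b ^ j * a * (b ^ j)⁻¹} : Set A)) ≤ N := by
          have := Subgroup.card_le_of_le hclle
          omega
        have h1 := ih a (b ^ j * a * (b ^ j)⁻¹) hcard2 ha (ha.conj _) (hT.to_le (hclle.trans hM2))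
        rwa [conj_pow] at h1
    intro a b hcard ha hb hT
    set T := Subgroup.closure ({a, b} : Set A) with hTdef
    have haT : a ∈ T := Subgroup.subset_closure (by simp)
    have hbT : b ∈ T := Subgroup.subset_closure (by simp)
    by_cases hm : ∃ v : Z, v ≠ 0 ∧ (a ^ 2 ^ (n - 1)) • v = -v ∧ (b ^ 2 ^ (n - 1)) • v = -v
    · left
      obtain ⟨v, hv0, hva, hvb⟩ := hm
      have hmem : a ^ 2 ^ (n - 1) * b ^ 2 ^ (n - 1) ∈ T := mul_mem (pow_mem haT _) (pow_mem hbT _)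
      obtain ⟨k, hk⟩ := hT ⟨_, hmem⟩
      have hk' : (a ^ 2 ^ (n - 1) * b ^ 2 ^ (n - 1)) ^ 2 ^ k = 1 := by
        have := congrArg Subtype.val hk
        simpa using this
      exact refl_eq_of_meet hf ha.refl hb.refl hk' hva hvb hv0
    · push Not at hm
      have hcomm : Subgroup.closure ({b, a} : Set A) = T := by
        rw [hTdef, Set.pair_comm]
      have k1 := key a b hcard ha hT 1
      have k2 := key a b hcard ha hT 2
      have k3 := key b a (by rw [hcomm]; exact hcard) hb (by rw [hcomm]; exact hT) 1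
      have k4 := key b a (by rw [hcomm]; exact hcard) hb (by rw [hcomm]; exact hT) 2
      rw [pow_one] at k1 k3
      right
      refine ⟨half hf hn ha.refl hb k1 k2 ?_, half hf hn hb.refl ha k3 k4 ?_⟩
      · intro v h1 h2
        by_contra hv0
        exact hm v hv0 h1 h2
      · intro v h1 h2
        by_contra hv0
        exact hm v hv0 h2 h1

/-- Orthogonal involutions commute. -/
theorem Orth.comm (hf : IsSym A f) [FaithfulSMul A Z] {r s : A} (hr : r * r = 1) (hs : s * s = 1)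
    (h : Orth q Z r s) : r * s = s * r := by
  apply FaithfulSMul.eq_of_smul_eq_smul (α := Z)
  intro v
  obtain ⟨p, c, hp, hc, rfl⟩ := decomp hf.two hr v
  obtain ⟨p₁, c₁, hp₁, hc₁, rfl⟩ := decomp hf.two hs c
  have h1 : s • p = p := h.1 p hp
  have h2 : r • p₁ = p₁ := h.2 p₁ hp₁
  have h3 : r • c₁ = c₁ := by
    have e : r • (p₁ + c₁) = p₁ + c₁ := hc
    rw [smul_add, h2] at e
    exact add_left_cancel e
  simp only [mul_smul, smul_add, h1, h2, h3, hp, hp₁, hc₁, smul_neg]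

/-- Orthogonal reflections have disjoint planes. -/
theorem Orth.disj (hf : IsSym A f) {r s : A} (h : Orth q Z r s) {v : Z} (h1 : r • v = -v) (h2 : s • v = -v) : v = 0 := by
  have h3 := h.1 v h1
  rw [h2] at h3
  exact eq_zero_of_eq_neg hf.two h3.symm

end main

section frames

variable [Finite Z] [Finite A] [FaithfulSMul A Z] {n : ℕ} {E : Subgroup A}

/-- A torus element normalising `E` with its reflection in `E`. -/
structure IsT (q : ℕ) [Fact q.Prime] (Z : Type*) [AddCommGroup Z] [Module (ZMod q) Z] {A : Type*} [Group A]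
    [DistribMulAction A Z] [SMulCommClass A (ZMod q) Z] (E : Subgroup A) (n : ℕ) (b : A) : Prop where
  tor : IsTorus q Z n b
  nrm : b ∈ Subgroup.normalizer (E : Set A)
  mem : b ^ 2 ^ (n - 1) ∈ E

theorem isPGroup_sup (hE : IsPGroup 2 E) {b : A} (hb : IsT q Z E n b) :
    IsPGroup 2 (Subgroup.zpowers b ⊔ E : Subgroup A) := by
  refine IsPGroup.to_sup_of_normal_right' ?_ hE ?_
  · rintro ⟨x, k, rfl⟩
    refine ⟨n, Subtype.ext ?_⟩
    have e : (b ^ k) ^ 2 ^ n = (b ^ 2 ^ n) ^ k := by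
      rw [← zpow_natCast, ← zpow_mul, ← zpow_natCast b (2 ^ n), ← zpow_mul, mul_comm]
    simpa [hb.tor.pow] using e
  · rw [Subgroup.zpowers_le]
    exact hb.nrm

theorem two_elt (hE : IsPGroup 2 E) {b x : A} (hb : IsT q Z E n b)
    (hx : x ∈ (Subgroup.zpowers b ⊔ E : Subgroup A)) : ∃ k : ℕ, x ^ 2 ^ k = 1 := by
  obtain ⟨k, hk⟩ := isPGroup_sup hE hb ⟨x, hx⟩
  refine ⟨k, ?_⟩
  have := congrArg Subtype.val hk
  simpa using this

theorem good_conj (hf : IsSym A f) (hn : 2 ≤ n) (hE : IsPGroup 2 E) {b : A} (hb : IsT q Z E n b) {x y : A} (hx : x ∈ E)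
    (hy : y ∈ E) :
    Good q Z (x * b ^ 2 ^ (n - 1) * x⁻¹) (y * b ^ 2 ^ (n - 1) * y⁻¹) := by
  have hT := isPGroup_sup hE hb
  have hbT : b ∈ (Subgroup.zpowers b ⊔ E : Subgroup A) :=
    Subgroup.mem_sup_left (Subgroup.mem_zpowers b)
  have hconj : ∀ w ∈ E, w * b * w⁻¹ ∈ (Subgroup.zpowers b ⊔ E : Subgroup A) := fun w hw =>
    mul_mem (mul_mem (Subgroup.mem_sup_right hw) hbT) (inv_mem (Subgroup.mem_sup_right hw))
  have hle : Subgroup.closure ({x * b * x⁻¹, y * b * y⁻¹} : Set A) ≤ (Subgroup.zpowers b ⊔ E : Subgroup A) := by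
    rw [Subgroup.closure_le]
    rintro w (rfl | rfl)
    · exact hconj x hx
    · exact hconj y hy
  have h := good_of_tori hf hn _ _ _ le_rfl (hb.tor.conj x) (hb.tor.conj y) (hT.to_le hle)
  rwa [conj_pow, conj_pow] at h

/-- The conjugate of an involution fixing the plane pointwise. -/
theorem conj_eq_of_fix (hf : IsSym A f) {s r : A} (hr : r * r = 1) (hfix : ∀ u : Z, r • u = -u → s • u = u) :
    s * r * s⁻¹ = r := by
  apply eq_of_P hf (conj_sq hr s) hr
  intro v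
  rw [mem_Pl_conj]
  constructor
  · intro h
    have h1 := hfix _ h
    rw [smul_inv_smul] at h1
    rw [← h1] at h
    exact h
  · intro h
    have h1 := hfix _ h
    have h2 : s⁻¹ • v = v := by
      nth_rewrite 1 [← h1]
      rw [inv_smul_smul]
    rw [h2]
    exact h

theorem inv_eq_of_sq {r : A} (hr : r * r = 1) : r⁻¹ = r := inv_eq_of_mul_eq_one_left hr

/-- The plane of an involution moving a plane. -/
theorem swap_plane (hf : IsSym A f) {s r₁ r₂ : A} (hs : IsRefl q Z s) (hr₁ : IsRefl q Z r₁)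
    (h12 : Orth q Z r₁ r₂) (he : s * r₁ * s⁻¹ = r₂) {w : Z} (hw : s • w = -w) :
    ∃ v : Z, r₁ • v = -v ∧ r₂ • (s • v) = -(s • v) ∧ w = s • v - v := by
  let T : Z →ₗ[ZMod q] Z := DistribSMul.toLinearMap (ZMod q) Z s - LinearMap.id
  have hTv : ∀ v, T v = s • v - v := fun v => rfl
  have hP2 : ∀ v : Z, r₁ • v = -v → r₂ • (s • v) = -(s • v) := by
    intro v hv
    rw [← he]
    apply mem_Pl_conj.mpr
    rw [inv_smul_smul]
    exact hv
  have hT1 : ∀ v ∈ Pl q Z r₁, T v ∈ Pl q Z s := by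
    intro v _
    rw [hTv, mem_Pl, smul_sub, smul_smul_of_sq hs.sq]
    abel
  have hinj : ∀ v ∈ Pl q Z r₁, T v = 0 → v = 0 := by
    intro v hv h0
    rw [hTv, sub_eq_zero] at h0
    have h3 := hP2 v hv
    rw [h0] at h3
    exact h12.disj hf hv h3
  obtain ⟨v, hv, e⟩ := plane_surj hr₁.dim hs.dim T hT1 hinj hw
  exact ⟨v, hv, hP2 v hv, e⟩

/-- An involution moving one plane fixes the third plane pointwise. -/
theorem fix_third (hf : IsSym A f) {s r₁ r₂ r₃ : A} (hs : IsRefl q Z s) (hr₁ : IsRefl q Z r₁)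
    (h12 : Orth q Z r₁ r₂) (h13 : Orth q Z r₁ r₃) (h23 : Orth q Z r₂ r₃) (he : s * r₁ * s⁻¹ = r₂) :
    ∀ u : Z, r₃ • u = -u → s • u = u := by
  intro u hu
  apply mem_C_of_perp hf hs.sq
  intro w hw
  obtain ⟨v, hv, hv2, rfl⟩ := swap_plane hf hs hr₁ h12 he hw
  rw [map_sub, f_C_P hf hv2 (h23.2 u hu), f_C_P hf hv (h13.2 u hu), sub_zero]

/-- **No three edges.** -/
theorem no_three (hf : IsSym A f) {s s' r₁ r₂ r₃ : A} (hs : IsRefl q Z s) (hs' : IsRefl q Z s') (hr₁ : IsRefl q Z r₁)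
    (hr₂ : IsRefl q Z r₂) (hr₃ : IsRefl q Z r₃)
    (h12 : Orth q Z r₁ r₂) (h13 : Orth q Z r₁ r₃) (h23 : Orth q Z r₂ r₃) (he : s * r₁ * s⁻¹ = r₂)
    (he' : s' * r₁ * s'⁻¹ = r₃) {k : ℕ} (hk : (s * s') ^ 2 ^ k = 1) : False := by
  classical
  have hsi := inv_eq_of_sq hs.sq
  have hs'i := inv_eq_of_sq hs'.sq
  have e1 : s * r₃ * s⁻¹ = r₃ := conj_eq_of_fix hf hr₃.sq (fix_third hf hs hr₁ h12 h13 h23 he)
  have e2 : s' * r₂ * s'⁻¹ = r₂ := conj_eq_of_fix hf hr₂.sq (fix_third hf hs' hr₁ h13 h12 h23.symm he')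
  have e3 : s' * r₃ * s'⁻¹ = r₁ := by
    rw [← he', hs'i]
    calc s' * (s' * r₁ * s') * s' = (s' * s') * r₁ * (s' * s') := by group
      _ = r₁ := by rw [hs'.sq]; simp
  set x := s * s' with hx
  have hxi : x⁻¹ = s'⁻¹ * s⁻¹ := by rw [hx, mul_inv_rev]
  have c1 : x * r₁ * x⁻¹ = r₃ := by
    rw [hxi, hx]
    calc s * s' * r₁ * (s'⁻¹ * s⁻¹) = s * (s' * r₁ * s'⁻¹) * s⁻¹ := by group
      _ = r₃ := by rw [he', e1]
  have c2 : x * r₃ * x⁻¹ = r₂ := by
    rw [hxi, hx]
    calc s * s' * r₃ * (s'⁻¹ * s⁻¹) = s * (s' * r₃ * s'⁻¹) * s⁻¹ := by group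
      _ = r₂ := by rw [e3, he]
  have c3 : x * r₂ * x⁻¹ = r₁ := by
    rw [hxi, hx]
    have e4 : s * r₂ * s⁻¹ = r₁ := by
      rw [← he, hsi]
      calc s * (s * r₁ * s) * s = (s * s) * r₁ * (s * s) := by group
        _ = r₁ := by rw [hs.sq]; simp
    calc s * s' * r₂ * (s'⁻¹ * s⁻¹) = s * (s' * r₂ * s'⁻¹) * s⁻¹ := by group
      _ = r₁ := by rw [e2, e4]
  have c4 : x ^ 3 * r₁ * (x ^ 3)⁻¹ = r₁ := by
    have e : x ^ 3 = x * x * x := by rw [pow_succ, pow_two]
    calc x ^ 3 * r₁ * (x ^ 3)⁻¹ = x * x * x * r₁ * (x * x * x)⁻¹ := by rw [e]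
      _ = x * (x * (x * r₁ * x⁻¹) * x⁻¹) * x⁻¹ := by group
      _ = r₁ := by rw [c1, c2, c3]
  have hcop : Nat.Coprime 3 (orderOf x) := by
    have hd : orderOf x ∣ 2 ^ k := orderOf_dvd_of_pow_eq_one hk
    exact Nat.Coprime.coprime_dvd_right hd (Nat.Coprime.pow_right k (by norm_num))
  obtain ⟨m, hm⟩ := exists_pow_eq_self_of_coprime hcop
  have c5 : ∀ j : ℕ, (x ^ 3) ^ j * r₁ * ((x ^ 3) ^ j)⁻¹ = r₁ := by
    intro j
    induction j with
    | zero => simp
    | succ j ih =>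
      calc (x ^ 3) ^ (j + 1) * r₁ * ((x ^ 3) ^ (j + 1))⁻¹
          = (x ^ 3) * ((x ^ 3) ^ j * r₁ * ((x ^ 3) ^ j)⁻¹) * (x ^ 3)⁻¹ := by
            rw [pow_succ' (x ^ 3) j]
            group
        _ = r₁ := by rw [ih, c4]
  have c6 := c5 m
  rw [hm, c1] at c6
  obtain ⟨v, hv0, hv⟩ := hr₁.exists_ne
  rw [c6] at h13
  exact hv0 (h13.disj hf hv hv)

variable {ℛ : Set A}

/-- The action on a frame. -/
def Frm (r r₁ x : A) : Prop :=
  (x * r * x⁻¹ = r ∧ x * r₁ * x⁻¹ = r₁) ∨ (x * r * x⁻¹ = r₁ ∧ x * r₁ * x⁻¹ = r)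

theorem Frm.mul {r r₁ x y : A} (hx : Frm r r₁ x) (hy : Frm r r₁ y) : Frm r r₁ (x * y) := by
  have e : ∀ t : A, (x * y) * t * (x * y)⁻¹ = x * (y * t * y⁻¹) * x⁻¹ := fun t => by group
  unfold Frm
  rw [e, e]
  rcases hy with ⟨h1, h2⟩ | ⟨h1, h2⟩ <;> rw [h1, h2] <;> rcases hx with ⟨h3, h4⟩ | ⟨h3, h4⟩
  · exact Or.inl ⟨h3, h4⟩
  · exact Or.inr ⟨h3, h4⟩
  · exact Or.inr ⟨h4, h3⟩
  · exact Or.inl ⟨h4, h3⟩

theorem Frm.inv {r r₁ x : A} (hx : Frm r r₁ x) : Frm r r₁ x⁻¹ := by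
  have e : ∀ {t t' : A}, x * t * x⁻¹ = t' → x⁻¹ * t' * x⁻¹⁻¹ = t := by
    intro t t' h
    rw [← h]
    group
  rcases hx with ⟨h1, h2⟩ | ⟨h1, h2⟩
  · exact Or.inl ⟨e h1, e h2⟩
  · exact Or.inr ⟨e h2, e h1⟩

theorem Frm.one {r r₁ : A} : Frm r r₁ (1 : A) := Or.inl ⟨by simp, by simp⟩

/-- **The frame theorem.** -/
theorem frame (hf : IsSym A f) (hn : 2 ≤ n) (hE : IsPGroup 2 E) (hℛ : Subgroup.closure ℛ = E)
    (hℛr : ∀ s ∈ ℛ, IsRefl q Z s) {b : A} (hb : IsT q Z E n b) :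
    (∀ x ∈ E, x * b ^ 2 ^ (n - 1) * x⁻¹ = b ^ 2 ^ (n - 1)) ∨
    ∃ r₁ : A, IsRefl q Z r₁ ∧ Orth q Z (b ^ 2 ^ (n - 1)) r₁ ∧ r₁ ∈ E ∧ (∃ s ∈ ℛ, s * b ^ 2 ^ (n - 1) * s⁻¹ = r₁) ∧
      ∀ x ∈ E, Frm (b ^ 2 ^ (n - 1)) r₁ x := by
  classical
  set r := b ^ 2 ^ (n - 1) with hr
  have hrr : IsRefl q Z r := hb.tor.refl
  have hgood : ∀ {x y : A}, x ∈ E → y ∈ E → Good q Z (x * r * x⁻¹) (y * r * y⁻¹) :=
    fun hx hy => good_conj hf hn hE hb hx hy
  have hRE : ∀ s ∈ ℛ, s ∈ E := fun s hs => hℛ ▸ Subgroup.subset_closure hs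
  have hel : ∀ x ∈ E, ∃ k : ℕ, x ^ 2 ^ k = 1 := by
    intro x hx
    obtain ⟨k, hk⟩ := hE ⟨x, hx⟩
    refine ⟨k, ?_⟩
    have := congrArg Subtype.val hk
    simpa using this
  by_cases hall : ∀ s ∈ ℛ, s * r * s⁻¹ = r
  · left
    rw [← hℛ]
    intro x hx
    induction hx using Subgroup.closure_induction with
    | mem x hx => exact hall x hx
    | one => simp
    | mul x y _ _ hx hy =>
      calc (x * y) * r * (x * y)⁻¹ = x * (y * r * y⁻¹) * x⁻¹ := by group
        _ = r := by rw [hy, hx]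
    | inv x _ hx =>
      calc x⁻¹ * r * x⁻¹⁻¹ = x⁻¹ * (x * r * x⁻¹) * x := by
            rw [hx]
            group
        _ = r := by group
  · right
    push Not at hall
    obtain ⟨s₁, hs₁, hne⟩ := hall
    have hs₁E := hRE s₁ hs₁
    set r₁ := s₁ * r * s₁⁻¹ with hr₁def
    have hr₁ : IsRefl q Z r₁ := hrr.conj s₁
    have hrE : r ∈ E := hb.mem
    have hr₁E : r₁ ∈ E := mul_mem (mul_mem hs₁E hrE) (inv_mem hs₁E)
    have horth01 : Orth q Z r r₁ := by
      have h := hgood (x := 1) (y := s₁) (one_mem _) hs₁E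
      simp only [one_mul, inv_one, mul_one] at h
      rcases h with h | h
      · exact absurd h.symm hne
      · exact h
    -- any conjugate is equal or orthogonal
    have hgood' : ∀ x ∈ E, ∀ y ∈ E, x * r * x⁻¹ = y * r * y⁻¹ ∨ Orth q Z (x * r * x⁻¹) (y * r * y⁻¹) :=
      fun x hx y hy => hgood hx hy
    have hs₁i := inv_eq_of_sq (hℛr s₁ hs₁).sq
    have e₁ : s₁ * r₁ * s₁⁻¹ = r := by
      rw [hr₁def, hs₁i]
      calc s₁ * (s₁ * r * s₁) * s₁ = (s₁ * s₁) * r * (s₁ * s₁) := by group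
        _ = r := by rw [(hℛr s₁ hs₁).sq]; simp
    have hgen : ∀ s ∈ ℛ, Frm r r₁ s := by
      intro s hs
      have hsE := hRE s hs
      have hsr := hℛr s hs
      obtain ⟨k, hk⟩ := hel (s₁ * s) (mul_mem hs₁E hsE)
      have h1 : s * r * s⁻¹ = r ∨ s * r * s⁻¹ = r₁ := by
        by_contra hcon
        push Not at hcon
        have h2 : Orth q Z r (s * r * s⁻¹) := by
          have h := hgood (x := 1) (y := s) (one_mem _) hsE
          simp only [one_mul, inv_one, mul_one] at h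
          rcases h with h | h
          · exact absurd h.symm hcon.1
          · exact h
        have h3 : Orth q Z r₁ (s * r * s⁻¹) := by
          have h := hgood hs₁E hsE
          rcases h with h | h
          · exact absurd h.symm hcon.2
          · exact h
        exact no_three hf (hℛr s₁ hs₁) hsr hrr hr₁ (hrr.conj s) horth01 h2 h3 rfl rfl hk
      have h1' : s * r₁ * s⁻¹ = r ∨ s * r₁ * s⁻¹ = r₁ := by
        by_contra hcon
        push Not at hcon
        have hx : s * s₁ ∈ E := mul_mem hsE hs₁E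
        have ee : s * r₁ * s⁻¹ = (s * s₁) * r * (s * s₁)⁻¹ := by
          rw [hr₁def]
          group
        have h2 : Orth q Z r (s * r₁ * s⁻¹) := by
          have h := hgood (x := 1) (y := s * s₁) (one_mem _) hx
          simp only [one_mul, inv_one, mul_one] at h
          rw [← ee] at h
          rcases h with h | h
          · exact absurd h.symm hcon.1
          · exact h
        have h3 : Orth q Z r₁ (s * r₁ * s⁻¹) := by
          have h := hgood hs₁E hx
          rw [← ee] at h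
          rcases h with h | h
          · exact absurd h.symm hcon.2
          · exact h
        exact no_three hf (hℛr s₁ hs₁) hsr hr₁ hrr (hr₁.conj s) horth01.symm h3 h2 e₁ rfl hk
      have hinj : ∀ {t t' : A}, s * t * s⁻¹ = s * t' * s⁻¹ → t = t' := by
        intro t t' h
        have := congrArg (fun w => s⁻¹ * w * s) h
        simpa [mul_assoc] using this
      rcases h1 with h1 | h1 <;> rcases h1' with h1' | h1'
      · exact absurd (hinj (h1.trans h1'.symm)).symm hne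
      · exact Or.inl ⟨h1, h1'⟩
      · exact Or.inr ⟨h1, h1'⟩
      · exact absurd (hinj (h1.trans h1'.symm)).symm hne
    refine ⟨r₁, hr₁, horth01, hr₁E, ⟨s₁, hs₁, rfl⟩, ?_⟩
    rw [← hℛ]
    intro x hx
    induction hx using Subgroup.closure_induction with
    | mem x hx => exact hgen x hx
    | one => exact Frm.one
    | mul x y _ _ hx hy => exact hx.mul hy
    | inv x _ hx => exact hx.inv

end frames

end Cfsg.Agent.Lib.BryG.Sym
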