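import Mathlib
import Cfsg.Agent.Lib.BryG.Frame

/-!
# Tori, frames and the commutators `y_{cu} y_c⁻¹`
-/

set_option autoImplicit false
set_option linter.unusedSectionVars false
set_option linter.style.haveILetI false

namespace Cfsg.Agent.Lib.BryG.Sym

open Module

variable {q : ℕ} [Fact q.Prime] {Z : Type*} [AddCommGroup Z] [Module (ZMod q) Z]
variable {A : Type*} [Group A] [DistribMulAction A Z] [SMulCommClass A (ZMod q) Z]
variable {f : Z →ₗ[ZMod q] Z →ₗ[ZMod q] ZMod q}

section signs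

/-- The element `x` acts as a sign on the plane of `r`. -/
def Sg (q : ℕ) (Z : Type*) [AddCommGroup Z] [Module (ZMod q) Z] {A : Type*} [Group A] [DistribMulAction A Z]
    (r x : A) : Prop :=
  ∃ ε : ZMod q, (ε = 1 ∨ ε = -1) ∧ ∀ v : Z, r • v = -v → x • v = ε • v

theorem sign_sq {ε : ZMod q} (h : ε = 1 ∨ ε = -1) : ε * ε = 1 := by
  rcases h with rfl | rfl <;> simp

theorem sign_mul {ε δ : ZMod q} (h : ε = 1 ∨ ε = -1) (h' : δ = 1 ∨ δ = -1) : ε * δ = 1 ∨ ε * δ = -1 := by
  rcases h with rfl | rfl <;> rcases h' with rfl | rfl <;> simp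

theorem sign_smul_smul {ε : ZMod q} (h : ε = 1 ∨ ε = -1) (v : Z) : ε • ε • v = v := by
  rw [smul_smul, sign_sq h, one_smul]

theorem Sg.one {r : A} : Sg q Z r (1 : A) := ⟨1, Or.inl rfl, fun v _ => by simp⟩

theorem Sg.mul {r x y : A} (hx : Sg q Z r x) (hy : Sg q Z r y) : Sg q Z r (x * y) := by
  obtain ⟨ε, hε, h1⟩ := hx
  obtain ⟨δ, hδ, h2⟩ := hy
  refine ⟨ε * δ, sign_mul hε hδ, fun v hv => ?_⟩
  rw [mul_smul, h2 v hv, smul_comm, h1 v hv, smul_smul, mul_comm]

theorem Sg.inv {r x : A} (hx : Sg q Z r x) : Sg q Z r x⁻¹ := by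
  obtain ⟨ε, hε, h1⟩ := hx
  refine ⟨ε, hε, fun v hv => ?_⟩
  have h2 := h1 v hv
  have h3 : ε • (x⁻¹ • v) = v := by
    rw [← smul_comm x⁻¹ ε v, ← h2, inv_smul_smul]
  calc x⁻¹ • v = ε • ε • (x⁻¹ • v) := (sign_smul_smul hε _).symm
    _ = ε • v := by rw [h3]

variable [Finite Z]

/-- An element acting as an involution on a plane acts as a sign. -/
theorem sign_of_comm (hf : IsSym A f) {r x : A} (hr : IsRefl q Z r) (hc : x * r = r * x)
    (hx2 : ∀ v : Z, r • v = -v → x • x • v = v) : Sg q Z r x := by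
  classical
  have h2 := hf.two
  by_cases h : ∃ v : Z, v ≠ 0 ∧ r • v = -v ∧ x • v = v
  · obtain ⟨v, hv0, hvr, hvx⟩ := h
    obtain ⟨p, hp, hvp⟩ := exists_partner hf hr hvr hv0
    set u := (2 : ZMod q)⁻¹ • (p + x • p) with hu
    have hxp : r • x • p = -(x • p) := smul_neg_of_comm hc hp
    have hur : r • u = -u := by
      rw [hu, smul_comm, smul_add, hp, hxp, ← neg_add, smul_neg]
    have hux : x • u = u := by
      rw [hu, smul_comm, smul_add, hx2 p hp, add_comm]
    have hfvu : f v u = 1 := by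
      rw [hu, map_smul, map_add]
      have e : f v (x • p) = f v p := by
        have := hf.inv x v p
        rwa [hvx] at this
      rw [e, hvp, smul_eq_mul, ← two_mul, mul_one, inv_mul_cancel₀ h2]
    refine ⟨1, Or.inl rfl, fun w hw => ?_⟩
    obtain ⟨a, b, rfl⟩ := combo_of_partner hf hr hvr hur hfvu hw
    rw [one_smul, smul_add, smul_comm, hvx, smul_comm x b, hux]
  · push Not at h
    refine ⟨-1, Or.inr rfl, fun w hw => ?_⟩
    set u := (2 : ZMod q)⁻¹ • (w + x • w) with hu
    have hxw : r • x • w = -(x • w) := smul_neg_of_comm hc hw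
    have hur : r • u = -u := by
      rw [hu, smul_comm, smul_add, hw, hxw, ← neg_add, smul_neg]
    have hux : x • u = u := by
      rw [hu, smul_comm, smul_add, hx2 w hw, add_comm]
    have hu0 : u = 0 := by
      by_contra hne
      exact h u hne hur hux
    have h3 : w + x • w = 0 := by
      have := (smul_eq_zero.mp hu0).resolve_left (inv_ne_zero h2)
      exact this
    rw [neg_smul, one_smul]
    exact eq_neg_of_add_eq_zero_right h3

variable [Finite A] [FaithfulSMul A Z] {n : ℕ} {E : Subgroup A} {ℛ : Set A}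

theorem sg_of_fix (hf : IsSym A f) (hℛ : Subgroup.closure ℛ = E) (hℛr : ∀ s ∈ ℛ, IsRefl q Z s) {r : A} (hr : IsRefl q Z r)
    (hfix : ∀ x ∈ E, x * r * x⁻¹ = r) : ∀ x ∈ E, Sg q Z r x := by
  have hRE : ∀ s ∈ ℛ, s ∈ E := fun s hs => hℛ ▸ Subgroup.subset_closure hs
  rw [← hℛ]
  intro x hx
  induction hx using Subgroup.closure_induction with
  | mem x hx =>
    apply sign_of_comm hf hr
    · have := congrArg (· * x) (hfix x (hRE x hx))
      simpa using this
    · intro v _
      exact smul_smul_of_sq (hℛr x hx).sq v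
  | one => exact Sg.one
  | mul x y _ _ hx hy => exact hx.mul hy
  | inv x _ hx => exact hx.inv

/-- **The case of a fixed plane.** -/
theorem fix_case (hf : IsSym A f) (hn : 2 ≤ n) (hℛ : Subgroup.closure ℛ = E) (hℛr : ∀ s ∈ ℛ, IsRefl q Z s) {b ν : A}
    (hb : IsT q Z E n b) (hfix : ∀ x ∈ E, x * b ^ 2 ^ (n - 1) * x⁻¹ = b ^ 2 ^ (n - 1)) (hν : ν ∈ E)
    (hy : (b * ν) ^ 2 ^ (n - 1) = 1 ∨ IsRefl q Z ((b * ν) ^ 2 ^ (n - 1))) :
    (b * ν) ^ 2 ^ (n - 1) = b ^ 2 ^ (n - 1) := by
  set r := b ^ 2 ^ (n - 1) with hrdef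
  have hr : IsRefl q Z r := hb.tor.refl
  obtain ⟨ε, hε, hνv⟩ := sg_of_fix hf hℛ hℛr hr hfix ν hν
  have hbc : b * r = r * b := pow_comm b _
  have hbpow : ∀ (j : ℕ) (v : Z), r • v = -v → r • (b ^ j) • v = -((b ^ j) • v) := fun j v hv =>
    smul_neg_of_comm (by rw [hrdef]; exact ((Commute.refl b).pow_pow j _).eq) hv
  have hpow : ∀ (j : ℕ) (v : Z), r • v = -v → ((b * ν) ^ j) • v = (ε ^ j) • (b ^ j) • v := by
    intro j v hv
    induction j with
    | zero => simp
    | succ j ih =>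
      rw [pow_succ', mul_smul, ih, mul_smul, smul_comm ν (ε ^ j), hνv _ (hbpow j v hv), smul_comm b (ε ^ j),
        smul_comm b ε, smul_smul, ← mul_smul b, ← pow_succ']
      congr 1
      rw [pow_succ]
  have heven : ε ^ 2 ^ (n - 1) = 1 := by
    have e : 2 ^ (n - 1) = 2 * 2 ^ (n - 2) := by
      rw [← pow_succ']
      congr 1
      omega
    rw [e, pow_mul, pow_two, sign_sq hε, one_pow]
  have hP : ∀ v : Z, r • v = -v → ((b * ν) ^ 2 ^ (n - 1)) • v = -v := by
    intro v hv
    rw [hpow _ v hv, heven, one_smul]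
    exact hv
  rcases hy with hy | hy
  · exfalso
    obtain ⟨v, hv0, hv⟩ := hr.exists_ne
    have h1 := hP v hv
    rw [hy, one_smul] at h1
    exact hv0 (eq_zero_of_eq_neg hf.two h1)
  · exact (eq_of_P_le hf hr hy hP).symm

/-- **Nontrivial frames force `n = 2`.** -/
theorem comm_of_three (hf : IsSym A f) (hn3 : 3 ≤ n) (hE : IsPGroup 2 E) (hℛ : Subgroup.closure ℛ = E)
    (hℛr : ∀ s ∈ ℛ, IsRefl q Z s) {b t : A} (hb : IsT q Z E n b) (ht : IsT q Z E n t) :
    t ^ 2 ^ (n - 1) * b ^ 2 ^ (n - 1) * (t ^ 2 ^ (n - 1))⁻¹ = b ^ 2 ^ (n - 1) := by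
  classical
  have hn : 2 ≤ n := by omega
  set r := b ^ 2 ^ (n - 1) with hrdef
  set s := t ^ 2 ^ (n - 1) with hsdef
  have hr : IsRefl q Z r := hb.tor.refl
  have hs : IsRefl q Z s := ht.tor.refl
  by_contra hcon
  rcases frame hf hn hE hℛ hℛr hb with hfx | ⟨r₁, hr₁, horth, hr₁E, -, hfrm⟩
  · exact hcon (hfx s ht.mem)
  have hrE : r ∈ E := hb.mem
  have hri := inv_eq_of_sq hr.sq
  have hr₁i := inv_eq_of_sq hr₁.sq
  set r' := t * r * t⁻¹ with hr'def
  have hr'E : r' ∈ E := (Subgroup.mem_normalizer_iff.mp ht.nrm r).mp hrE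
  have hr'sq : r' * r' = 1 := conj_sq hr.sq t
  have hr'i := inv_eq_of_sq hr'sq
  set ρ := r * r' with hρdef
  have hρE : ρ ∈ E := mul_mem hrE hr'E
  have hρi : ρ⁻¹ = r' * r := by rw [hρdef, mul_inv_rev, hr'i, hri]
  have hρ2 : ρ * r * ρ⁻¹ * r = ρ * ρ := by
    rw [hρi, hρdef]
    calc r * r' * r * (r' * r) * r = r * r' * r * r' * (r * r) := by group
      _ = r * r' * (r * r') := by rw [hr.sq, mul_one, mul_assoc (r * r')]
  have hc : r * r₁ = r₁ * r := horth.comm hf hr.sq hr₁.sq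
  have hρ4 : (ρ * ρ) * (ρ * ρ) = 1 := by
    rw [← hρ2]
    rcases hfrm ρ hρE with ⟨h1, -⟩ | ⟨h1, -⟩
    · rw [h1, hr.sq, one_mul]
    · rw [h1]
      calc r₁ * r * (r₁ * r) = r₁ * (r * r₁) * r := by group
        _ = r₁ * (r₁ * r) * r := by rw [hc]
        _ = (r₁ * r₁) * (r * r) := by group
        _ = 1 := by rw [hr.sq, hr₁.sq, one_mul]
  -- the orthogonality of `s` and `r s r`
  have hs' : Orth q Z s (r * s * r⁻¹) := by
    have h := good_conj hf hn hE ht (x := 1) (y := r) (one_mem _) hrE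
    simp only [one_mul, inv_one, mul_one] at h
    rcases h with h | h
    · exfalso
      apply hcon
      have h1 : s * r = r * s := by
        have := congrArg (· * r) h
        simpa using this
      rw [h1]
      simp
    · exact h
  have htc : t * s = s * t := pow_comm t _
  have htic : t⁻¹ * s = s * t⁻¹ := by
    have := (Commute.inv_left (show Commute t s from htc)).eq
    exact this
  have hact : ∀ v : Z, s • v = -v → ρ • v = t⁻¹ • v := by
    intro v hv
    have h1 : s • t⁻¹ • v = -(t⁻¹ • v) := smul_neg_of_comm htic hv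
    have h2 : (r * s * r⁻¹) • r • t⁻¹ • v = -(r • t⁻¹ • v) := by
      apply mem_Pl_conj.mpr
      rw [inv_smul_smul]
      exact h1
    have h3 : s • r • t⁻¹ • v = r • t⁻¹ • v := hs'.2 _ h2
    have h4 : t • r • t⁻¹ • v = r • t⁻¹ • v := ht.tor.fix _ h3
    rw [hρdef, hr'def, mul_smul, mul_smul, mul_smul, h4, smul_smul_of_sq hr.sq]
  have hact2 : ∀ v : Z, s • v = -v → (ρ * ρ) • v = t⁻¹ • t⁻¹ • v := by
    intro v hv
    have h1 : s • t⁻¹ • v = -(t⁻¹ • v) := smul_neg_of_comm htic hv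
    rw [mul_smul, hact v hv, hact _ h1]
  have hact4 : ∀ v : Z, s • v = -v → (t ^ 4) • v = v := by
    intro v hv
    have h1 : s • t⁻¹ • v = -(t⁻¹ • v) := smul_neg_of_comm htic hv
    have h2 : s • t⁻¹ • t⁻¹ • v = -(t⁻¹ • t⁻¹ • v) := smul_neg_of_comm htic h1
    have h3 := congrArg (· • v) hρ4
    simp only [one_smul] at h3
    rw [mul_smul, hact2 v hv, hact2 _ h2] at h3
    have e : t ^ 4 = t * t * t * t := by
      simp only [pow_succ, pow_zero, one_mul]
    rw [e]
    calc (t * t * t * t) • v = (t * t * t * t) • (t⁻¹ • t⁻¹ • t⁻¹ • t⁻¹ • v) := by rw [h3]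
      _ = v := by simp [mul_smul]
  obtain ⟨v, hv0, hv⟩ := hs.exists_ne
  have h5 : s • v = v := by
    have e : s = (t ^ 4) ^ 2 ^ (n - 3) := by
      rw [hsdef, ← pow_mul]
      congr 1
      have e2 : n - 1 = 2 + (n - 3) := by omega
      rw [e2, pow_add]
      norm_num
    rw [e]
    exact IsTorus.refl_fix (hact4 v hv) _
  rw [hv] at h5
  exact hv0 (eq_zero_of_eq_neg hf.two h5.symm)

end signs

section sl3

variable [Finite Z]

theorem z3_three : (3 : ZMod 3) = 0 := by decide

theorem z3_sum : (3 : ZMod 3) = 1 + 1 + 1 := by decide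

theorem z3_all : ∀ t : ZMod 3, t = 0 ∨ t = 1 ∨ t = -1 := by decide

/-- **The `2`-elements of `SL₂(3)`.** -/
theorem sl3 (hq : q = 3) (hf : IsSym A f) {r x : A} (hr : IsRefl q Z r) (hc : x * r = r * x) {k : ℕ} (hk : x ^ 2 ^ k = 1) :
    (∀ v : Z, r • v = -v → x • v = v) ∨ (∀ v : Z, r • v = -v → x • v = -v) ∨
      (∀ v : Z, r • v = -v → x • x • v = -v) := by
  classical
  subst hq
  have hF3 : (3 : ZMod 3) = 0 := z3_three
  have h3 : ∀ u : Z, u + u + u = 0 := by
    intro u
    have h : (3 : ZMod 3) • u = 0 := by rw [hF3, zero_smul]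
    have e : (3 : ZMod 3) = 1 + 1 + 1 := z3_sum
    rwa [e, add_smul, add_smul, one_smul] at h
  rcases Nat.eq_zero_or_pos k with rfl | hk0
  · left
    intro v _
    have : x = 1 := by simpa using hk
    rw [this, one_smul]
  have hxr : ∀ v : Z, r • v = -v → r • x • v = -(x • v) := fun v hv => smul_neg_of_comm hc hv
  have hxir : ∀ v : Z, r • v = -v → r • x⁻¹ • v = -(x⁻¹ • v) := fun v hv =>
    smul_neg_of_comm (Commute.inv_left (show Commute x r from hc)).eq hv
  -- the operator `x + x⁻¹`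
  have hy : ∀ v : Z, r • v = -v → v ≠ 0 → ∃ t : ZMod 3, x • v + x⁻¹ • v = t • v := by
    intro v hv hv0
    obtain ⟨p, hp, hvp⟩ := exists_partner hf hr hv hv0
    have hyr : r • (x • v + x⁻¹ • v) = -(x • v + x⁻¹ • v) := by
      rw [smul_add, hxr v hv, hxir v hv, neg_add]
    obtain ⟨a, b, hab⟩ := combo_of_partner hf hr hv hp hvp hyr
    have h1 : f v (x • v + x⁻¹ • v) = 0 := by
      have e : f v (x⁻¹ • v) = f (x • v) v := by
        have := hf.inv x v (x⁻¹ • v)
        rw [smul_inv_smul] at this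
        exact this.symm
      rw [map_add, e, hf.anti (x • v) v]
      simp
    rw [hab] at h1
    simp only [map_add, map_smul, hf.alt, hvp, smul_eq_mul, mul_zero, mul_one, zero_add] at h1
    refine ⟨a, ?_⟩
    rw [hab, h1, zero_smul, add_zero]
  obtain ⟨v₀, hv₀0, hv₀⟩ := hr.exists_ne
  obtain ⟨p, hp, hvp⟩ := exists_partner hf hr hv₀ hv₀0
  have hp0 : p ≠ 0 := by
    rintro rfl
    rw [map_zero] at hvp
    exact zero_ne_one hvp
  have hsum0 : v₀ + p ≠ 0 := by
    intro h
    have h1 := congrArg (f v₀) h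
    rw [map_add, hf.alt, hvp, map_zero, zero_add] at h1
    exact one_ne_zero h1
  obtain ⟨t₀, ht₀⟩ := hy v₀ hv₀ hv₀0
  obtain ⟨t₁, ht₁⟩ := hy p hp hp0
  obtain ⟨t₂, ht₂⟩ := hy (v₀ + p) (by rw [smul_add, hv₀, hp, neg_add]) hsum0
  have e₀ : t₀ • v₀ + t₁ • p = t₂ • v₀ + t₂ • p := by
    rw [← ht₀, ← ht₁, ← smul_add, ← ht₂, smul_add, smul_add]
    abel
  have h₁ := congrArg (f v₀) e₀
  simp only [map_add, map_smul, hf.alt, hvp, smul_eq_mul, mul_zero, mul_one, zero_add] at h₁
  have h₂ := congrArg (fun w => f w p) e₀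
  simp only [map_add, map_smul, LinearMap.add_apply, LinearMap.smul_apply, hf.alt, hvp, smul_eq_mul, mul_zero,
    mul_one, add_zero] at h₂
  have hyall : ∀ v : Z, r • v = -v → x • v + x⁻¹ • v = t₂ • v := by
    intro v hv
    obtain ⟨a, b, rfl⟩ := combo_of_partner hf hr hv₀ hp hvp hv
    have e : x • (a • v₀ + b • p) + x⁻¹ • (a • v₀ + b • p) =
        a • (x • v₀ + x⁻¹ • v₀) + b • (x • p + x⁻¹ • p) := by
      simp only [smul_add, smul_comm x a, smul_comm x b, smul_comm x⁻¹ a, smul_comm x⁻¹ b]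
      abel
    rw [e, ht₀, ht₁, h₂, h₁, smul_comm a, smul_comm b, smul_add]
  have hsq : ∀ v : Z, r • v = -v → x • x • v + v = t₂ • x • v := by
    intro v hv
    have h1 := congrArg (x • ·) (hyall v hv)
    simp only [smul_add, smul_inv_smul] at h1
    rw [h1, smul_comm]
  have ht3 : ∀ t : ZMod 3, t = 0 ∨ t = 1 ∨ t = -1 := z3_all
  have h2pow : ((2 ^ k : ℕ) : ZMod 3) ≠ 0 := by
    push_cast
    exact pow_ne_zero _ hf.two
  rcases ht3 t₂ with ht | ht | ht
  · right; right
    intro v hv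
    have h1 := hsq v hv
    rw [ht, zero_smul] at h1
    exact eq_neg_of_add_eq_zero_left h1
  · right; left
    intro v hv
    have h1 := hsq v hv
    rw [ht, one_smul] at h1
    set w := x • v + v with hw
    have hxw : x • w = -w := by
      rw [hw, smul_add]
      have h5 : x • x • v = x • v - v := eq_sub_of_add_eq h1
      rw [h5, eq_neg_iff_add_eq_zero]
      have e : x • v - v + x • v + (x • v + v) = x • v + x • v + x • v := by abel
      rw [e]
      exact h3 _
    have hpow : ∀ j : ℕ, (x ^ j) • v = ((-1 : ZMod 3) ^ j) • (v - (j : ZMod 3) • w) := by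
      intro j
      induction j with
      | zero => simp
      | succ j ih =>
        have e : x • v = w - v := by rw [hw]; abel
        rw [pow_succ', mul_smul, ih, smul_comm x, smul_sub, smul_comm x (j : ZMod 3), hxw, e,
          pow_succ (-1 : ZMod 3), mul_smul]
        congr 1
        push_cast
        simp only [add_smul, smul_neg, one_smul, neg_smul]
        abel
    have h5 := hpow (2 ^ k)
    rw [hk, one_smul] at h5
    have heven : (-1 : ZMod 3) ^ 2 ^ k = 1 := by
      have e : 2 ^ k = 2 * 2 ^ (k - 1) := by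
        rw [← pow_succ']
        congr 1
        omega
      rw [e, pow_mul]
      simp
    rw [heven, one_smul] at h5
    have h6 : ((2 ^ k : ℕ) : ZMod 3) • w = 0 := sub_eq_self.mp h5.symm
    have h7 : w = 0 := (smul_eq_zero.mp h6).resolve_left h2pow
    exact eq_neg_of_add_eq_zero_left h7
  · left
    intro v hv
    have h1 := hsq v hv
    rw [ht, neg_smul, one_smul] at h1
    set w := x • v - v with hw
    have hxw : x • w = w := by
      rw [hw, smul_sub]
      have h5 : x • x • v = -(x • v) - v := eq_sub_of_add_eq h1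
      rw [h5, ← sub_eq_zero]
      have e : -(x • v) - v - x • v - (x • v - v) = -(x • v + x • v + x • v) := by abel
      rw [e, h3, neg_zero]
    have hpow : ∀ j : ℕ, (x ^ j) • v = v + (j : ZMod 3) • w := by
      intro j
      induction j with
      | zero => simp
      | succ j ih =>
        rw [pow_succ', mul_smul, ih, smul_add, smul_comm x (j : ZMod 3), hxw]
        have e : x • v = v + w := by rw [hw]; abel
        rw [e]
        push_cast
        rw [add_smul, one_smul]
        abel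
    have h5 := hpow (2 ^ k)
    rw [hk, one_smul] at h5
    have h6 : ((2 ^ k : ℕ) : ZMod 3) • w = 0 := left_eq_add.mp h5
    have h7 : w = 0 := (smul_eq_zero.mp h6).resolve_left h2pow
    exact sub_eq_zero.mp h7

end sl3

end Cfsg.Agent.Lib.BryG.Sym
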