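import Mathlib
import Cfsg.Agent.Lib.BryG.Tor

/-!
# The case `q = 3`: frames and the subgroup `KK`
-/

set_option autoImplicit false
set_option linter.unusedSectionVars false
set_option linter.style.haveILetI false

namespace Cfsg.Agent.Lib.BryG.Sym

open Module

variable {q : ℕ} [Fact q.Prime] {Z : Type*} [AddCommGroup Z] [Module (ZMod q) Z]
variable {A : Type*} [Group A] [DistribMulAction A Z] [SMulCommClass A (ZMod q) Z]
variable {f : Z →ₗ[ZMod q] Z →ₗ[ZMod q] ZMod q}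
variable [Finite Z] [Finite A] [FaithfulSMul A Z]

/-- The commutator with `s`. -/
def kap (s x : A) : A := x * s * x⁻¹ * s

theorem kap_mul {s : A} (hs : s * s = 1) (x y : A) : kap s (x * y) = x * kap s y * x⁻¹ * kap s x := by
  unfold kap
  calc x * y * s * (x * y)⁻¹ * s = x * y * s * y⁻¹ * (s * s) * x⁻¹ * s := by rw [hs]; group
    _ = x * (y * s * y⁻¹ * s) * x⁻¹ * (x * s * x⁻¹ * s) := by group

theorem kap_inv {s : A} (hs : s * s = 1) (x : A) : (kap s x)⁻¹ = s * kap s x * s := by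
  unfold kap
  have hi := inv_eq_of_sq hs
  rw [mul_inv_rev, mul_inv_rev, mul_inv_rev, inv_inv, hi]
  calc s * (x * (s * x⁻¹)) = s * x * s * x⁻¹ * (s * s) := by rw [hs]; group
    _ = s * (x * s * x⁻¹ * s) * s := by group

theorem kap_of_inv {s : A} (hs : s * s = 1) (x : A) : kap s x⁻¹ = x⁻¹ * (kap s x)⁻¹ * x := by
  rw [kap_inv hs]
  unfold kap
  calc x⁻¹ * s * x⁻¹⁻¹ * s = x⁻¹ * s * x * s * x⁻¹ * (s * s) * x := by rw [hs]; group
    _ = x⁻¹ * (s * (x * s * x⁻¹ * s) * s) * x := by group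

section q3

variable {r₀ r₁ s : A}

theorem P1_P0 (hs : s * s = 1) (hsr : s * r₀ * s⁻¹ = r₁) {w : Z} (hw : r₁ • w = -w) : r₀ • s • w = -(s • w) := by
  rw [← hsr, mem_Pl_conj, inv_eq_of_sq hs] at hw
  exact hw

theorem P0_P1 (hsr : s * r₀ * s⁻¹ = r₁) {v : Z} (hv : r₀ • v = -v) : r₁ • s • v = -(s • v) := by
  rw [← hsr]
  apply mem_Pl_conj.mpr
  rw [inv_smul_smul]
  exact hv

theorem inv_smul_of_eigen {x : A} {ε : ZMod q} (hε : ε = 1 ∨ ε = -1) {w : Z} (h : x • w = ε • w) : x⁻¹ • w = ε • w := by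
  have h3 : ε • (x⁻¹ • w) = w := by
    rw [← smul_comm x⁻¹ ε w, ← h, inv_smul_smul]
  calc x⁻¹ • w = ε • ε • (x⁻¹ • w) := (sign_smul_smul hε _).symm
    _ = ε • w := by rw [h3]

/-- The sign on the plane of `r₀` gives the same sign on that of `r₁`. -/
theorem kap_P1 (hs : s * s = 1) (hsr : s * r₀ * s⁻¹ = r₁) {x : A} {ε : ZMod q} (hε : ε = 1 ∨ ε = -1)
    (h : ∀ v : Z, r₀ • v = -v → kap s x • v = ε • v) {w : Z} (hw : r₁ • w = -w) : kap s x • w = ε • w := by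
  have h1 := h _ (P1_P0 hs hsr hw)
  have h2 : (kap s x)⁻¹ • w = ε • w := by
    rw [kap_inv hs, mul_smul, mul_smul, h1, smul_comm, smul_smul_of_sq hs]
  have h3 := inv_smul_of_eigen hε h2
  rwa [inv_inv] at h3

theorem frm_P0 {x : A} (h : Frm r₀ r₁ x) {v : Z} (hv : r₀ • v = -v) :
    r₀ • x • v = -(x • v) ∨ r₁ • x • v = -(x • v) := by
  have h1 : (x * r₀ * x⁻¹) • x • v = -(x • v) := by
    apply mem_Pl_conj.mpr
    rw [inv_smul_smul]
    exact hv
  rcases h with ⟨h2, -⟩ | ⟨h2, -⟩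
  · left
    rwa [h2] at h1
  · right
    rwa [h2] at h1

/-- The elements `x` such that `κ(x)` is a sign. -/
def KE (q : ℕ) (Z : Type*) [AddCommGroup Z] [Module (ZMod q) Z] {A : Type*} [Group A] [DistribMulAction A Z]
    (r₀ r₁ s x : A) : Prop :=
  Frm r₀ r₁ x ∧ Sg q Z r₀ (kap s x)

theorem KE.mul (hs : s * s = 1) (hsr : s * r₀ * s⁻¹ = r₁) {x y : A} (hx : KE q Z r₀ r₁ s x) (hy : KE q Z r₀ r₁ s y) :
    KE q Z r₀ r₁ s (x * y) := by
  obtain ⟨hfx, ε, hε, h1⟩ := hx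
  obtain ⟨hfy, δ, hδ, h2⟩ := hy
  refine ⟨hfx.mul hfy, ε * δ, sign_mul hε hδ, fun v hv => ?_⟩
  have h3 : kap s y • x⁻¹ • v = δ • x⁻¹ • v := by
    rcases frm_P0 hfx.inv hv with h4 | h4
    · exact h2 _ h4
    · exact kap_P1 hs hsr hδ h2 h4
  rw [kap_mul hs, mul_smul, mul_smul, mul_smul, h1 v hv, smul_comm x⁻¹ ε, smul_comm (kap s y) ε, h3, smul_comm x ε,
    smul_comm x δ, smul_inv_smul, smul_smul]

theorem KE.inv (hs : s * s = 1) (hsr : s * r₀ * s⁻¹ = r₁) {x : A} (hx : KE q Z r₀ r₁ s x) : KE q Z r₀ r₁ s x⁻¹ := by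
  obtain ⟨hfx, ε, hε, h1⟩ := hx
  refine ⟨hfx.inv, ε, hε, fun v hv => ?_⟩
  have h3 : kap s x • x • v = ε • x • v := by
    rcases frm_P0 hfx hv with h4 | h4
    · exact h1 _ h4
    · exact kap_P1 hs hsr hε h1 h4
  rw [kap_of_inv hs, mul_smul, mul_smul, inv_smul_of_eigen hε h3, smul_comm, inv_smul_smul]

variable {E T : Subgroup A} {ℛ : Set A}

theorem KE_of_gen (hq : q = 3) (hf : IsSym A f) (hr₀ : IsRefl q Z r₀) (hr₁ : IsRefl q Z r₁) (hs : s * s = 1)
    (hsr : s * r₀ * s⁻¹ = r₁) (hsE : s ∈ E) (hE : ∀ x ∈ E, ∃ k : ℕ, x ^ 2 ^ k = 1) {s' : A} (hs'E : s' ∈ E)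
    (hs' : IsRefl q Z s') (hfr : Frm r₀ r₁ s') : KE q Z r₀ r₁ s s' := by
  refine ⟨hfr, ?_⟩
  have hi' := inv_eq_of_sq hs'.sq
  have hi := inv_eq_of_sq hs
  rcases hfr with ⟨h₁, h₂⟩ | ⟨h₁, h₂⟩
  · have c₀ : s' * r₀ = r₀ * s' := by
      have := congrArg (· * s') h₁
      simpa using this
    have c₁ : s' * r₁ = r₁ * s' := by
      have := congrArg (· * s') h₂
      simpa using this
    obtain ⟨ε₀, hε₀, h0⟩ := sign_of_comm hf hr₀ c₀ (fun v _ => smul_smul_of_sq hs'.sq v)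
    obtain ⟨ε₁, hε₁, h1⟩ := sign_of_comm hf hr₁ c₁ (fun v _ => smul_smul_of_sq hs'.sq v)
    refine ⟨ε₀ * ε₁, sign_mul hε₀ hε₁, fun v hv => ?_⟩
    unfold kap
    rw [hi', mul_smul, mul_smul, mul_smul, h1 _ (P0_P1 hsr hv), smul_comm s ε₁, smul_smul_of_sq hs, smul_comm s' ε₁,
      h0 v hv, smul_smul, mul_comm]
  · set y := s' * s with hy
    have hyE : y ∈ E := mul_mem hs'E hsE
    obtain ⟨k, hk⟩ := hE y hyE
    have hyr : y * r₀ = r₀ * y := by
      have e : y * r₀ * y⁻¹ = r₀ := by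
        rw [hy]
        calc s' * s * r₀ * (s' * s)⁻¹ = s' * (s * r₀ * s⁻¹) * s'⁻¹ := by group
          _ = r₀ := by rw [hsr]; exact h₂
      have := congrArg (· * y) e
      simpa using this
    have hkap : kap s s' = y * y := by
      unfold kap
      rw [hi', hy]
      group
    rw [hkap]
    rcases sl3 hq hf hr₀ hyr hk with h | h | h
    · refine ⟨1, Or.inl rfl, fun v hv => ?_⟩
      rw [mul_smul, h v hv, h v hv, one_smul]
    · refine ⟨1, Or.inl rfl, fun v hv => ?_⟩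
      rw [mul_smul, h v hv, smul_neg, h v hv, neg_neg, one_smul]
    · refine ⟨-1, Or.inr rfl, fun v hv => ?_⟩
      rw [mul_smul, h v hv, neg_smul, one_smul]

/-- **The case `q = 3` of a moved plane.** -/
theorem q3_case (hq : q = 3) (hf : IsSym A f) (hℛ : Subgroup.closure ℛ = E) (hℛr : ∀ s ∈ ℛ, IsRefl q Z s)
    (hET : E ≤ T) (hT : ∀ x ∈ T, ∃ k : ℕ, x ^ 2 ^ k = 1) (hr₀ : IsRefl q Z r₀) (hr₁ : IsRefl q Z r₁)
    (horth : Orth q Z r₀ r₁) {b ν : A} (hbT : b ∈ T) (hbb : b * b = r₀) (hb1 : ∀ v : Z, r₀ • v = v → b • v = v)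
    (hs : s * s = 1) (hsr : s * r₀ * s⁻¹ = r₁) (hsE : s ∈ E) (hfrm : ∀ x ∈ E, Frm r₀ r₁ x) (hν : ν ∈ E)
    (hξ4 : ((b * ν) * (b * ν)) * ((b * ν) * (b * ν)) = 1)
    (hy : (b * ν) * (b * ν) = 1 ∨ IsRefl q Z ((b * ν) * (b * ν))) :
    (b * ν) * (b * ν) = r₀ ∨ (b * ν) * (b * ν) = r₁ := by
  classical
  have hi := inv_eq_of_sq hs
  have hE2 : ∀ x ∈ E, ∃ k : ℕ, x ^ 2 ^ k = 1 := fun x hx => hT x (hET hx)
  have hRE : ∀ s ∈ ℛ, s ∈ E := fun s hs => hℛ ▸ Subgroup.subset_closure hs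
  have hKE : ∀ x ∈ E, KE q Z r₀ r₁ s x := by
    rw [← hℛ]
    intro x hx
    have hxE : x ∈ E := hℛ ▸ hx
    induction hx using Subgroup.closure_induction with
    | mem x hx => exact KE_of_gen hq hf hr₀ hr₁ hs hsr hsE hE2 hxE (hℛr x hx) (hfrm x hxE)
    | one =>
      refine ⟨Frm.one, ?_⟩
      have e : kap s (1 : A) = 1 := by
        unfold kap
        simp [hs]
      rw [e]
      exact Sg.one
    | mul x y hx' hy' hx hy =>
      exact (hx (hℛ ▸ hx')).mul hs hsr (hy (hℛ ▸ hy'))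
    | inv x hx' hx => exact (hx (hℛ ▸ hx')).inv hs hsr
  have hr₀c : b * r₀ = r₀ * b := by
    rw [← hbb]
    group
  have hfb : Frm r₀ r₁ b := by
    left
    refine ⟨by rw [hr₀c]; simp, ?_⟩
    exact conj_eq_of_fix hf hr₁.sq (fun u hu => hb1 u (horth.2 u hu))
  obtain ⟨v₀, hv₀0, hv₀⟩ := hr₀.exists_ne
  set ξ := b * ν with hξdef
  have hfξ : Frm r₀ r₁ ξ := hfb.mul (hfrm ν hν)
  have hξT : ξ ∈ T := mul_mem hbT (hET hν)
  have hsT : s ∈ T := hET hsE
  have hsi : s * r₁ * s⁻¹ = r₀ := by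
    rw [← hsr, hi]
    calc s * (s * r₀ * s) * s = (s * s) * r₀ * (s * s) := by group
      _ = r₀ := by rw [hs]; simp
  have hnot : ¬ Sg q Z r₀ (kap s ξ) := by
    intro h
    have h1 : KE q Z r₀ r₁ s ξ := ⟨hfξ, h⟩
    have h2 := h1.mul hs hsr ((hKE ν hν).inv hs hsr)
    have e : ξ * ν⁻¹ = b := by
      rw [hξdef]
      group
    rw [e] at h2
    obtain ⟨-, ε, hε, h3⟩ := h2
    have h4 := h3 v₀ hv₀
    have h5 : b⁻¹ • s • v₀ = s • v₀ := by
      have h6 : r₁ • s • v₀ = -(s • v₀) := P0_P1 hsr hv₀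
      have h7 : b • s • v₀ = s • v₀ := hb1 _ (horth.2 _ h6)
      nth_rewrite 1 [← h7]
      rw [inv_smul_smul]
    have h8 : kap s b • v₀ = b • v₀ := by
      unfold kap
      rw [mul_smul, mul_smul, mul_smul, h5, smul_smul_of_sq hs]
    rw [h8] at h4
    have h9 : r₀ • v₀ = v₀ := by
      rw [← hbb, mul_smul, h4, smul_comm, h4, smul_smul, sign_sq hε, one_smul]
    rw [hv₀] at h9
    exact hv₀0 (eq_zero_of_eq_neg hf.two h9.symm)
  rcases hfξ with ⟨h₁, h₂⟩ | ⟨h₁, h₂⟩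
  · -- the plane is fixed
    have c₀ : ξ * r₀ = r₀ * ξ := by
      have := congrArg (· * ξ) h₁
      simpa using this
    have c₁ : ξ * r₁ = r₁ * ξ := by
      have := congrArg (· * ξ) h₂
      simpa using this
    obtain ⟨k, hk⟩ := hT ξ hξT
    have hcase0 : ∀ h : ∀ v : Z, r₀ • v = -v → ξ • ξ • v = -v, ξ * ξ = r₀ := by
      intro h
      have hP : ∀ v : Z, r₀ • v = -v → (ξ * ξ) • v = -v := fun v hv => by rw [mul_smul]; exact h v hv
      rcases hy with hy | hy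
      · exfalso
        have h1 := hP v₀ hv₀
        rw [hy, one_smul] at h1
        exact hv₀0 (eq_zero_of_eq_neg hf.two h1)
      · exact (eq_of_P_le hf hr₀ hy hP).symm
    have hcase1 : ∀ h : ∀ v : Z, r₁ • v = -v → ξ • ξ • v = -v, ξ * ξ = r₁ := by
      intro h
      have hP : ∀ v : Z, r₁ • v = -v → (ξ * ξ) • v = -v := fun v hv => by rw [mul_smul]; exact h v hv
      rcases hy with hy | hy
      · exfalso
        obtain ⟨v₁, hv₁0, hv₁⟩ := hr₁.exists_ne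
        have h1 := hP v₁ hv₁
        rw [hy, one_smul] at h1
        exact hv₁0 (eq_zero_of_eq_neg hf.two h1)
      · exact (eq_of_P_le hf hr₁ hy hP).symm
    have hsg0 : ¬ (∀ v : Z, r₀ • v = -v → ξ • ξ • v = -v) → Sg q Z r₀ ξ := by
      intro hne
      rcases sl3 hq hf hr₀ c₀ hk with h | h | h
      · exact ⟨1, Or.inl rfl, fun v hv => by rw [h v hv, one_smul]⟩
      · exact ⟨-1, Or.inr rfl, fun v hv => by rw [h v hv, neg_smul, one_smul]⟩
      · exact absurd h hne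
    have hsg1 : ¬ (∀ v : Z, r₁ • v = -v → ξ • ξ • v = -v) → Sg q Z r₁ ξ := by
      intro hne
      rcases sl3 hq hf hr₁ c₁ hk with h | h | h
      · exact ⟨1, Or.inl rfl, fun v hv => by rw [h v hv, one_smul]⟩
      · exact ⟨-1, Or.inr rfl, fun v hv => by rw [h v hv, neg_smul, one_smul]⟩
      · exact absurd h hne
    by_cases h0 : ∀ v : Z, r₀ • v = -v → ξ • ξ • v = -v
    · exact Or.inl (hcase0 h0)
    by_cases h1 : ∀ v : Z, r₁ • v = -v → ξ • ξ • v = -v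
    · exact Or.inr (hcase1 h1)
    exfalso
    apply hnot
    obtain ⟨ε₀, hε₀, e0⟩ := hsg0 h0
    obtain ⟨ε₁, hε₁, e1⟩ := (hsg1 h1).inv
    refine ⟨ε₀ * ε₁, sign_mul hε₀ hε₁, fun v hv => ?_⟩
    unfold kap
    rw [mul_smul, mul_smul, mul_smul, e1 _ (P0_P1 hsr hv), smul_comm s ε₁, smul_smul_of_sq hs, smul_comm ξ ε₁, e0 v hv,
      smul_smul, mul_comm]
  · -- the planes are swapped
    exfalso
    apply hnot
    set x₀ := ξ * s with hx₀
    have hx₀s : x₀ * s = ξ := by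
      rw [hx₀, mul_assoc, hs, mul_one]
    have hx₀r₀ : x₀ * r₀ * x₀⁻¹ = r₀ := by
      rw [hx₀]
      calc ξ * s * r₀ * (ξ * s)⁻¹ = ξ * (s * r₀ * s⁻¹) * ξ⁻¹ := by group
        _ = r₀ := by rw [hsr, h₂]
    have hx₀r₁ : x₀ * r₁ * x₀⁻¹ = r₁ := by
      rw [hx₀]
      calc ξ * s * r₁ * (ξ * s)⁻¹ = ξ * (s * r₁ * s⁻¹) * ξ⁻¹ := by group
        _ = r₁ := by rw [hsi, h₁]
    set y := s * x₀ * s with hy'
    have hyi : y⁻¹ = s * x₀⁻¹ * s := by
      rw [hy', mul_inv_rev, mul_inv_rev, hi]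
      group
    have hyr : y * r₀ = r₀ * y := by
      have e : y * r₀ * y⁻¹ = r₀ := by
        rw [hyi, hy']
        have e2 : s * r₀ * s = r₁ := by rw [← hsr, hi]
        have e3 : s * r₁ * s = r₀ := by
          rw [← hsi, hi]
        calc s * x₀ * s * r₀ * (s * x₀⁻¹ * s) = s * (x₀ * (s * r₀ * s) * x₀⁻¹) * s := by group
          _ = r₀ := by rw [e2, hx₀r₁, e3]
      have := congrArg (· * y) e
      simpa using this
    have hyT : y ∈ T := mul_mem (mul_mem hsT (mul_mem hξT hsT)) hsT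
    obtain ⟨k, hk⟩ := hT y hyT
    have hδ : ∃ δ : ZMod q, (δ = 1 ∨ δ = -1) ∧ ∀ w : Z, r₀ • w = -w → y⁻¹ • w = δ • y • w := by
      rcases sl3 hq hf hr₀ hyr hk with h | h | h
      · refine ⟨1, Or.inl rfl, fun w hw => ?_⟩
        rw [one_smul, h w hw]
        exact inv_smul_eq_iff.mpr (h w hw).symm
      · refine ⟨1, Or.inl rfl, fun w hw => ?_⟩
        rw [one_smul, h w hw]
        rw [inv_smul_eq_iff, smul_neg, h w hw, neg_neg]
      · refine ⟨-1, Or.inr rfl, fun w hw => ?_⟩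
        rw [neg_smul, one_smul, inv_smul_eq_iff, smul_neg, h w hw, neg_neg]
    obtain ⟨δ, hδ1, hδ2⟩ := hδ
    have hξξ : ξ * ξ = x₀ * y := by
      rw [hy']
      calc ξ * ξ = (x₀ * s) * (x₀ * s) := by rw [hx₀s]
        _ = x₀ * (s * x₀ * s) := by group
    have hξξc : (ξ * ξ) * r₀ = r₀ * (ξ * ξ) := by
      have e : (ξ * ξ) * r₀ * (ξ * ξ)⁻¹ = r₀ := by
        calc (ξ * ξ) * r₀ * (ξ * ξ)⁻¹ = ξ * (ξ * r₀ * ξ⁻¹) * ξ⁻¹ := by group
          _ = r₀ := by rw [h₁, h₂]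
      exact mul_inv_eq_iff_eq_mul.mp e
    obtain ⟨k', hk'⟩ := hT (ξ * ξ) (mul_mem hξT hξT)
    have hε : ∃ ε : ZMod q, (ε = 1 ∨ ε = -1) ∧ ∀ w : Z, r₀ • w = -w → (ξ * ξ) • w = ε • w := by
      rcases sl3 hq hf hr₀ hξξc hk' with h | h | h
      · exact ⟨1, Or.inl rfl, fun w hw => by rw [h w hw, one_smul]⟩
      · exact ⟨-1, Or.inr rfl, fun w hw => by rw [h w hw, neg_smul, one_smul]⟩
      · exfalso
        have h1 := h v₀ hv₀
        rw [smul_smul, hξ4, one_smul] at h1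
        exact hv₀0 (eq_zero_of_eq_neg hf.two h1)
    obtain ⟨ε, hε1, hε2⟩ := hε
    refine ⟨δ * ε, sign_mul hδ1 hε1, fun v hv => ?_⟩
    have hkap : kap s ξ = x₀ * y⁻¹ := by
      unfold kap
      rw [hyi]
      nth_rewrite 1 [← hx₀s]
      nth_rewrite 1 [← hx₀s]
      calc x₀ * s * s * (x₀ * s)⁻¹ * s = x₀ * (s * s) * s⁻¹ * x₀⁻¹ * s := by group
        _ = x₀ * (s * x₀⁻¹ * s) := by rw [hs, hi]; group
    rw [hkap, mul_smul, hδ2 v hv, smul_comm x₀ δ, ← mul_smul, ← hξξ, hε2 v hv, smul_smul]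

end q3

section KKsec

variable {n : ℕ} {E : Subgroup A} {ℛ : Set A}

/-- The group of the products of frames. -/
def KK (q : ℕ) [Fact q.Prime] (Z : Type*) [AddCommGroup Z] [Module (ZMod q) Z] {A : Type*} [Group A]
    [DistribMulAction A Z] [SMulCommClass A (ZMod q) Z] (E : Subgroup A) (n : ℕ) : Subgroup A where
  carrier := {x | x ∈ E ∧ x * x = 1 ∧ (∀ y ∈ E, x * y = y * x) ∧ ∀ b, IsT q Z E n b → x * b = b * x}
  mul_mem' := by
    rintro x y ⟨hx1, hx2, hx3, hx4⟩ ⟨hy1, hy2, hy3, hy4⟩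
    refine ⟨mul_mem hx1 hy1, ?_, ?_, ?_⟩
    · calc x * y * (x * y) = x * (y * x) * y := by group
        _ = x * (x * y) * y := by rw [hx3 y hy1]
        _ = (x * x) * (y * y) := by group
        _ = 1 := by rw [hx2, hy2, one_mul]
    · intro w hw
      rw [mul_assoc, hy3 w hw, ← mul_assoc, hx3 w hw, mul_assoc]
    · intro b hb
      rw [mul_assoc, hy4 b hb, ← mul_assoc, hx4 b hb, mul_assoc]
  one_mem' := ⟨one_mem _, by simp, by simp, by simp⟩
  inv_mem' := by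
    rintro x ⟨hx1, hx2, hx3, hx4⟩
    rw [Set.mem_ofPred_eq, inv_eq_of_mul_eq_one_left hx2]
    exact ⟨hx1, hx2, hx3, hx4⟩

theorem mem_KK {x : A} : x ∈ KK q Z E n ↔ x ∈ E ∧ x * x = 1 ∧ (∀ y ∈ E, x * y = y * x) ∧
    ∀ b, IsT q Z E n b → x * b = b * x := Iff.rfl

/-- The conjugate of an involution by an element preserving its plane. -/
theorem comm_of_preserve (hf : IsSym A f) {z x : A} (hz : z * z = 1) (hp : ∀ u : Z, z • u = -u → z • x • u = -(x • u)) :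
    x * z = z * x := by
  have hpj : ∀ (j : ℕ) (u : Z), z • u = -u → z • (x ^ j) • u = -((x ^ j) • u) := by
    intro j u hu
    induction j with
    | zero => simpa using hu
    | succ j ih =>
      rw [pow_succ', mul_smul]
      exact hp _ ih
  have hxi : x⁻¹ = x ^ (orderOf x - 1) := by
    have h0 : 0 < orderOf x := orderOf_pos x
    symm
    apply eq_inv_of_mul_eq_one_left
    rw [← pow_succ, Nat.sub_add_cancel h0, pow_orderOf_eq_one]
  have e : x * z * x⁻¹ = z := by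
    apply eq_of_P hf (conj_sq hz x) hz
    intro v
    rw [mem_Pl_conj]
    constructor
    · intro h
      have := hp _ h
      rwa [smul_inv_smul] at this
    · intro h
      rw [hxi]
      exact hpj _ v h
  have := congrArg (· * x) e
  simpa using this

/-- **The product of a frame is central.** -/
theorem frame_mem_KK (hf : IsSym A f) (hn : 2 ≤ n) {r₀ r₁ : A} (hr₀ : IsRefl q Z r₀) (hr₁ : IsRefl q Z r₁)
    (horth : Orth q Z r₀ r₁) (hr₀E : r₀ ∈ E) (hr₁E : r₁ ∈ E) (hfrm : ∀ x ∈ E, Frm r₀ r₁ x) :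
    r₀ * r₁ ∈ KK q Z E n := by
  classical
  have hc : r₀ * r₁ = r₁ * r₀ := horth.comm hf hr₀.sq hr₁.sq
  have hzz : (r₀ * r₁) * (r₀ * r₁) = 1 := by
    calc (r₀ * r₁) * (r₀ * r₁) = r₀ * (r₁ * r₀) * r₁ := by group
      _ = r₀ * (r₀ * r₁) * r₁ := by rw [hc]
      _ = (r₀ * r₀) * (r₁ * r₁) := by group
      _ = 1 := by rw [hr₀.sq, hr₁.sq, one_mul]
  refine ⟨mul_mem hr₀E hr₁E, hzz, ?_, ?_⟩
  · intro y hy
    have e : y * (r₀ * r₁) * y⁻¹ = r₀ * r₁ := by
      have e' : y * (r₀ * r₁) * y⁻¹ = (y * r₀ * y⁻¹) * (y * r₁ * y⁻¹) := by group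
      rw [e']
      rcases hfrm y hy with ⟨h1, h2⟩ | ⟨h1, h2⟩
      · rw [h1, h2]
      · rw [h1, h2, hc]
    have := congrArg (· * y) e
    simpa using this.symm
  · intro b hb
    refine (comm_of_preserve hf hzz ?_).symm
    intro u hu
    set r' := b ^ 2 ^ (n - 1) with hr'
    have hrr' : IsRefl q Z r' := hb.tor.refl
    have hP0 : ∀ p : Z, r₀ • p = -p → (r₀ * r₁) • p = -p := by
      intro p hp
      rw [mul_smul, horth.1 p hp, hp]
    have hP1 : ∀ p : Z, r₁ • p = -p → (r₀ * r₁) • p = -p := by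
      intro p hp
      rw [mul_smul, hp, smul_neg, horth.2 p hp]
    -- the structure of the plane of `z`
    have hu' : ∃ p₀ p₁ : Z, r₀ • p₀ = -p₀ ∧ r₁ • p₁ = -p₁ ∧ u = p₀ + p₁ := by
      obtain ⟨p₀, c₀, hp₀, hc₀, rfl⟩ := decomp hf.two hr₀.sq u
      obtain ⟨p₁, c, hp₁, hc₁, rfl⟩ := decomp hf.two hr₁.sq c₀
      have h1 : r₀ • p₁ = p₁ := horth.2 p₁ hp₁
      have h2 : r₁ • p₀ = p₀ := horth.1 p₀ hp₀
      have h3 : r₀ • c = c := by
        rw [smul_add, h1] at hc₀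
        exact add_left_cancel hc₀
      have h4 : (r₀ * r₁) • (p₀ + (p₁ + c)) = -p₀ + (-p₁ + c) := by
        rw [mul_smul]
        simp only [smul_add, h2, hp₁, hc₁, hp₀, smul_neg, h1, h3]
      rw [h4] at hu
      have h5 : c = -c := by
        have h6 : -p₀ + (-p₁ + c) = -p₀ + (-p₁ + -c) := by
          rw [hu]
          abel
        exact add_left_cancel (add_left_cancel h6)
      have h7 : c = 0 := eq_zero_of_eq_neg hf.two h5
      exact ⟨p₀, p₁, hp₀, hp₁, by rw [h7, add_zero]⟩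
    obtain ⟨p₀, p₁, hp₀, hp₁, rfl⟩ := hu'
    have hz : (r₀ * r₁) • (p₀ + p₁) = -(p₀ + p₁) := by
      rw [smul_add, hP0 p₀ hp₀, hP1 p₁ hp₁, neg_add]
    -- it suffices to control the plane of `r'`
    have hsuff : (∀ w : Z, r' • w = -w → (r₀ * r₁) • w = -w) → (r₀ * r₁) • b • (p₀ + p₁) = -(b • (p₀ + p₁)) := by
      intro hle
      have h1 := hb.tor.sub_mem hf (p₀ + p₁)
      rw [← hr'] at h1
      have h2 := hle _ h1
      calc (r₀ * r₁) • b • (p₀ + p₁) = (r₀ * r₁) • ((b • (p₀ + p₁) - (p₀ + p₁)) + (p₀ + p₁)) := by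
            rw [sub_add_cancel]
        _ = -(b • (p₀ + p₁) - (p₀ + p₁)) + -(p₀ + p₁) := by rw [smul_add, h2, hz]
        _ = -(b • (p₀ + p₁)) := by abel
    have hr'E : r' ∈ E := hb.mem
    rcases hfrm r' hr'E with ⟨h₁, h₂⟩ | ⟨h₁, h₂⟩
    · have c₀ : r' * r₀ = r₀ * r' := by
        have := congrArg (· * r') h₁
        simpa using this
      have c₁ : r' * r₁ = r₁ * r' := by
        have := congrArg (· * r') h₂
        simpa using this
      obtain ⟨ε₀, hε₀, h0⟩ := sign_of_comm hf hr₀ c₀ (fun v _ => smul_smul_of_sq hrr'.sq v)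
      obtain ⟨ε₁, hε₁, h1⟩ := sign_of_comm hf hr₁ c₁ (fun v _ => smul_smul_of_sq hrr'.sq v)
      rcases hε₀ with rfl | rfl
      · rcases hε₁ with rfl | rfl
        · have h3 : b • p₀ = p₀ := hb.tor.fix p₀ (by rw [← hr', h0 p₀ hp₀, one_smul])
          have h4 : b • p₁ = p₁ := hb.tor.fix p₁ (by rw [← hr', h1 p₁ hp₁, one_smul])
          rw [smul_add, h3, h4]
          exact hz
        · have h3 : r₁ = r' := by
            apply eq_of_P_le hf hr₁ hrr'
            intro v hv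
            rw [h1 v hv, neg_smul, one_smul]
          apply hsuff
          intro w hw
          rw [← h3] at hw
          exact hP1 w hw
      · have h3 : r₀ = r' := by
          apply eq_of_P_le hf hr₀ hrr'
          intro v hv
          rw [h0 v hv, neg_smul, one_smul]
        apply hsuff
        intro w hw
        rw [← h3] at hw
        exact hP0 w hw
    · apply hsuff
      intro w hw
      obtain ⟨v, hv, hv2, rfl⟩ := swap_plane hf hrr' hr₀ horth h₁ hw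
      rw [smul_sub, hP1 _ hv2, hP0 _ hv]
      abel

/-- **The commutator is in `KK`.** -/
theorem main_N1 (hf : IsSym A f) (hn : 2 ≤ n) (hqn : 2 ^ n = q + 1) (hE : IsPGroup 2 E) (hℛ : Subgroup.closure ℛ = E)
    (hℛT : ∀ s ∈ ℛ, ∃ t, IsT q Z E n t ∧ t ^ 2 ^ (n - 1) = s) {b ν : A} (hb : IsT q Z E n b) (hν : ν ∈ E)
    (hξ : (b * ν) ^ 2 ^ n = 1)
    (hy : (b * ν) ^ 2 ^ (n - 1) = 1 ∨ IsRefl q Z ((b * ν) ^ 2 ^ (n - 1))) :
    IsRefl q Z ((b * ν) ^ 2 ^ (n - 1)) ∧ ∃ z ∈ KK q Z E n, (b * ν) ^ 2 ^ (n - 1) = z * b ^ 2 ^ (n - 1) := by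
  classical
  have hℛr : ∀ s ∈ ℛ, IsRefl q Z s := by
    intro s hs
    obtain ⟨t, ht, rfl⟩ := hℛT s hs
    exact ht.tor.refl
  have hr : IsRefl q Z (b ^ 2 ^ (n - 1)) := hb.tor.refl
  rcases frame hf hn hE hℛ hℛr hb with hfx | ⟨r₁, hr₁, horth, hr₁E, ⟨s, hs, hsr⟩, hfrm⟩
  · have h1 := fix_case hf hn hℛ hℛr hb hfx hν hy
    rw [h1]
    exact ⟨hr, 1, one_mem _, by simp⟩
  · have hRE : ∀ s ∈ ℛ, s ∈ E := fun s hs => hℛ ▸ Subgroup.subset_closure hs
    -- `n = 2`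
    have hn2 : n = 2 := by
      by_contra hne
      have hn3 : 3 ≤ n := by omega
      obtain ⟨t, ht, rfl⟩ := hℛT s hs
      have h1 := comm_of_three hf hn3 hE hℛ hℛr hb ht
      rw [h1] at hsr
      rw [← hsr] at horth
      obtain ⟨v, hv0, hv⟩ := hr.exists_ne
      exact hv0 (horth.disj hf hv hv)
    subst hn2
    have hq : q = 3 := by
      norm_num at hqn
      omega
    have e1 : 2 ^ (2 - 1) = 2 := by norm_num
    rw [e1] at hr hsr horth hfrm hy ⊢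
    simp only [pow_two] at hr hsr horth hfrm hy ⊢
    have hz := frame_mem_KK (n := 2) (E := E) hf hn hr hr₁ horth (by
      have := hb.mem
      rw [e1, pow_two] at this
      exact this) hr₁E hfrm
    have hr0 : b * b ∈ E := by
      have := hb.mem
      rw [e1, pow_two] at this
      exact this
    have hbT : b ∈ (Subgroup.zpowers b ⊔ E : Subgroup A) := Subgroup.mem_sup_left (Subgroup.mem_zpowers b)
    have h1 := q3_case (T := (Subgroup.zpowers b ⊔ E : Subgroup A)) hq hf hℛ hℛr le_sup_right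
      (fun x hx => two_elt hE hb hx) hr hr₁ horth hbT rfl
      (by
        have := hb.tor.fix
        rw [e1, pow_two] at this
        exact this) (hℛr s hs).sq hsr (hRE s hs) hfrm hν
      (by
        have e2 : 2 ^ 2 = 4 := by norm_num
        rw [e2] at hξ
        rw [← hξ]
        simp only [pow_succ, pow_zero, one_mul, mul_assoc]) hy
    rcases h1 with h1 | h1
    · rw [h1]
      exact ⟨hr, 1, one_mem _, by simp⟩
    · rw [h1]
      refine ⟨hr₁, b * b * r₁, hz, ?_⟩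
      have hc : b * b * r₁ = r₁ * (b * b) := horth.comm hf hr.sq hr₁.sq
      rw [hc, mul_assoc, hr.sq, mul_one]

/-- **The elements of `KK` do not change the reflection.** -/
theorem main_N2 (hn : 2 ≤ n) {b ν : A} (hb : IsT q Z E n b) (hν : ν ∈ KK q Z E n) :
    (b * ν) ^ 2 ^ (n - 1) = b ^ 2 ^ (n - 1) := by
  have hc : Commute b ν := (hν.2.2.2 b hb).symm
  rw [hc.mul_pow]
  have e : 2 ^ (n - 1) = 2 * 2 ^ (n - 2) := by
    rw [← pow_succ']
    congr 1
    omega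
  rw [e, pow_mul ν, pow_two, hν.2.1, one_pow, mul_one]

end KKsec

end Cfsg.Agent.Lib.BryG.Sym
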