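import Mathlib
import Cfsg.Agent.Lib.Gross.Active
import Cfsg.Agent.Lib.BryG.Tor3

/-!
# The symplectic form on a Heisenberg section

For a weight `lam` of the centre `C₀` of a `q`-group `Q` of class two, with `Q / C₀` of exponent `q`, the quotient
`Q / R`, `R` the centre of `Q` on the weight space, is a symplectic space with an action of the stabiliser of the
weight.
-/

set_option autoImplicit false
set_option linter.unusedSectionVars false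
set_option linter.style.haveILetI false

namespace Cfsg.Agent.Lib.BryG.Sec

open Module Cfsg Cfsg.Agent.Lib.Basic.PCore
open Cfsg.Agent.Lib.HallHigman.Reduce Cfsg.Agent.Lib.HallHigman.Block
open Cfsg.Agent.Lib.Ward Cfsg.Agent.Lib.Gross.Level Cfsg.Agent.Lib.Gross.Type Cfsg.Agent.Lib.Gross.Weights
open Cfsg.Agent.Lib.Gross.TTwo Cfsg.Agent.Lib.Gross.Section Cfsg.Agent.Lib.Gross.TheoremU

universe u

section exp

variable {K : Type*} [Field K] {q : ℕ} [Fact q.Prime]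

/-- The exponential. -/
def expZ (ζ : K) (i : ZMod q) : K := ζ ^ i.val

theorem expZ_add {ζ : K} (hζ : IsPrimitiveRoot ζ q) (a b : ZMod q) : expZ ζ (a + b) = expZ ζ a * expZ ζ b := by
  unfold expZ
  rw [ZMod.val_add, ← pow_add]
  exact (pow_eq_pow_mod _ hζ.pow_eq_one).symm

theorem expZ_zero (ζ : K) : expZ ζ (0 : ZMod q) = 1 := by
  unfold expZ
  rw [ZMod.val_zero, pow_zero]

theorem expZ_inj {ζ : K} (hζ : IsPrimitiveRoot ζ q) {a b : ZMod q} (h : expZ ζ a = expZ ζ b) : a = b := by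
  unfold expZ at h
  exact ZMod.val_injective q (hζ.pow_inj (ZMod.val_lt a) (ZMod.val_lt b) h)

theorem exists_log {ζ : K} (hζ : IsPrimitiveRoot ζ q) {t : K} (ht : t ^ q = 1) : ∃ i : ZMod q, expZ ζ i = t := by
  haveI : NeZero q := ⟨(Fact.out : q.Prime).ne_zero⟩
  obtain ⟨i, hi, e⟩ := hζ.eq_pow_of_pow_eq_one ht
  refine ⟨(i : ZMod q), ?_⟩
  unfold expZ
  rw [ZMod.val_cast_of_lt hi, e]

theorem exists_prim [IsAlgClosed K] (hqK : (q : K) ≠ 0) : ∃ ζ : K, IsPrimitiveRoot ζ q := by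
  haveI : NeZero ((q : ℕ) : K) := ⟨hqK⟩
  haveI : NeZero q := ⟨(Fact.out : q.Prime).ne_zero⟩
  have hdeg : (Polynomial.cyclotomic q K).degree ≠ 0 := by
    rw [Polynomial.degree_cyclotomic]
    have h1 := Nat.totient_pos.mpr (Fact.out : q.Prime).pos
    intro h
    have h2 : q.totient = 0 := by exact_mod_cast h
    omega
  obtain ⟨z, hz⟩ := IsAlgClosed.exists_root _ hdeg
  exact ⟨z, Polynomial.isRoot_cyclotomic_iff.mp hz⟩

end exp

variable {X : Type u} [Group X] [Finite X] {K : Type*} [Field K]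
variable {V : Type*} [AddCommGroup V] [Module K V]

section pairing

variable {ρ : X →* End K V} {Q C₀ : Subgroup X} {lam : X → K} {w₀ : V}

theorem lam_mul (hw₀ : w₀ ∈ wtSpace ρ C₀ lam) (hw₀0 : w₀ ≠ 0) {c c' : X} (hc : c ∈ C₀) (hc' : c' ∈ C₀) :
    lam (c * c') = lam c * lam c' := by
  have h1 := hw₀ (c * c') (mul_mem hc hc')
  rw [rho_mul, hw₀ c' hc', map_smul, hw₀ c hc, smul_smul] at h1
  have h2 : (lam c' * lam c - lam (c * c')) • w₀ = 0 := by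
    rw [sub_smul, h1, sub_self]
  have h3 := (smul_eq_zero.mp h2).resolve_right hw₀0
  rw [mul_comm] at h3
  exact (sub_eq_zero.mp h3).symm

theorem lam_one (hw₀ : w₀ ∈ wtSpace ρ C₀ lam) (hw₀0 : w₀ ≠ 0) : lam 1 = 1 := by
  have h1 := hw₀ 1 (one_mem _)
  rw [map_one, Module.End.one_apply] at h1
  have h2 : (lam 1 - 1) • w₀ = 0 := by
    rw [sub_smul, one_smul, ← h1, sub_self]
  exact sub_eq_zero.mp ((smul_eq_zero.mp h2).resolve_right hw₀0)

theorem lam_inv (hw₀ : w₀ ∈ wtSpace ρ C₀ lam) (hw₀0 : w₀ ≠ 0) {c : X} (hc : c ∈ C₀) : lam c⁻¹ * lam c = 1 := by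
  rw [← lam_mul hw₀ hw₀0 (inv_mem hc) hc, inv_mul_cancel, lam_one hw₀ hw₀0]

variable (hC₀Q : C₀ ≤ Q) (hcentral : ∀ c ∈ C₀, ∀ g ∈ Q, c * g = g * c)
  (hcomm : ∀ u ∈ Q, ∀ g ∈ Q, u * g * u⁻¹ * g⁻¹ ∈ C₀)

include hcentral hcomm

theorem cm_mul_left {u u' g : X} (hu : u ∈ Q) (hu' : u' ∈ Q) (hg : g ∈ Q) :
    (u * u') * g * (u * u')⁻¹ * g⁻¹ = (u' * g * u'⁻¹ * g⁻¹) * (u * g * u⁻¹ * g⁻¹) := by
  have h := hcentral _ (hcomm u' hu' g hg) u hu
  calc (u * u') * g * (u * u')⁻¹ * g⁻¹ = u * (u' * g * u'⁻¹ * g⁻¹) * g * u⁻¹ * g⁻¹ := by group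
    _ = (u' * g * u'⁻¹ * g⁻¹) * u * g * u⁻¹ * g⁻¹ := by rw [h]
    _ = _ := by group

theorem cm_mul_right {u g g' : X} (hu : u ∈ Q) (hg : g ∈ Q) (hg' : g' ∈ Q) :
    u * (g * g') * u⁻¹ * (g * g')⁻¹ = (u * g' * u⁻¹ * g'⁻¹) * (u * g * u⁻¹ * g⁻¹) := by
  have hq : u * g * u⁻¹ ∈ Q := mul_mem (mul_mem hu hg) (inv_mem hu)
  have h2 := hcentral _ (hcomm u hu g' hg') _ hq
  calc u * (g * g') * u⁻¹ * (g * g')⁻¹ = (u * g * u⁻¹) * (u * g' * u⁻¹ * g'⁻¹) * g⁻¹ := by group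
    _ = (u * g' * u⁻¹ * g'⁻¹) * (u * g * u⁻¹) * g⁻¹ := by rw [← h2]
    _ = _ := by group

/-- The pairing. -/
def sp (lam : X → K) (u g : X) : K := lam (u * g * u⁻¹ * g⁻¹)

variable (hw₀ : w₀ ∈ wtSpace ρ C₀ lam) (hw₀0 : w₀ ≠ 0)

include hw₀ hw₀0

theorem sp_mul_left {u u' g : X} (hu : u ∈ Q) (hu' : u' ∈ Q) (hg : g ∈ Q) :
    sp lam (u * u') g = sp lam u g * sp lam u' g := by
  unfold sp
  rw [cm_mul_left hcentral hcomm hu hu' hg, lam_mul hw₀ hw₀0 (hcomm u' hu' g hg) (hcomm u hu g hg), mul_comm]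

theorem sp_mul_right {u g g' : X} (hu : u ∈ Q) (hg : g ∈ Q) (hg' : g' ∈ Q) :
    sp lam u (g * g') = sp lam u g * sp lam u g' := by
  unfold sp
  rw [cm_mul_right hcentral hcomm hu hg hg', lam_mul hw₀ hw₀0 (hcomm u hu g' hg') (hcomm u hu g hg), mul_comm]

theorem sp_self (u : X) : sp lam u u = 1 := by
  unfold sp
  have e : u * u * u⁻¹ * u⁻¹ = 1 := by group
  rw [e, lam_one hw₀ hw₀0]

theorem sp_anti {u g : X} (hu : u ∈ Q) (hg : g ∈ Q) : sp lam u g * sp lam g u = 1 := by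
  unfold sp
  have e : g * u * g⁻¹ * u⁻¹ = (u * g * u⁻¹ * g⁻¹)⁻¹ := by group
  rw [e, mul_comm]
  exact lam_inv hw₀ hw₀0 (hcomm u hu g hg)

theorem sp_pow {u g : X} (hu : u ∈ Q) (hg : g ∈ Q) (n : ℕ) : sp lam (u ^ n) g = (sp lam u g) ^ n := by
  induction n with
  | zero =>
    unfold sp
    have e : u ^ 0 * g * (u ^ 0)⁻¹ * g⁻¹ = 1 := by group
    rw [e, lam_one hw₀ hw₀0, pow_zero]
  | succ n ih =>
    rw [pow_succ, sp_mul_left hcentral hcomm hw₀ hw₀0 (pow_mem hu n) hu hg, ih, pow_succ]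

theorem sp_right_of_mem {u g : X} (hu : u ∈ Q)
    (hg : g ∈ centerOn ρ Q (wtSpace ρ C₀ lam) (wtSpace_inv hcentral)) : sp lam u g = 1 := by
  have hgQ : g ∈ Q := hg.1
  have hU := wtSpace_inv (ρ := ρ) (lam := lam) hcentral
  set v := ρ (g * u) w₀ with hv
  have hvW : v ∈ wtSpace ρ C₀ lam := by
    rw [hv, rho_mul]
    exact hU g hgQ _ (hU u hu _ hw₀)
  have hv0 : v ≠ 0 := fun h0 => hw₀0 ((rho_eq_zero_iff ρ (g * u) w₀).mp h0)
  have h1 := hvW _ (hcomm u hu g hgQ)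
  have e : u * g * u⁻¹ * g⁻¹ * (g * u) = u * g := by group
  have h2 : ρ (u * g * u⁻¹ * g⁻¹) v = v := by
    rw [hv, ← rho_mul, e, rho_mul, rho_mul]
    exact (hg.2 u hu w₀ hw₀).symm
  rw [h2] at h1
  have h3 : (lam (u * g * u⁻¹ * g⁻¹) - 1) • v = 0 := by
    rw [sub_smul, one_smul, ← h1, sub_self]
  exact sub_eq_zero.mp ((smul_eq_zero.mp h3).resolve_right hv0)

theorem sp_left_of_mem {u g : X} (hg : g ∈ Q)
    (hu : u ∈ centerOn ρ Q (wtSpace ρ C₀ lam) (wtSpace_inv hcentral)) : sp lam u g = 1 := by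
  have h1 := sp_anti hcentral hcomm hw₀ hw₀0 hu.1 hg
  rw [sp_right_of_mem hcentral hcomm hw₀ hw₀0 hg hu, mul_one] at h1
  exact h1

theorem mem_R_of_sp {g : X} (hg : g ∈ Q) (h : ∀ u ∈ Q, sp lam u g = 1) :
    g ∈ centerOn ρ Q (wtSpace ρ C₀ lam) (wtSpace_inv hcentral) := by
  have hU := wtSpace_inv (ρ := ρ) (lam := lam) hcentral
  refine ⟨hg, fun u hu v hv => ?_⟩
  have hvW : ρ (g * u) v ∈ wtSpace ρ C₀ lam := by
    rw [rho_mul]
    exact hU g hg _ (hU u hu _ hv)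
  have h1 := hvW _ (hcomm u hu g hg)
  have h2 : lam (u * g * u⁻¹ * g⁻¹) = 1 := h u hu
  rw [h2, one_smul, ← rho_mul] at h1
  have e : u * g * u⁻¹ * g⁻¹ * (g * u) = u * g := by group
  rw [e, rho_mul, rho_mul] at h1
  exact h1.symm

end pairing

section conj

theorem sp_conj {C₀ : Subgroup X} {lam : X → K} {γ u g : X} (hγ : γ ∈ wtStab C₀ lam)
    (hc : u * g * u⁻¹ * g⁻¹ ∈ C₀) : sp lam (γ * u * γ⁻¹) (γ * g * γ⁻¹) = sp lam u g := by
  unfold sp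
  have e : γ * u * γ⁻¹ * (γ * g * γ⁻¹) * (γ * u * γ⁻¹)⁻¹ * (γ * g * γ⁻¹)⁻¹ = γ * (u * g * u⁻¹ * g⁻¹) * γ⁻¹ := by
    group
  rw [e]
  have h := (inv_mem hγ).2 _ hc
  rwa [inv_inv] at h

end conj

section main

variable [IsAlgClosed K] [FiniteDimensional K V]

/-- **The symplectic section.** -/
theorem exists_sec (ρ : X →* End K V) {q : ℕ} [Fact q.Prime] (hq2 : q ≠ 2) (hqK : (q : K) ≠ 0) {Q C₀ : Subgroup X}
    (hQn : Q.Normal) (hC₀Q : C₀ ≤ Q) (hcentral : ∀ c ∈ C₀, ∀ g ∈ Q, c * g = g * c)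
    (hcomm : ∀ u ∈ Q, ∀ g ∈ Q, u * g * u⁻¹ * g⁻¹ ∈ C₀) (hpow : ∀ x ∈ Q, x ^ q ∈ C₀) {lam : X → K} {w₀ : V}
    (hw₀ : w₀ ∈ wtSpace ρ C₀ lam) (hw₀0 : w₀ ≠ 0) :
    ∃ (Z : Type u) (_ : AddCommGroup Z) (_ : Module (ZMod q) Z) (_ : Finite Z) (ψ : Q →* Multiplicative Z)
      (π : wtStab C₀ lam →* End (ZMod q) Z) (f : Z →ₗ[ZMod q] Z →ₗ[ZMod q] ZMod q),
      Function.Surjective ψ ∧
      (∀ g : Q, ψ g = 1 ↔ (g : X) ∈ centerOn ρ Q (wtSpace ρ C₀ lam) (wtSpace_inv hcentral)) ∧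
      (∀ (s : wtStab C₀ lam) (g : Q) (h : (s : X) * g * (s : X)⁻¹ ∈ Q),
        Multiplicative.toAdd (ψ ⟨_, h⟩) = π s (Multiplicative.toAdd (ψ g))) ∧
      (∀ v, f v v = 0) ∧ (∀ v, (∀ w, f v w = 0) → v = 0) ∧
      (∀ (s : wtStab C₀ lam) (v w : Z), f (π s v) (π s w) = f v w) := by
  classical
  have hU := wtSpace_inv (ρ := ρ) (lam := lam) hcentral
  set R := centerOn ρ Q (wtSpace ρ C₀ lam) (wtSpace_inv hcentral) with hR
  have hC₀R : C₀ ≤ R := le_centerOn hC₀Q hcentral hU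
  set R' : Subgroup Q := R.subgroupOf Q with hR'
  have hmemR' : ∀ g : Q, g ∈ R' ↔ (g : X) ∈ R := fun g => Subgroup.mem_subgroupOf
  haveI hR'n : R'.Normal := by
    refine ⟨fun r hr g => ?_⟩
    rw [hmemR'] at hr ⊢
    have h1 := hC₀R (hcomm g g.2 r hr.1)
    have e : ((g * r * g⁻¹ : Q) : X) = ((g : X) * r * (g : X)⁻¹ * (r : X)⁻¹) * r := by
      simp
    rw [e]
    exact mul_mem h1 hr
  have hcommR : ∀ x y : Q, x * y * x⁻¹ * y⁻¹ ∈ R' := by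
    intro x y
    rw [hmemR']
    exact hC₀R (hcomm x x.2 y y.2)
  have hpowR : ∀ x : Q, x ^ q ∈ R' := by
    intro x
    rw [hmemR']
    exact hC₀R (hpow x x.2)
  obtain ⟨Z, iZ, mZ, ψ, hψ, hker⟩ := exists_module R' hcommR hpowR
  have hfinZ : Finite Z := Cfsg.Agent.Lib.PGroup.FrattiniBasis.finite_of_surj hψ
  set Γ := wtStab C₀ lam with hΓ
  have hΓQ : ∀ s : Γ, ∀ g ∈ Q, (s : X) * g * (s : X)⁻¹ ∈ Q := fun s g hg => hQn.conj_mem g hg s
  have hΓU : ∀ s : Γ, ∀ v ∈ wtSpace ρ C₀ lam, ρ (s : X) v ∈ wtSpace ρ C₀ lam := fun s v hv => stab_inv s.2 v hv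
  have hΓR : ∀ s : Γ, ∀ g ∈ R, (s : X) * g * (s : X)⁻¹ ∈ R := fun s g hg =>
    conj_mem_centerOn (hΓQ s) (hΓU s) hg
  -- the conjugation action on `Q`
  let c : Γ → (Q →* Q) := fun s =>
    { toFun := fun g => ⟨(s : X) * g * (s : X)⁻¹, hΓQ s g g.2⟩
      map_one' := by
        apply Subtype.ext
        simp
      map_mul' := by
        intro g g'
        apply Subtype.ext
        simp }
  have hcval : ∀ (s : Γ) (g : Q), ((c s g : Q) : X) = (s : X) * g * (s : X)⁻¹ := fun _ _ => rfl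
  have hc1 : ∀ a, c 1 a = a := by
    intro a
    apply Subtype.ext
    simp [hcval]
  have hcm : ∀ s t a, c (s * t) a = c s (c t a) := by
    intro s t a
    apply Subtype.ext
    simp only [hcval, Subgroup.coe_mul]
    group
  have hcker : ∀ s a, a ∈ ψ.ker → c s a ∈ ψ.ker := by
    intro s a ha
    rw [hker] at ha ⊢
    rw [hmemR'] at ha ⊢
    exact hΓR s _ ha
  obtain ⟨π, hπ⟩ := exists_rep (q := q) ψ hψ c hc1 hcm hcker
  have hkerψ : ∀ g : Q, ψ g = 1 ↔ (g : X) ∈ R := by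
    intro g
    rw [← hmemR', ← hker, MonoidHom.mem_ker]
  -- the exponential
  obtain ⟨ζ, hζ⟩ := exists_prim (K := K) (q := q) hqK
  have hsq : ∀ u g : Q, (sp lam (u : X) g) ^ q = 1 := by
    intro u g
    rw [← sp_pow hcentral hcomm hw₀ hw₀0 u.2 g.2]
    exact sp_left_of_mem hcentral hcomm hw₀ hw₀0 g.2 (hC₀R (hpow u u.2))
  have hsur : ∀ v : Z, ∃ u : Q, Multiplicative.toAdd (ψ u) = v := fun v => by
    obtain ⟨u, hu⟩ := hψ (Multiplicative.ofAdd v)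
    exact ⟨u, by rw [hu]; rfl⟩
  let σ : Z → Q := fun v => Classical.choose (hsur v)
  have hσ : ∀ v, Multiplicative.toAdd (ψ (σ v)) = v := fun v => Classical.choose_spec (hsur v)
  let f₀ : Z → Z → ZMod q := fun v w => Classical.choose (exists_log hζ (hsq (σ v) (σ w)))
  have hf₀ : ∀ v w, expZ ζ (f₀ v w) = sp lam (σ v : X) (σ w) := fun v w =>
    Classical.choose_spec (exists_log hζ (hsq (σ v) (σ w)))
  -- descent
  have hdiff : ∀ u u' : Q, Multiplicative.toAdd (ψ u) = Multiplicative.toAdd (ψ u') → ((u'⁻¹ * u : Q) : X) ∈ R := by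
    intro u u' h
    rw [← hkerψ, map_mul, map_inv]
    have h1 : ψ u = ψ u' := h
    rw [h1, inv_mul_cancel]
  have hdesc : ∀ u g : Q, expZ ζ (f₀ (Multiplicative.toAdd (ψ u)) (Multiplicative.toAdd (ψ g))) = sp lam (u : X) g := by
    intro u g
    rw [hf₀]
    set u' := σ (Multiplicative.toAdd (ψ u)) with hu'
    set g' := σ (Multiplicative.toAdd (ψ g)) with hg'
    have h1 := hdiff u u' (hσ _).symm
    have h2 := hdiff g g' (hσ _).symm
    have e1 : (u : X) = u' * ((u'⁻¹ * u : Q) : X) := by simp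
    have e2 : (g : X) = g' * ((g'⁻¹ * g : Q) : X) := by simp
    have h3 := sp_left_of_mem hcentral hcomm hw₀ hw₀0 (g' : Q).2 h1
    have h4 := sp_right_of_mem hcentral hcomm hw₀ hw₀0 (u : Q).2 h2
    have s1 : sp lam (u : X) g = sp lam (u : X) g' := by
      nth_rewrite 1 [e2]
      rw [sp_mul_right (ρ := ρ) hcentral hcomm hw₀ hw₀0 u.2 g'.2 (g'⁻¹ * g : Q).2, h4, mul_one]
    rw [s1]
    rw [e1, sp_mul_left (ρ := ρ) hcentral hcomm hw₀ hw₀0 u'.2 (u'⁻¹ * u : Q).2 g'.2, h3, mul_one]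
  have hadd1 : ∀ v v' w, f₀ (v + v') w = f₀ v w + f₀ v' w := by
    intro v v' w
    apply expZ_inj hζ
    rw [expZ_add hζ]
    obtain ⟨a, rfl⟩ := hsur v
    obtain ⟨a', rfl⟩ := hsur v'
    obtain ⟨b, rfl⟩ := hsur w
    have e : Multiplicative.toAdd (ψ a) + Multiplicative.toAdd (ψ a') = Multiplicative.toAdd (ψ (a * a')) := by
      rw [map_mul]; rfl
    rw [e, hdesc, hdesc, hdesc]
    exact sp_mul_left hcentral hcomm hw₀ hw₀0 a.2 a'.2 b.2
  have hadd2 : ∀ v w w', f₀ v (w + w') = f₀ v w + f₀ v w' := by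
    intro v w w'
    apply expZ_inj hζ
    rw [expZ_add hζ]
    obtain ⟨a, rfl⟩ := hsur v
    obtain ⟨b, rfl⟩ := hsur w
    obtain ⟨b', rfl⟩ := hsur w'
    have e : Multiplicative.toAdd (ψ b) + Multiplicative.toAdd (ψ b') = Multiplicative.toAdd (ψ (b * b')) := by
      rw [map_mul]; rfl
    rw [e, hdesc, hdesc, hdesc]
    exact sp_mul_right hcentral hcomm hw₀ hw₀0 a.2 b.2 b'.2
  let f : Z →ₗ[ZMod q] Z →ₗ[ZMod q] ZMod q :=
    LinearMap.mk₂ (ZMod q) f₀ hadd1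
      (fun c v w => ZMod.map_smul (AddMonoidHom.mk' (fun v => f₀ v w) (fun a b => hadd1 a b w)) c v) hadd2
      (fun c v w => ZMod.map_smul (AddMonoidHom.mk' (f₀ v) (hadd2 v)) c w)
  have hfv : ∀ v w, f v w = f₀ v w := fun _ _ => rfl
  refine ⟨Z, iZ, mZ, hfinZ, ψ, π, f, hψ, hkerψ, ?_, ?_, ?_, ?_⟩
  · intro s g h
    exact hπ s g
  · intro v
    obtain ⟨a, rfl⟩ := hsur v
    rw [hfv]
    apply expZ_inj hζ
    rw [hdesc, expZ_zero]
    exact sp_self (ρ := ρ) hcentral hcomm hw₀ hw₀0 _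
  · intro v hv
    obtain ⟨g, rfl⟩ := hsur v
    have h1 : (g : X) ∈ R := by
      apply mem_R_of_sp hcentral hcomm hw₀ hw₀0 g.2
      intro u hu
      have h2 := hv (Multiplicative.toAdd (ψ ⟨u, hu⟩))
      rw [hfv] at h2
      have h3 := hdesc g ⟨u, hu⟩
      rw [h2, expZ_zero] at h3
      have h4 := sp_anti (ρ := ρ) hcentral hcomm hw₀ hw₀0 g.2 hu
      rw [← h3, one_mul] at h4
      exact h4
    have h2 := (hkerψ g).mpr h1
    rw [h2]
    rfl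
  · intro s v w
    obtain ⟨a, rfl⟩ := hsur v
    obtain ⟨b, rfl⟩ := hsur w
    rw [hfv, hfv]
    apply expZ_inj hζ
    rw [← hπ, ← hπ, hdesc, hdesc]
    exact sp_conj s.2 (hcomm a a.2 b b.2 |> fun h => h)

end main

end Cfsg.Agent.Lib.BryG.Sec
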