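import Mathlib
import Cfsg.Agent.Lib.BryG.Sec

/-!
# The local analysis at a weight
-/

set_option autoImplicit false
set_option linter.unusedSectionVars false
set_option linter.style.haveILetI false

namespace Cfsg.Agent.Lib.BryG.Loc

open Module Cfsg Cfsg.Agent.Lib.Basic.PCore
open Cfsg.Agent.Lib.HallHigman.Reduce Cfsg.Agent.Lib.HallHigman.Block
open Cfsg.Agent.Lib.Ward Cfsg.Agent.Lib.Gross.Level Cfsg.Agent.Lib.Gross.Type Cfsg.Agent.Lib.Gross.Weights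
open Cfsg.Agent.Lib.Gross.TTwo Cfsg.Agent.Lib.Gross.Section Cfsg.Agent.Lib.Gross.TheoremU Cfsg.Agent.Lib.Gross.Active
open Cfsg.Agent.Lib.BryG.Sym Cfsg.Agent.Lib.BryG.Sec

universe u

section sp

variable {q : ℕ} [Fact q.Prime] {Z : Type*} [AddCommGroup Z] [Module (ZMod q) Z]

/-- The isometry group of a form. -/
def SpG (f : Z →ₗ[ZMod q] Z →ₗ[ZMod q] ZMod q) : Subgroup (Z ≃ₗ[ZMod q] Z) where
  carrier := {x | ∀ v w, f (x v) (x w) = f v w}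
  mul_mem' := by
    intro a b ha hb v w
    show f (a (b v)) (a (b w)) = _
    rw [ha, hb]
  one_mem' := fun v w => rfl
  inv_mem' := by
    intro a ha v w
    show f (a.symm v) (a.symm w) = f v w
    have := ha (a.symm v) (a.symm w)
    simpa using this.symm

/-- A representation by isometries. -/
def toSp {Γ : Type*} [Group Γ] (π : Γ →* End (ZMod q) Z) {f : Z →ₗ[ZMod q] Z →ₗ[ZMod q] ZMod q}
    (hinv : ∀ s v w, f (π s v) (π s w) = f v w) : Γ →* SpG f where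
  toFun s := ⟨LinearEquiv.ofLinearMap (π s) (π s⁻¹)
    (by
      have h : π s * π s⁻¹ = 1 := by rw [← map_mul]; simp
      exact h)
    (by
      have h : π s⁻¹ * π s = 1 := by rw [← map_mul]; simp
      exact h), fun v w => hinv s v w⟩
  map_one' := by
    apply Subtype.ext
    ext v
    show π 1 v = v
    simp
  map_mul' := by
    intro s t
    apply Subtype.ext
    ext v
    show π (s * t) v = π s (π t v)
    rw [map_mul]
    rfl

theorem toSp_smul {Γ : Type*} [Group Γ] (π : Γ →* End (ZMod q) Z) {f : Z →ₗ[ZMod q] Z →ₗ[ZMod q] ZMod q}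
    (hinv : ∀ s v w, f (π s v) (π s w) = f v w) (s : Γ) (v : Z) : (toSp π hinv s) • v = π s v := rfl

instance spg_finite [Finite Z] (f : Z →ₗ[ZMod q] Z →ₗ[ZMod q] ZMod q) : Finite (SpG f) := by
  haveI : Finite (Z ≃ₗ[ZMod q] Z) := Finite.of_injective (fun x : Z ≃ₗ[ZMod q] Z => (x : Z → Z)) DFunLike.coe_injective
  infer_instance

example (f : Z →ₗ[ZMod q] Z →ₗ[ZMod q] ZMod q) : DistribMulAction (SpG f) Z := inferInstance
example (f : Z →ₗ[ZMod q] Z →ₗ[ZMod q] ZMod q) : SMulCommClass (SpG f) (ZMod q) Z := inferInstance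
example (f : Z →ₗ[ZMod q] Z →ₗ[ZMod q] ZMod q) : FaithfulSMul (SpG f) Z := inferInstance

theorem two_ne_of {q : ℕ} [Fact q.Prime] (hq2 : q ≠ 2) : (2 : ZMod q) ≠ 0 := by
  intro h
  have h1 : ((2 : ℕ) : ZMod q) = 0 := by exact_mod_cast h
  rw [ZMod.natCast_eq_zero_iff] at h1
  exact hq2 ((Nat.prime_dvd_prime_iff_eq Fact.out Nat.prime_two).mp h1)

theorem isSym_spG {f : Z →ₗ[ZMod q] Z →ₗ[ZMod q] ZMod q} (hq2 : q ≠ 2) (halt : ∀ v, f v v = 0)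
    (hnd : ∀ v, (∀ w, f v w = 0) → v = 0) : IsSym (SpG f) f where
  two := two_ne_of hq2
  alt := halt
  nd := hnd
  inv := fun x v w => x.2 v w

end sp

theorem order_of_last {G : Type*} [Group G] {a : G} {e : ℕ} (he : 1 ≤ e) (h1 : a ^ 2 ^ e = 1) (h2 : a ^ 2 ^ (e - 1) ≠ 1) :
    orderOf a = 2 ^ e := by
  haveI : Fact (Nat.Prime 2) := ⟨Nat.prime_two⟩
  have h3 : e - 1 + 1 = e := by omega
  have := orderOf_eq_prime_pow (p := 2) (n := e - 1) (x := a) h2 (by rw [h3]; exact h1)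
  rwa [h3] at this

theorem pow_mul_normal {G : Type*} [Group G] {N : Subgroup G} (hN : N.Normal) {c u : G} (hu : u ∈ N) (j : ℕ) :
    ∃ d ∈ N, (c * u) ^ j = c ^ j * d := by
  induction j with
  | zero => exact ⟨1, one_mem _, by simp⟩
  | succ j ih =>
    obtain ⟨d, hd, e⟩ := ih
    refine ⟨c⁻¹ * d * c * u, mul_mem ?_ hu, ?_⟩
    · have := hN.conj_mem d hd c⁻¹
      simpa using this
    · rw [pow_succ, e, pow_succ]
      group

/-- The subgroup generated by the conjugates of a conjugation-invariant set is normalised. -/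
theorem mem_normalizer_closure {G : Type*} [Group G] {S : Set G} {x : G} (h1 : ∀ r ∈ S, x * r * x⁻¹ ∈ S)
    (h2 : ∀ r ∈ S, x⁻¹ * r * x ∈ S) : x ∈ Subgroup.normalizer (Subgroup.closure S : Set G) := by
  rw [Subgroup.mem_normalizer_iff]
  have key : ∀ (y : G), (∀ r ∈ S, y * r * y⁻¹ ∈ S) → ∀ g ∈ Subgroup.closure S, y * g * y⁻¹ ∈ Subgroup.closure S :=
    fun y hy g hg => by
      induction hg using Subgroup.closure_induction with
      | mem g hg => exact Subgroup.subset_closure (hy g hg)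
      | one => simp
      | mul a b _ _ ha hb =>
        have e : y * (a * b) * y⁻¹ = (y * a * y⁻¹) * (y * b * y⁻¹) := by group
        rw [e]
        exact mul_mem ha hb
      | inv a _ ha =>
        have e : y * a⁻¹ * y⁻¹ = (y * a * y⁻¹)⁻¹ := by group
        rw [e]
        exact inv_mem ha
  intro g
  constructor
  · exact key x h1 g
  · intro hg
    have := key x⁻¹ (by simpa using h2) _ hg
    simpa [mul_assoc] using this

variable {X : Type u} [Group X] [Finite X] {K : Type*} [Field K]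
variable {V : Type*} [AddCommGroup V] [Module K V]

section torus

variable [IsAlgClosed K] [FiniteDimensional K V]

/-- **The active elements.** -/
theorem torus_of_active (ρ : X →* End K V) {q : ℕ} [Fact q.Prime] (hq2 : q ≠ 2) (hqK : (q : K) ≠ 0) {Q C₀ : Subgroup X}
    (hQn : Q.Normal) (hC₀n : C₀.Normal) (hQ : IsPGroup q Q) (hC₀Q : C₀ ≤ Q) (hcentral : ∀ c ∈ C₀, ∀ g ∈ Q, c * g = g * c)
    (hcomm : ∀ u ∈ Q, ∀ g ∈ Q, u * g * u⁻¹ * g⁻¹ ∈ C₀) {lam : X → K} {w₀ : V}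
    (hw₀ : w₀ ∈ wtSpace ρ C₀ lam) (hw₀0 : w₀ ≠ 0) {a : X} {e : ℕ} (he : 1 ≤ e) (ha : orderOf a = 2 ^ e)
    (hs : ∀ v, ∑ i ∈ Finset.range (2 ^ e), ρ (a ^ i) v = 0)
    (hne : ∃ g ∈ Q, a ^ 2 ^ (e - 1) * g * (a ^ 2 ^ (e - 1))⁻¹ * g⁻¹ ∉
      centerOn ρ Q (wtSpace ρ C₀ lam) (wtSpace_inv hcentral)) :
    ∃ n : ℕ, 2 ≤ n ∧ 2 ^ n = q + 1 ∧ n ≤ e ∧ a ^ 2 ^ (e - n) ∈ wtStab C₀ lam ∧
      Nat.card (↥(commY Q (a ^ 2 ^ (e - 1))) ⧸
        (centerOn ρ Q (wtSpace ρ C₀ lam) (wtSpace_inv hcentral)).subgroupOf (commY Q (a ^ 2 ^ (e - 1)))) = q * q ∧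
      ∀ g ∈ Q, a ^ 2 ^ (e - 1) * g * (a ^ 2 ^ (e - 1))⁻¹ * g⁻¹ ∈ centerOn ρ Q (wtSpace ρ C₀ lam) (wtSpace_inv hcentral) →
        a ^ 2 ^ (e - n) * g * (a ^ 2 ^ (e - n))⁻¹ * g⁻¹ ∈ centerOn ρ Q (wtSpace ρ C₀ lam) (wtSpace_inv hcentral) := by
  classical
  haveI : Fact (Nat.Prime 2) := ⟨Nat.prime_two⟩
  set U₁ := wtSpace ρ C₀ lam with hU₁
  have hU₁Q : ∀ g ∈ Q, ∀ v ∈ U₁, ρ g v ∈ U₁ := wtSpace_inv hcentral
  set R := centerOn ρ Q U₁ hU₁Q with hR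
  have hRQ : R ≤ Q := fun r hr => hr.1
  have hC₀R : C₀ ≤ R := le_centerOn hC₀Q hcentral hU₁Q
  have hcommR : ∀ u ∈ Q, ∀ g ∈ Q, u * g * u⁻¹ * g⁻¹ ∈ R := fun u hu g hg => hC₀R (hcomm u hu g hg)
  have hQK : (Nat.card Q : K) ≠ 0 := card_ne_zero_of_pgroup hqK hQ
  have hRK : (Nat.card R : K) ≠ 0 := card_ne_zero_of_pgroup hqK (hQ.to_le hRQ)
  have hRst : ∀ y ∈ R, ∀ w ∈ U₁, ρ y w ∈ U₁ := fun y hy => hU₁Q y hy.1
  have hRcm : ∀ y ∈ R, ∀ z ∈ R, ∀ w ∈ U₁, ρ y (ρ z w) = ρ z (ρ y w) :=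
    fun y hy z hz w hw => hy.2 z hz.1 w hw
  have hnot0 : ¬ ∀ w ∈ U₁, (0 : End K V) w = w := by
    intro h
    apply hw₀0
    exact (h w₀ hw₀).symm
  obtain ⟨w₁, hw₁U, mu, hw₁mu, hw₁ne⟩ :=
    exists_wt_of_ne (ρ := ρ) (K := R) hRK (U := U₁) hRst hRcm (0 : End K V) hnot0
  have hw₁0 : w₁ ≠ 0 := fun h => hw₁ne (by simp [h])
  set U₂ := U₁ ⊓ wtSpace ρ R mu with hU₂
  have hw₁U₂ : w₁ ∈ U₂ := Submodule.mem_inf.mpr ⟨hw₁U, hw₁mu⟩
  have hData : Data ρ Q R U₂ := data_of_weights hC₀Q hcentral hcomm hw₁U₂ hw₁0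
  have hU₂0 : U₂ ≠ ⊥ := by
    intro h
    rw [h] at hw₁U₂
    exact hw₁0 (by simpa using hw₁U₂)
  have hapow : a ^ 2 ^ e = 1 := by
    rw [← ha]; exact pow_orderOf_eq_one a
  obtain ⟨c₁, hc₁, hx₁, hs₁⟩ := exists_level ρ hapow (U := ⊤) (fun _ _ => trivial) (fun v _ => hs v) C₀
    (by rw [Subgroup.normalizer_eq_top_iff.mpr hC₀n]; trivial) lam ⟨w₀, ⟨trivial, hw₀⟩, hw₀0⟩
  set x₁ := a ^ 2 ^ c₁ with hx₁def
  have hx₁U : ∀ v ∈ U₁, ρ x₁ v ∈ U₁ := stab_inv hx₁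
  have hordx₁ : orderOf x₁ = 2 ^ (e - c₁) := orderOf_pow_pow ha hc₁.le
  have hx₁pow : x₁ ^ 2 ^ (e - c₁) = 1 := by
    rw [← hordx₁]; exact pow_orderOf_eq_one _
  have hx₁R : x₁ ∈ Subgroup.normalizer (R : Set X) :=
    mem_normalizer_centerOn (fun g hg => hQn.conj_mem g hg x₁) hx₁U
  obtain ⟨c₂, hc₂, hx₂, hs₂⟩ := exists_level ρ hx₁pow (U := U₁) hx₁U
    (fun v hv => hs₁ v (Submodule.mem_inf.mpr ⟨trivial, hv⟩)) R hx₁R mu ⟨w₁, hw₁U₂, hw₁0⟩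
  set x₂ := x₁ ^ 2 ^ c₂ with hx₂def
  have hx₂C : x₂ ∈ wtStab C₀ lam := pow_mem hx₁ _
  set n := e - c₁ - c₂ with hn
  have hn1 : 1 ≤ n := by omega
  have hordx₂ : orderOf x₂ = 2 ^ n := orderOf_pow_pow hordx₁ hc₂.le
  have hyeq : a ^ 2 ^ (e - 1) = x₂ ^ 2 ^ (n - 1) := by
    rw [hx₂def, hx₁def, ← pow_mul, ← pow_mul, ← pow_add, ← pow_add]
    congr 2
    omega
  have hUa : ∀ v ∈ U₂, ρ x₂ v ∈ U₂ := by
    intro v hv
    obtain ⟨hv1, hv2⟩ := Submodule.mem_inf.mp hv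
    exact Submodule.mem_inf.mpr ⟨stab_inv hx₂C v hv1, stab_inv hx₂ v hv2⟩
  have hRa : ∀ g ∈ Q, x₂ * g * x₂⁻¹ ∈ R ↔ g ∈ R := fun g _ =>
    (Subgroup.mem_normalizer_iff.mp hx₂.1 g).symm
  obtain ⟨hn2, hq, hcard, hfix⟩ := type_theorem ρ x₂ hn1 hordx₂ hq2 hQ hQK
    (fun g hg => hQn.conj_mem g hg x₂) hU₂0 hUa hData hRa hs₂ hyeq hne
  have ex₂ : a ^ 2 ^ (e - n) = x₂ := by
    rw [hx₂def, hx₁def, ← pow_mul, ← pow_add]
    congr 2
    omega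
  refine ⟨n, hn2, hq, by omega, ?_, hcard, ?_⟩
  · rw [ex₂]
    exact hx₂C
  · rw [ex₂]
    exact hfix

end torus

section plane

variable {q : ℕ} [Fact q.Prime] {Z : Type*} [AddCommGroup Z] [Module (ZMod q) Z] [Finite Z]

/-- The dimension of the plane. -/
theorem finrank_plane (hq2 : q ≠ 2) {Q R Γ : Subgroup X} (hQn : Q.Normal) (ψ : Q →* Multiplicative Z)
    (hψ : Function.Surjective ψ) (hker : ∀ g : Q, ψ g = 1 ↔ (g : X) ∈ R) (π : Γ →* End (ZMod q) Z)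
    (hπ : ∀ (s : Γ) (g : Q) (h : (s : X) * g * (s : X)⁻¹ ∈ Q),
        Multiplicative.toAdd (ψ ⟨_, h⟩) = π s (Multiplicative.toAdd (ψ g)))
    (y : Γ) (hyy : y * y = 1) (hcard : Nat.card (↥(commY Q (y : X)) ⧸ R.subgroupOf (commY Q (y : X))) = q * q)
    {P : Submodule (ZMod q) Z} (hP : ∀ v, v ∈ P ↔ π y v = -v) : finrank (ZMod q) P = 2 := by
  classical
  have h2 := two_ne_of (q := q) hq2
  have hyQ : ∀ g ∈ Q, (y : X) * g * (y : X)⁻¹ ∈ Q := fun g hg => hQn.conj_mem g hg y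
  have hle : commY Q (y : X) ≤ Q := commY_le hyQ
  have hππ : ∀ v, π y (π y v) = v := by
    intro v
    rw [← rho_mul, hyy, map_one, Module.End.one_apply]
  set ψ' : Q → Z := fun g => Multiplicative.toAdd (ψ g) with hψ'
  have hmul' : ∀ a b : Q, ψ' (a * b) = ψ' a + ψ' b := fun a b => by
    simp only [hψ', map_mul]
    rfl
  have hinv' : ∀ a : Q, ψ' a⁻¹ = - ψ' a := fun a => by
    simp only [hψ', map_inv]
    rfl
  have hgen : ∀ g : Q, ∀ h : g.1 * ((y : X) * g.1⁻¹ * (y : X)⁻¹) ∈ Q,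
      ψ' ⟨_, h⟩ = ψ' g - π y (ψ' g) := by
    intro g h
    have h3 : (y : X) * (g⁻¹ : Q).1 * (y : X)⁻¹ ∈ Q := hyQ _ (g⁻¹).2
    have e : (⟨_, h⟩ : Q) = g * ⟨_, h3⟩ := Subtype.ext (by simp)
    rw [e, hmul']
    have h4 : ψ' ⟨_, h3⟩ = π y (ψ' g⁻¹) := hπ y g⁻¹ h3
    rw [h4, hinv', map_neg]
    abel
  have hmem : ∀ c (hc : c ∈ commY Q (y : X)), ψ' ⟨c, hle hc⟩ ∈ P := by
    intro c hc
    induction hc using Subgroup.closure_induction with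
    | mem x hx =>
      obtain ⟨g, hg, rfl⟩ := hx
      rw [hP, hgen ⟨g, hg⟩]
      rw [map_sub, hππ]
      abel
    | one =>
      have e : (⟨1, hle (one_mem _)⟩ : Q) = 1 := rfl
      rw [e]
      simp only [hψ', map_one]
      exact zero_mem _
    | mul a b ha' hb' ha hb =>
      have e : (⟨a * b, hle (mul_mem ha' hb')⟩ : Q) = ⟨a, hle ha'⟩ * ⟨b, hle hb'⟩ := rfl
      rw [e, hmul']
      exact add_mem ha hb
    | inv a ha' ha =>
      have e : (⟨a⁻¹, hle (inv_mem ha')⟩ : Q) = (⟨a, hle ha'⟩ : Q)⁻¹ := rfl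
      rw [e, hinv']
      exact neg_mem ha
  let φ : ↥(commY Q (y : X)) →* Multiplicative P := MonoidHom.mk'
    (fun c => Multiplicative.ofAdd ⟨ψ' ⟨c, hle c.2⟩, hmem c c.2⟩)
    (by
      intro a b
      apply Multiplicative.toAdd.injective
      apply Subtype.ext
      exact hmul' ⟨a, hle a.2⟩ ⟨b, hle b.2⟩)
  have hφker : φ.ker = R.subgroupOf (commY Q (y : X)) := by
    ext c
    rw [MonoidHom.mem_ker, Subgroup.mem_subgroupOf, ← hker ⟨c, hle c.2⟩]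
    constructor
    · intro h
      have h5 : ψ' ⟨c, hle c.2⟩ = 0 := congrArg (fun z => ((Multiplicative.toAdd z : P) : Z)) h
      exact h5
    · intro h
      apply Multiplicative.toAdd.injective
      apply Subtype.ext
      exact congrArg Multiplicative.toAdd h
  have hφsurj : Function.Surjective φ := by
    intro p
    set p' : P := Multiplicative.toAdd p with hp'
    obtain ⟨g, hg⟩ := hψ (Multiplicative.ofAdd ((2 : ZMod q)⁻¹ • (p' : Z)))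
    have hg' : ψ' g = (2 : ZMod q)⁻¹ • (p' : Z) := by
      simp only [hψ', hg]
      rfl
    refine ⟨⟨_, mem_commY g.2⟩, ?_⟩
    apply Multiplicative.toAdd.injective
    apply Subtype.ext
    show ψ' ⟨_, _⟩ = (p' : Z)
    rw [hgen g, hg', map_smul, (hP _).mp p'.2, smul_neg, sub_neg_eq_add, ← add_smul, ← two_mul, mul_inv_cancel₀ h2,
      one_smul]
  have hc2 : Nat.card (Multiplicative P) = q * q := by
    rw [← hcard, ← Subgroup.index_eq_card, ← hφker, Subgroup.index_ker, MonoidHom.range_eq_top.mpr hφsurj,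
      Subgroup.card_top]
  have hc3 : Nat.card P = q * q := by
    rw [← hc2]
    exact Nat.card_congr Multiplicative.toAdd.symm
  haveI : Module.Finite (ZMod q) Z := Module.Finite.of_finite
  have hc4 : Nat.card P = q ^ finrank (ZMod q) P := by
    rw [Module.natCard_eq_pow_finrank (K := ZMod q) (V := P), Nat.card_zmod]
  rw [hc3, ← pow_two] at hc4
  exact (Nat.pow_right_injective (Fact.out : q.Prime).two_le hc4).symm

end plane


section abstract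

variable {q : ℕ} [Fact q.Prime] {Z : Type*} [AddCommGroup Z] [Module (ZMod q) Z] [Finite Z]
variable {A : Type*} [Group A] [Finite A] [DistribMulAction A Z] [SMulCommClass A (ZMod q) Z] [FaithfulSMul A Z]
variable {f : Z →ₗ[ZMod q] Z →ₗ[ZMod q] ZMod q}
variable {Γ : Subgroup X} (φ : Γ →* A)

open scoped Classical in
/-- The total map. -/
noncomputable def tot (x : X) : A := if h : x ∈ Γ then φ ⟨x, h⟩ else 1

theorem tot_of_mem {x : X} (h : x ∈ Γ) : tot φ x = φ ⟨x, h⟩ := dif_pos h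

theorem tot_one : tot φ (1 : X) = 1 := by
  rw [tot_of_mem φ (one_mem _)]
  exact map_one φ

theorem tot_mul {x y : X} (hx : x ∈ Γ) (hy : y ∈ Γ) : tot φ (x * y) = tot φ x * tot φ y := by
  rw [tot_of_mem φ (mul_mem hx hy), tot_of_mem φ hx, tot_of_mem φ hy, ← map_mul]
  rfl

theorem tot_inv {x : X} (hx : x ∈ Γ) : tot φ x⁻¹ = (tot φ x)⁻¹ := by
  rw [tot_of_mem φ (inv_mem hx), tot_of_mem φ hx, ← map_inv]
  rfl

theorem tot_pow {x : X} (hx : x ∈ Γ) (k : ℕ) : tot φ (x ^ k) = (tot φ x) ^ k := by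
  rw [tot_of_mem φ (pow_mem hx k), tot_of_mem φ hx, ← map_pow]
  rfl

variable (X) in
/-- The elements of order `2 ^ e`. -/
def Ae (e : ℕ) : Set X := {a | orderOf a = 2 ^ e}

omit [Finite X] in
theorem Ae_conj {e : ℕ} (g : X) : ∀ a ∈ Ae X e, g * a * g⁻¹ ∈ Ae X e := by
  intro a ha
  have e' : g * a * g⁻¹ = MulAut.conj g a := rfl
  show orderOf _ = _
  rw [e', MulEquiv.orderOf_eq]
  exact ha

theorem lastD_normal {e : ℕ} : (lastD (Ae X e)).Normal := ⟨fun _ hy g => lastD_conj Ae_conj g hy⟩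

theorem y_mem_lastD {e : ℕ} (he : 1 ≤ e) {c : X} (hc : c ^ 2 ^ e = 1) : c ^ 2 ^ (e - 1) ∈ lastD (Ae X e) := by
  by_cases h : c ^ 2 ^ (e - 1) = 1
  · rw [h]
    exact one_mem _
  · exact Subgroup.subset_closure ⟨c, order_of_last he hc h, e, he, order_of_last he hc h, rfl⟩

/-- The generators of the last subgroup. -/
def T1 (e : ℕ) (D : Subgroup X) : Set X :=
  {t | ∃ c u, u ∈ D ∧ c ^ 2 ^ e = 1 ∧ (c * u) ^ 2 ^ e = 1 ∧ t = (c * u) ^ 2 ^ (e - 1) * (c ^ 2 ^ (e - 1))⁻¹}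

variable (X) in
/-- The last subgroup. -/
def K1 (e : ℕ) : Subgroup X := Subgroup.closure (T1 e (lastD (Ae X e)))

theorem K1_le {e : ℕ} (he : 1 ≤ e) : K1 X e ≤ lastD (Ae X e) := by
  rw [K1, Subgroup.closure_le]
  rintro t ⟨c, u, _, h1, h2, rfl⟩
  exact mul_mem (y_mem_lastD he h2) (inv_mem (y_mem_lastD he h1))

theorem T1_conj {e : ℕ} (g : X) : ∀ t ∈ T1 e (lastD (Ae X e)), g * t * g⁻¹ ∈ T1 e (lastD (Ae X e)) := by
  rintro t ⟨c, u, hu, h1, h2, rfl⟩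
  have ec : g * c * g⁻¹ * (g * u * g⁻¹) = g * (c * u) * g⁻¹ := by group
  refine ⟨g * c * g⁻¹, g * u * g⁻¹, lastD_conj Ae_conj g hu, ?_, ?_, ?_⟩
  · rw [conj_pow, h1]
    simp
  · rw [ec, conj_pow, h2]
    simp
  · rw [ec, conj_pow, conj_pow]
    group

theorem K1_normal {e : ℕ} : (K1 X e).Normal := ⟨fun _ hy g => conj_mem_closure T1_conj g hy⟩

theorem not_isRefl_one (hf : IsSym A f) : ¬ IsRefl q Z (1 : A) := by
  intro h
  obtain ⟨v, hv, h1⟩ := h.exists_ne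
  rw [one_smul] at h1
  apply hv
  have h2 : (2 : ZMod q) • v = 0 := by
    rw [two_smul]
    nth_rw 1 [h1]
    simp
  have := (smul_eq_zero.mp h2).resolve_left hf.two
  exact this

theorem abstract_main (hf : IsSym A f) {e n : ℕ} (he : 1 ≤ e) (hDΓ : lastD (Ae X e) ≤ Γ)
    (hD2 : ∀ d ∈ lastD (Ae X e), ∃ k : ℕ, tot φ (d ^ 2 ^ k) = 1)
    (hact : ∀ a, orderOf a = 2 ^ e → tot φ (a ^ 2 ^ (e - 1)) ≠ 1 →
      2 ≤ n ∧ 2 ^ n = q + 1 ∧ n ≤ e ∧ ∃ h : a ^ 2 ^ (e - n) ∈ Γ, IsTorus q Z n (φ ⟨_, h⟩))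
    (hrefl : ∀ a, orderOf a = 2 ^ e → tot φ (a ^ 2 ^ (e - 1)) = 1 ∨ IsRefl q Z (tot φ (a ^ 2 ^ (e - 1))))
    {c k : X} (hk : k ∈ K1 X e) (hc : c ^ 2 ^ e = 1) (hck : (c * k) ^ 2 ^ e = 1) :
    tot φ ((c * k) ^ 2 ^ (e - 1)) = tot φ (c ^ 2 ^ (e - 1)) := by
  classical
  haveI : Fact (Nat.Prime 2) := ⟨Nat.prime_two⟩
  set D := lastD (Ae X e) with hD
  have hDn : D.Normal := lastD_normal
  set ℛ : Set A := {s | s ≠ 1 ∧ ∃ y ∈ lastSet (Ae X e), s = tot φ y} with hℛdef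
  set E := Subgroup.closure ℛ with hEdef
  have hE1 : ∀ d ∈ D, tot φ d ∈ E := by
    intro d hd
    induction hd using Subgroup.closure_induction with
    | mem y hy =>
      by_cases h1 : tot φ y = 1
      · rw [h1]
        exact one_mem _
      · exact Subgroup.subset_closure ⟨h1, y, hy, rfl⟩
    | one =>
      rw [tot_one]
      exact one_mem _
    | mul a b ha' hb' ha hb =>
      rw [tot_mul φ (hDΓ ha') (hDΓ hb')]
      exact mul_mem ha hb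
    | inv a ha' ha =>
      rw [tot_inv φ (hDΓ ha')]
      exact inv_mem ha
  have hE2 : ∀ s ∈ E, ∃ d ∈ D, s = tot φ d := by
    intro s hs
    induction hs using Subgroup.closure_induction with
    | mem s hs =>
      obtain ⟨_, y, hy, rfl⟩ := hs
      exact ⟨y, Subgroup.subset_closure hy, rfl⟩
    | one => exact ⟨1, one_mem _, (tot_one φ).symm⟩
    | mul a b _ _ ha hb =>
      obtain ⟨x, hx, rfl⟩ := ha
      obtain ⟨y, hy, rfl⟩ := hb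
      exact ⟨x * y, mul_mem hx hy, (tot_mul φ (hDΓ hx) (hDΓ hy)).symm⟩
    | inv a _ ha =>
      obtain ⟨x, hx, rfl⟩ := ha
      exact ⟨x⁻¹, inv_mem hx, (tot_inv φ (hDΓ hx)).symm⟩
  have hEp : IsPGroup 2 E := by
    intro s
    obtain ⟨d, hd, hs⟩ := hE2 s s.2
    obtain ⟨j, hj⟩ := hD2 d hd
    refine ⟨j, Subtype.ext ?_⟩
    have : ((s ^ 2 ^ j : E) : A) = (s : A) ^ 2 ^ j := rfl
    rw [this, hs, ← tot_pow φ (hDΓ hd), hj]
    rfl
  have hnorm : ∀ x : Γ, φ x ∈ Subgroup.normalizer (E : Set A) := by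
    have key : ∀ x : Γ, ∀ r ∈ ℛ, φ x * r * (φ x)⁻¹ ∈ ℛ := by
      rintro x r ⟨hr1, y, hy, rfl⟩
      have hyD : y ∈ D := Subgroup.subset_closure hy
      have hyΓ := hDΓ hyD
      have ex : tot φ ((x : X) * y * (x : X)⁻¹) = φ x * tot φ y * (φ x)⁻¹ := by
        rw [tot_mul φ (mul_mem x.2 hyΓ) (inv_mem x.2), tot_mul φ x.2 hyΓ, tot_inv φ x.2, tot_of_mem φ x.2]
      refine ⟨?_, (x : X) * y * (x : X)⁻¹, lastSet_conj Ae_conj _ _ hy, ex.symm⟩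
      intro h
      apply hr1
      have h3 : tot φ y = (φ x)⁻¹ * (φ x * tot φ y * (φ x)⁻¹) * φ x := by group
      rw [h3, h]
      group
    intro x
    exact mem_normalizer_closure (key x) (fun r hr => by simpa using key x⁻¹ r hr)
  have hIsT : ∀ a, orderOf a = 2 ^ e → tot φ (a ^ 2 ^ (e - 1)) ≠ 1 →
      2 ≤ n ∧ 2 ^ n = q + 1 ∧ n ≤ e ∧ ∃ h : a ^ 2 ^ (e - n) ∈ Γ, IsT q Z E n (φ ⟨_, h⟩) ∧
        (φ ⟨_, h⟩) ^ 2 ^ (n - 1) = tot φ (a ^ 2 ^ (e - 1)) := by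
    intro a ha hne
    obtain ⟨hn2, hq, hne2, hb, ht⟩ := hact a ha hne
    have hp : (φ ⟨_, hb⟩) ^ 2 ^ (n - 1) = tot φ (a ^ 2 ^ (e - 1)) := by
      rw [← tot_of_mem φ hb, ← tot_pow φ hb, ← pow_mul, ← pow_add]
      congr 3
      omega
    refine ⟨hn2, hq, hne2, hb, ⟨ht, hnorm _, ?_⟩, hp⟩
    rw [hp]
    exact Subgroup.subset_closure ⟨hne, _, ⟨a, ha, e, he, ha, rfl⟩, rfl⟩
  have hℛT : ∀ s ∈ ℛ, ∃ t, IsT q Z E n t ∧ t ^ 2 ^ (n - 1) = s := by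
    rintro s ⟨hs1, y, ⟨a, ha, m, hm, hord, rfl⟩, rfl⟩
    have hme : m = e := by
      have h1 : 2 ^ m = 2 ^ e := hord.symm.trans ha
      exact Nat.pow_right_injective (le_refl 2) h1
    subst hme
    obtain ⟨_, _, _, hb, ht, hp⟩ := hIsT a ha hs1
    exact ⟨_, ht, hp⟩
  have hyrefl : ∀ a, a ^ 2 ^ e = 1 → a ^ 2 ^ (e - 1) = 1 ∨ IsRefl q Z (tot φ (a ^ 2 ^ (e - 1))) ∨
      tot φ (a ^ 2 ^ (e - 1)) = 1 := by
    intro a ha
    by_cases h : a ^ 2 ^ (e - 1) = 1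
    · exact Or.inl h
    · rcases hrefl a (order_of_last he ha h) with h2 | h2
      · exact Or.inr (Or.inr h2)
      · exact Or.inr (Or.inl h2)
  have hN1 : ∀ c u, u ∈ D → c ^ 2 ^ e = 1 → (c * u) ^ 2 ^ e = 1 → tot φ (c ^ 2 ^ (e - 1)) ≠ 1 →
      IsRefl q Z (tot φ ((c * u) ^ 2 ^ (e - 1))) ∧
        ∃ z ∈ KK q Z E n, tot φ ((c * u) ^ 2 ^ (e - 1)) = z * tot φ (c ^ 2 ^ (e - 1)) := by
    intro c u hu hc hcu hne
    have hne1 : c ^ 2 ^ (e - 1) ≠ 1 := by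
      intro h
      apply hne
      rw [h, tot_one]
    have hord := order_of_last he hc hne1
    obtain ⟨hn2, hq, hne2, hb, hIs, hbp⟩ := hIsT c hord hne
    obtain ⟨d, hd, hcud⟩ := pow_mul_normal hDn (c := c) hu (2 ^ (e - n))
    have hdΓ := hDΓ hd
    have hmem : (c * u) ^ 2 ^ (e - n) ∈ Γ := by
      rw [hcud]
      exact mul_mem hb hdΓ
    have hx : tot φ ((c * u) ^ 2 ^ (e - n)) = φ ⟨_, hb⟩ * tot φ d := by
      rw [hcud, tot_mul φ hb hdΓ, tot_of_mem φ hb]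
    have hξ : (φ ⟨_, hb⟩ * tot φ d) ^ 2 ^ n = 1 := by
      rw [← hx, ← tot_pow φ hmem, ← pow_mul, ← pow_add]
      have h5 : e - n + n = e := by omega
      rw [h5, hcu, tot_one]
    have hyeq : (φ ⟨_, hb⟩ * tot φ d) ^ 2 ^ (n - 1) = tot φ ((c * u) ^ 2 ^ (e - 1)) := by
      rw [← hx, ← tot_pow φ hmem, ← pow_mul, ← pow_add]
      congr 3
      omega
    have hy : (φ ⟨_, hb⟩ * tot φ d) ^ 2 ^ (n - 1) = 1 ∨ IsRefl q Z ((φ ⟨_, hb⟩ * tot φ d) ^ 2 ^ (n - 1)) := by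
      rw [hyeq]
      rcases hyrefl _ hcu with h | h | h
      · left
        rw [h, tot_one]
      · exact Or.inr h
      · exact Or.inl h
    obtain ⟨h6, z, hz, h7⟩ := main_N1 hf hn2 hq hEp rfl hℛT hIs (hE1 d hd) hξ hy
    rw [hyeq] at h6 h7
    refine ⟨h6, z, hz, ?_⟩
    rw [h7, hbp]
  have hT1 : ∀ t ∈ T1 e D, tot φ t ∈ KK q Z E n := by
    rintro t ⟨c, u, hu, h1, h2, rfl⟩
    have hy1 := hDΓ (y_mem_lastD he h1)
    have hy2 := hDΓ (y_mem_lastD he h2)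
    rw [tot_mul φ hy2 (inv_mem hy1), tot_inv φ hy1]
    by_cases hne : tot φ (c ^ 2 ^ (e - 1)) = 1
    · by_cases hne2 : tot φ ((c * u) ^ 2 ^ (e - 1)) = 1
      · rw [hne, hne2]
        simp
      · exfalso
        have h3 := (hN1 (c * u) u⁻¹ (inv_mem hu) h2 (by simpa using h1) hne2).1
        rw [mul_inv_cancel_right, hne] at h3
        exact not_isRefl_one hf h3
    · obtain ⟨-, z, hz, h4⟩ := hN1 c u hu h1 h2 hne
      rw [h4]
      simpa using hz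
  have hKK : ∀ k ∈ K1 X e, tot φ k ∈ KK q Z E n := by
    intro k hk
    have hkD := K1_le he hk
    induction hk using Subgroup.closure_induction with
    | mem t ht => exact hT1 t ht
    | one =>
      rw [tot_one]
      exact one_mem _
    | mul a b ha' hb' ha hb =>
      have h1 := K1_le he ha'
      have h2 := K1_le he hb'
      rw [tot_mul φ (hDΓ h1) (hDΓ h2)]
      exact mul_mem (ha h1) (hb h2)
    | inv a ha' ha =>
      have h1 := K1_le he ha'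
      rw [tot_inv φ (hDΓ h1)]
      exact inv_mem (ha h1)
  have hN2 : ∀ c k, k ∈ K1 X e → c ^ 2 ^ e = 1 → (c * k) ^ 2 ^ e = 1 → tot φ (c ^ 2 ^ (e - 1)) ≠ 1 →
      tot φ ((c * k) ^ 2 ^ (e - 1)) = tot φ (c ^ 2 ^ (e - 1)) := by
    intro c k hk hc hck hne
    have hne1 : c ^ 2 ^ (e - 1) ≠ 1 := by
      intro h
      apply hne
      rw [h, tot_one]
    have hord := order_of_last he hc hne1
    obtain ⟨hn2, hq, hne2, hb, hIs, hbp⟩ := hIsT c hord hne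
    obtain ⟨d, hd, hckd⟩ := pow_mul_normal K1_normal (c := c) hk (2 ^ (e - n))
    have hdΓ := hDΓ (K1_le he hd)
    have hmem : (c * k) ^ 2 ^ (e - n) ∈ Γ := by
      rw [hckd]
      exact mul_mem hb hdΓ
    have hx : tot φ ((c * k) ^ 2 ^ (e - n)) = φ ⟨_, hb⟩ * tot φ d := by
      rw [hckd, tot_mul φ hb hdΓ, tot_of_mem φ hb]
    have hyeq : (φ ⟨_, hb⟩ * tot φ d) ^ 2 ^ (n - 1) = tot φ ((c * k) ^ 2 ^ (e - 1)) := by
      rw [← hx, ← tot_pow φ hmem, ← pow_mul, ← pow_add]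
      congr 3
      omega
    have h := main_N2 hn2 hIs (hKK d hd)
    rw [← hyeq, h, hbp]
  by_cases hne : tot φ (c ^ 2 ^ (e - 1)) = 1
  · by_cases hne2 : tot φ ((c * k) ^ 2 ^ (e - 1)) = 1
    · rw [hne, hne2]
    · exfalso
      have h3 := hN2 (c * k) k⁻¹ (inv_mem hk) hck (by simpa using hc) hne2
      rw [mul_inv_cancel_right, hne] at h3
      exact hne2 h3.symm
  · exact hN2 c k hk hc hck hne

end abstract


section concrete

variable [IsAlgClosed K] [FiniteDimensional K V]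

/-- **The local theorem.** The last group of commutators acts trivially on each symplectic section. -/
theorem local_main (ρ : X →* End K V) {q : ℕ} [Fact q.Prime] (hq2 : q ≠ 2) (hqK : (q : K) ≠ 0) {Q C₀ : Subgroup X}
    (hQn : Q.Normal) (hC₀n : C₀.Normal) (hQ : IsPGroup q Q) (hC₀Q : C₀ ≤ Q) (hcentral : ∀ c ∈ C₀, ∀ g ∈ Q, c * g = g * c)
    (hcomm : ∀ u ∈ Q, ∀ g ∈ Q, u * g * u⁻¹ * g⁻¹ ∈ C₀) (hpow : ∀ x ∈ Q, x ^ q ∈ C₀) {lam : X → K} {w₀ : V}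
    (hw₀ : w₀ ∈ wtSpace ρ C₀ lam) (hw₀0 : w₀ ≠ 0) {e : ℕ} (he : 1 ≤ e)
    (hsum : ∀ a, a ^ 2 ^ e = 1 → ∀ v, ∑ i ∈ Finset.range (2 ^ e), ρ (a ^ i) v = 0)
    (hD2 : ∀ d ∈ lastD (Ae X e), ∃ k : ℕ, ∀ g ∈ Q, d ^ 2 ^ k * g * (d ^ 2 ^ k)⁻¹ * g⁻¹ ∈ C₀)
    {c k : X} (hk : k ∈ K1 X e) (hc : c ^ 2 ^ e = 1) (hck : (c * k) ^ 2 ^ e = 1) :
    ∀ g ∈ Q, ((c * k) ^ 2 ^ (e - 1) * (c ^ 2 ^ (e - 1))⁻¹) * g * ((c * k) ^ 2 ^ (e - 1) * (c ^ 2 ^ (e - 1))⁻¹)⁻¹ * g⁻¹ ∈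
      centerOn ρ Q (wtSpace ρ C₀ lam) (wtSpace_inv hcentral) := by
  classical
  obtain ⟨Z, _, _, _, ψ, π, f, hψ, hker, hπ, halt, hnd, hinv⟩ :=
    exists_sec ρ hq2 hqK hQn hC₀Q hcentral hcomm hpow hw₀ hw₀0
  set R := centerOn ρ Q (wtSpace ρ C₀ lam) (wtSpace_inv hcentral) with hR
  set φ := toSp π hinv with hφ
  have hf : IsSym (SpG f) f := isSym_spG hq2 halt hnd
  have hC₀R : C₀ ≤ R := le_centerOn hC₀Q hcentral (wtSpace_inv hcentral)
  have hfix : ∀ (s : wtStab C₀ lam) (g : Q), π s (Multiplicative.toAdd (ψ g)) = Multiplicative.toAdd (ψ g) ↔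
      (s : X) * g * (s : X)⁻¹ * (g : X)⁻¹ ∈ R := by
    intro s g
    have h : (s : X) * g * (s : X)⁻¹ ∈ Q := hQn.conj_mem g g.2 s
    rw [← hπ s g h]
    have e1 : (s : X) * g * (s : X)⁻¹ * (g : X)⁻¹ = (((⟨_, h⟩ : Q) * g⁻¹ : Q) : X) := rfl
    rw [e1, ← hker, map_mul, map_inv, mul_inv_eq_one]
    exact Multiplicative.toAdd.injective.eq_iff
  have hact1 : ∀ x : wtStab C₀ lam, φ x = 1 ↔ ∀ g ∈ Q, (x : X) * g * (x : X)⁻¹ * g⁻¹ ∈ R := by
    intro x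
    constructor
    · intro h g hg
      apply (hfix x ⟨g, hg⟩).mp
      have h2 : (φ x) • (Multiplicative.toAdd (ψ ⟨g, hg⟩)) = Multiplicative.toAdd (ψ ⟨g, hg⟩) := by
        rw [h, one_smul]
      exact h2
    · intro h
      apply Subtype.ext
      ext v
      obtain ⟨g, hg⟩ := hψ (Multiplicative.ofAdd v)
      have h3 := (hfix x g).mpr (h g g.2)
      rw [hg] at h3
      exact h3
  have hDΓ : lastD (Ae X e) ≤ wtStab C₀ lam := by
    rw [lastD, Subgroup.closure_le]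
    rintro y ⟨a, ha, m, hm, hord, rfl⟩
    have hme : m = e := Nat.pow_right_injective (le_refl 2) (hord.symm.trans ha)
    subst hme
    exact last_mem_wtStab ρ hm hord (hsum a (by rw [← hord]; exact pow_orderOf_eq_one a)) hC₀n hw₀ hw₀0
  have hD2' : ∀ d ∈ lastD (Ae X e), ∃ k : ℕ, tot φ (d ^ 2 ^ k) = 1 := by
    intro d hd
    obtain ⟨j, hj⟩ := hD2 d hd
    refine ⟨j, ?_⟩
    have hm : d ^ 2 ^ j ∈ wtStab C₀ lam := pow_mem (hDΓ hd) _
    rw [tot_of_mem φ hm]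
    exact (hact1 ⟨_, hm⟩).mpr (fun g hg => hC₀R (hj g hg))
  set n := Nat.log 2 (q + 1) with hn
  have hactive : ∀ a, orderOf a = 2 ^ e → tot φ (a ^ 2 ^ (e - 1)) ≠ 1 →
      IsRefl q Z (tot φ (a ^ 2 ^ (e - 1))) ∧ 2 ≤ n ∧ 2 ^ n = q + 1 ∧ n ≤ e ∧
        ∃ h : a ^ 2 ^ (e - n) ∈ wtStab C₀ lam, IsTorus q Z n (φ ⟨_, h⟩) := by
    intro a ha hne
    have hapow : a ^ 2 ^ e = 1 := by
      rw [← ha]
      exact pow_orderOf_eq_one a
    have hyΓ : a ^ 2 ^ (e - 1) ∈ wtStab C₀ lam := hDΓ (y_mem_lastD he hapow)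
    have hyy : a ^ 2 ^ (e - 1) * a ^ 2 ^ (e - 1) = 1 := by
      rw [← pow_add, ← two_mul, ← pow_succ']
      have h5 : e - 1 + 1 = e := by omega
      rw [h5, hapow]
    have hne' : ∃ g ∈ Q, a ^ 2 ^ (e - 1) * g * (a ^ 2 ^ (e - 1))⁻¹ * g⁻¹ ∉ R := by
      by_contra hcon
      push Not at hcon
      apply hne
      rw [tot_of_mem φ hyΓ]
      exact (hact1 ⟨_, hyΓ⟩).mpr hcon
    obtain ⟨n', hn2, hq, hle, hbΓ, hcard, hfixb⟩ :=
      torus_of_active ρ hq2 hqK hQn hC₀n hQ hC₀Q hcentral hcomm hw₀ hw₀0 he ha (hsum a hapow) hne'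
    have hnn : n' = n := by
      rw [hn, ← hq]
      exact (Nat.log_pow (by norm_num) n').symm
    subst hnn
    have hplane : finrank (ZMod q) (Pl q Z (φ ⟨_, hyΓ⟩)) = 2 :=
      finrank_plane hq2 hQn ψ hψ hker π hπ ⟨_, hyΓ⟩ (Subtype.ext hyy) hcard (P := Pl q Z (φ ⟨_, hyΓ⟩))
        (fun v => Iff.rfl)
    have hrefl' : IsRefl q Z (φ ⟨_, hyΓ⟩) := by
      refine ⟨?_, hplane⟩
      rw [← map_mul]
      have : (⟨_, hyΓ⟩ * ⟨_, hyΓ⟩ : wtStab C₀ lam) = 1 := Subtype.ext hyy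
      rw [this, map_one]
    have hbp : (φ ⟨_, hbΓ⟩) ^ 2 ^ (n - 1) = φ ⟨_, hyΓ⟩ := by
      rw [← map_pow]
      congr 1
      apply Subtype.ext
      show (a ^ 2 ^ (e - n)) ^ 2 ^ (n - 1) = _
      rw [← pow_mul, ← pow_add]
      congr 2
      omega
    refine ⟨by rw [tot_of_mem φ hyΓ]; exact hrefl', hn2, hq, hle, hbΓ, ?_, ?_, ?_⟩
    · rw [← map_pow]
      have : (⟨_, hbΓ⟩ : wtStab C₀ lam) ^ 2 ^ n = 1 := by
        apply Subtype.ext
        show (a ^ 2 ^ (e - n)) ^ 2 ^ n = 1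
        rw [← pow_mul, ← pow_add]
        have h5 : e - n + n = e := by omega
        rw [h5, hapow]
      rw [this, map_one]
    · rw [hbp]
      exact hrefl'
    · intro v hv
      rw [hbp] at hv
      obtain ⟨g, hg⟩ := hψ (Multiplicative.ofAdd v)
      have hv' : π ⟨_, hyΓ⟩ (Multiplicative.toAdd (ψ g)) = Multiplicative.toAdd (ψ g) := by
        rw [hg]
        exact hv
      have h6 := hfixb g g.2 ((hfix _ g).mp hv')
      have h7 := (hfix ⟨_, hbΓ⟩ g).mpr h6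
      rw [hg] at h7
      exact h7
  have hact : ∀ a, orderOf a = 2 ^ e → tot φ (a ^ 2 ^ (e - 1)) ≠ 1 →
      2 ≤ n ∧ 2 ^ n = q + 1 ∧ n ≤ e ∧ ∃ h : a ^ 2 ^ (e - n) ∈ wtStab C₀ lam, IsTorus q Z n (φ ⟨_, h⟩) :=
    fun a ha hne => (hactive a ha hne).2
  have hrefl : ∀ a, orderOf a = 2 ^ e → tot φ (a ^ 2 ^ (e - 1)) = 1 ∨ IsRefl q Z (tot φ (a ^ 2 ^ (e - 1))) := by
    intro a ha
    by_cases h : tot φ (a ^ 2 ^ (e - 1)) = 1
    · exact Or.inl h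
    · exact Or.inr (hactive a ha h).1
  have hmain := abstract_main φ hf he hDΓ hD2' hact hrefl hk hc hck
  have h1Γ : c ^ 2 ^ (e - 1) ∈ wtStab C₀ lam := hDΓ (y_mem_lastD he hc)
  have h2Γ : (c * k) ^ 2 ^ (e - 1) ∈ wtStab C₀ lam := hDΓ (y_mem_lastD he hck)
  have htΓ := mul_mem h2Γ (inv_mem h1Γ)
  have ht : φ ⟨_, htΓ⟩ = 1 := by
    rw [← tot_of_mem φ htΓ, tot_mul φ h2Γ (inv_mem h1Γ), tot_inv φ h1Γ, hmain, mul_inv_cancel]
  exact (hact1 ⟨_, htΓ⟩).mp ht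

end concrete

end Cfsg.Agent.Lib.BryG.Loc
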