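import Mathlib
import Cfsg.Agent.Lib.BryG.Loc

/-!
# The last subgroup acts trivially

In a solvable linear group without normal `2`-subgroups with the sum condition, the commutators
`(c k) ^ 2 ^ (e - 1) * (c ^ 2 ^ (e - 1))⁻¹` with `k` in the last subgroup are trivial, when they are `2`-elements.
-/

set_option autoImplicit false
set_option linter.unusedSectionVars false
set_option linter.style.haveILetI false

namespace Cfsg.Agent.Lib.BryG.MainY

open Module Cfsg Cfsg.Agent.Lib.Basic.PCore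
open Cfsg.Agent.Lib.HallHigman.Reduce Cfsg.Agent.Lib.HallHigman.Block
open Cfsg.Agent.Lib.Ward Cfsg.Agent.Lib.Gross.Level Cfsg.Agent.Lib.Gross.Type Cfsg.Agent.Lib.Gross.Weights
open Cfsg.Agent.Lib.Gross.TTwo Cfsg.Agent.Lib.Gross.Section Cfsg.Agent.Lib.Gross.TheoremU Cfsg.Agent.Lib.Gross.Active
open Cfsg.Agent.Lib.BryG.Sym Cfsg.Agent.Lib.BryG.Sec Cfsg.Agent.Lib.BryG.Loc
open scoped commutatorElement

universe u

variable {X : Type u} [Group X] [Finite X] {K : Type*} [Field K]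
variable {V : Type*} [AddCommGroup V] [Module K V]

/-- A minimal normal section on which a set of elements acts. -/
theorem exists_min_section (hsol : Group.IsSolvable X) {q : ℕ} [Fact q.Prime] (𝒯 : Set X)
    (hconj : ∀ g, ∀ t ∈ 𝒯, g * t * g⁻¹ ∈ 𝒯) (hcop : ∀ t ∈ 𝒯, (orderOf t).Coprime q)
    (hne : ∃ t ∈ 𝒯, ∃ x ∈ pCore q X, t * x * t⁻¹ ≠ x) :
    ∃ Q : Subgroup X, Q.Normal ∧ Q ≤ pCore q X ∧ (∃ t ∈ 𝒯, ∃ x ∈ Q, t * x * t⁻¹ ≠ x) ∧
      Q ≤ Subgroup.closure {c | ∃ t ∈ 𝒯, ∃ x ∈ Q, c = t * x * t⁻¹ * x⁻¹} ∧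
      ∀ M : Subgroup X, M.Normal → M ≤ Q → M ≠ Q → M ≤ Q ⊓ Subgroup.centralizer (Q : Set X) := by
  classical
  obtain ⟨z₀, hz₀, x₀, hx₀, hne₀⟩ := hne
  let F : Set (Subgroup X) := {Q | Q.Normal ∧ Q ≤ pCore q X ∧ ∃ z ∈ 𝒯, ∃ x ∈ Q, z * x * z⁻¹ ≠ x}
  have hF : pCore q X ∈ F := ⟨pCore_normal q X, le_rfl, z₀, hz₀, x₀, hx₀, hne₀⟩
  obtain ⟨Q, ⟨hQn, hQle, z₁, hz₁, x₁, hx₁, hne₁⟩, hmin⟩ := F.toFinite.exists_minimal ⟨_, hF⟩
  have hQ : IsPGroup q Q := (pCore_isPGroup q).to_le hQle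
  set Q₁ : Subgroup X := Subgroup.closure {c | ∃ z ∈ 𝒯, ∃ x ∈ Q, c = z * x * z⁻¹ * x⁻¹} with hQ₁
  have hQ₁le : Q₁ ≤ Q := by
    rw [hQ₁, Subgroup.closure_le]
    rintro _ ⟨z, _, x, hx, rfl⟩
    exact mul_mem (hQn.conj_mem x hx z) (inv_mem hx)
  have hQ₁n : Q₁.Normal := by
    refine ⟨fun c hc g => conj_mem_closure ?_ g hc⟩
    rintro g _ ⟨z, hz, x, hx, rfl⟩
    exact ⟨g * z * g⁻¹, hconj g z hz, g * x * g⁻¹, hQn.conj_mem x hx g, by group⟩
  have hQ₁F : Q₁ ∈ F := by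
    refine ⟨hQ₁n, hQ₁le.trans hQle, ?_⟩
    by_contra hcon
    push Not at hcon
    set c := z₁ * x₁ * z₁⁻¹ * x₁⁻¹ with hc
    have hcQ₁ : c ∈ Q₁ := Subgroup.subset_closure ⟨z₁, hz₁, x₁, hx₁, rfl⟩
    have hfix := hcon z₁ hz₁ c hcQ₁
    have hzx : z₁ * x₁ * z₁⁻¹ = c * x₁ := by rw [hc]; group
    have hpow : ∀ i : ℕ, z₁ ^ i * x₁ * (z₁ ^ i)⁻¹ = c ^ i * x₁ := by
      intro i
      induction i with
      | zero => simp
      | succ i ih =>
        have hci : z₁ * c ^ i * z₁⁻¹ = c ^ i := by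
          rw [← conj_pow, hfix]
        calc z₁ ^ (i + 1) * x₁ * (z₁ ^ (i + 1))⁻¹ = z₁ * (z₁ ^ i * x₁ * (z₁ ^ i)⁻¹) * z₁⁻¹ := by
              rw [pow_succ', mul_inv_rev]; group
          _ = (z₁ * c ^ i * z₁⁻¹) * (z₁ * x₁ * z₁⁻¹) := by rw [ih]; group
          _ = c ^ i * (c * x₁) := by rw [hci, hzx]
          _ = c ^ (i + 1) * x₁ := by
              rw [pow_succ]
              exact (mul_assoc _ _ _).symm
    have h1 := hpow (orderOf z₁)
    rw [pow_orderOf_eq_one, one_mul, inv_one, mul_one] at h1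
    have hck : c ^ orderOf z₁ = 1 := by
      have : c ^ orderOf z₁ * x₁ = 1 * x₁ := by rw [← h1, one_mul]
      exact mul_right_cancel this
    obtain ⟨e, he⟩ := Cfsg.Agent.Lib.Basic.SylowUtil.orderOf_eq_pow_of_isPGroup hQ (hQ₁le hcQ₁)
    have hdvd := orderOf_dvd_of_pow_eq_one hck
    rw [he] at hdvd
    have h5 : Nat.Coprime (q ^ e) (orderOf z₁) := Nat.Coprime.pow_left e (hcop z₁ hz₁).symm
    have h6 : q ^ e = 1 := Nat.Coprime.eq_one_of_dvd h5 hdvd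
    have h7 : c = 1 := orderOf_eq_one_iff.mp (he.trans h6)
    apply hne₁
    rw [hzx, h7, one_mul]
  have hQQ₁ : Q ≤ Q₁ := hmin hQ₁F hQ₁le
  refine ⟨Q, hQn, hQle, ⟨z₁, hz₁, x₁, hx₁, hne₁⟩, hQQ₁, ?_⟩
  intro M hMn hMle hMne
  have hMfix : ∀ z ∈ 𝒯, ∀ w ∈ M, z * w * z⁻¹ = w := by
    by_contra hcon
    push Not at hcon
    obtain ⟨z, hz, w, hw, hwne⟩ := hcon
    have hM : M ∈ F := ⟨hMn, hMle.trans hQle, z, hz, w, hw, hwne⟩
    exact hMne (le_antisymm hMle (hmin hM hMle))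
  have hcen : Q ≤ Subgroup.centralizer (M : Set X) := by
    refine hQQ₁.trans ?_
    rw [hQ₁, Subgroup.closure_le]
    rintro _ ⟨z, hz, x, hx, rfl⟩
    show _ ∈ Subgroup.centralizer _
    rw [Subgroup.mem_centralizer_iff]
    intro w hw
    have hw₁ : x⁻¹ * w * x ∈ M := by
      have := hMn.conj_mem w hw x⁻¹
      simpa using this
    set w₁ := x⁻¹ * w * x with hw₁def
    have h1 : x⁻¹ * w = w₁ * x⁻¹ := by rw [hw₁def]; group
    have h2 : z⁻¹ * w₁ = w₁ * z⁻¹ := by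
      have := hMfix z hz w₁ hw₁
      calc z⁻¹ * w₁ = z⁻¹ * (z * w₁ * z⁻¹) := by rw [this]
        _ = w₁ * z⁻¹ := by group
    have h3 : x * w₁ = w * x := by rw [hw₁def]; group
    have h4 : z * w = w * z := by
      have := hMfix z hz w hw
      calc z * w = (z * w * z⁻¹) * z := by group
        _ = w * z := by rw [this]
    calc w * (z * x * z⁻¹ * x⁻¹) = (w * z) * x * z⁻¹ * x⁻¹ := by group
      _ = z * (w * x) * z⁻¹ * x⁻¹ := by rw [← h4]; group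
      _ = z * x * (w₁ * z⁻¹) * x⁻¹ := by rw [← h3]; group
      _ = z * x * z⁻¹ * (w₁ * x⁻¹) := by rw [← h2]; group
      _ = z * x * z⁻¹ * x⁻¹ * w := by rw [← h1]; group
  intro w hw
  refine Subgroup.mem_inf.mpr ⟨hMle hw, ?_⟩
  rw [Subgroup.mem_centralizer_iff]
  intro h hh
  have h2 := hcen hh
  rw [Subgroup.mem_centralizer_iff] at h2
  exact (h2 w hw).symm

/-- A fixed vector of a representation whose image is a `q`-group. -/
theorem fixed_vector {Γ : Type*} [Group Γ] {q : ℕ} [Fact q.Prime] {Z : Type*} [AddCommGroup Z]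
    [Module (ZMod q) Z] [Finite Z] [Nontrivial Z] (π : Γ →* End (ZMod q) Z)
    (hp : ∀ s : Γ, ∃ k : ℕ, (π s) ^ q ^ k = 1) : ∃ v : Z, v ≠ 0 ∧ ∀ s, π s v = v := by
  classical
  letI : MulAction Γ Z := MulAction.compHom Z π
  have hsm : ∀ (s : Γ) (v : Z), s • v = π s v := fun _ _ => rfl
  let P := (MulAction.toPermHom Γ Z).range
  have hP : IsPGroup q P := by
    rintro ⟨_, s, rfl⟩
    obtain ⟨k, hk⟩ := hp s
    refine ⟨k, Subtype.ext ?_⟩
    ext v
    have h1 : (MulAction.toPermHom Γ Z s ^ q ^ k) v = (s ^ q ^ k) • v := by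
      rw [← map_pow]
      rfl
    have h2 : (s ^ q ^ k) • v = v := by
      rw [hsm, map_pow, hk]
      rfl
    show (MulAction.toPermHom Γ Z s ^ q ^ k) v = v
    rw [h1, h2]
  have h0 : (0 : Z) ∈ MulAction.fixedPoints P Z := by
    rintro ⟨_, s, rfl⟩
    show (MulAction.toPermHom Γ Z s) 0 = 0
    show π s 0 = 0
    exact map_zero _
  have hcard : q ∣ Nat.card Z := by
    haveI : Module.Finite (ZMod q) Z := Module.Finite.of_finite
    rw [Module.natCard_eq_pow_finrank (K := ZMod q) (V := Z), Nat.card_zmod]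
    exact dvd_pow_self q (Module.finrank_pos (R := ZMod q) (M := Z)).ne'
  haveI : Finite P := Finite.of_injective (fun x : P => (x : Equiv.Perm Z)) Subtype.val_injective
  obtain ⟨b, hb, hne⟩ := IsPGroup.exists_fixed_point_of_prime_dvd_card_of_fixed_point hP Z hcard h0
  refine ⟨b, hne.symm, fun s => ?_⟩
  have := hb ⟨_, s, rfl⟩
  exact this

theorem pow_mul_central {Q C₀ : Subgroup X} (hcentral : ∀ c ∈ C₀, ∀ g ∈ Q, c * g = g * c)
    (hcomm : ∀ u ∈ Q, ∀ g ∈ Q, u * g * u⁻¹ * g⁻¹ ∈ C₀) {x y : X} (hx : x ∈ Q) (hy : y ∈ Q) (n : ℕ) :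
    ∃ c ∈ C₀, (x * y) ^ n = x ^ n * y ^ n * c := by
  induction n with
  | zero => exact ⟨1, one_mem _, by simp⟩
  | succ n ih =>
    obtain ⟨c, hc, e⟩ := ih
    have hd := hcomm (y ^ n) (pow_mem hy n) x hx
    set d := y ^ n * x * (y ^ n)⁻¹ * x⁻¹ with hd'
    refine ⟨d * c, mul_mem hd hc, ?_⟩
    have h1 : c * (x * y) = (x * y) * c := hcentral c hc _ (mul_mem hx hy)
    have h2 : y ^ n * x = d * (x * y ^ n) := by rw [hd']; group
    have h3 : d * (x ^ (n + 1) * y ^ (n + 1)) = (x ^ (n + 1) * y ^ (n + 1)) * d :=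
      hcentral d hd _ (mul_mem (pow_mem hx _) (pow_mem hy _))
    have h4 : d * x ^ n = x ^ n * d := hcentral d hd _ (pow_mem hx _)
    calc (x * y) ^ (n + 1) = x ^ n * y ^ n * c * (x * y) := by rw [pow_succ, e]
      _ = x ^ n * (y ^ n * x) * y * c := by
          rw [mul_assoc (x ^ n * y ^ n) c, h1]
          group
      _ = x ^ n * (d * (x * y ^ n)) * y * c := by rw [h2]
      _ = (d * x ^ n) * (x * y ^ n) * y * c := by
          rw [h4]
          group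
      _ = d * (x ^ (n + 1) * y ^ (n + 1)) * c := by
          rw [pow_succ x, pow_succ y]
          group
      _ = x ^ (n + 1) * y ^ (n + 1) * (d * c) := by
          rw [h3]
          group

section main

variable [IsAlgClosed K] [FiniteDimensional K V]

/-- **The last subgroup acts trivially.** -/
theorem main_Y (hsol : Group.IsSolvable X) (hO2 : pCore 2 X = ⊥) (ρ : X →* End K V) (hρ : Function.Injective ρ)
    (hK : ∀ q : ℕ, q.Prime → q ≠ 2 → (q : K) ≠ 0) {e : ℕ} (he : 1 ≤ e)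
    (hsum : ∀ a : X, a ^ 2 ^ e = 1 → ∀ v, ∑ i ∈ Finset.range (2 ^ e), ρ (a ^ i) v = 0)
    {c₀ k₀ : X} (hk₀ : k₀ ∈ K1 X e) (hc₀ : c₀ ^ 2 ^ e = 1) (hck₀ : (c₀ * k₀) ^ 2 ^ e = 1)
    (ht₀ : ∃ j : ℕ, ((c₀ * k₀) ^ 2 ^ (e - 1) * (c₀ ^ 2 ^ (e - 1))⁻¹) ^ 2 ^ j = 1) :
    (c₀ * k₀) ^ 2 ^ (e - 1) * (c₀ ^ 2 ^ (e - 1))⁻¹ = 1 := by
  classical
  haveI : Fact (Nat.Prime 2) := ⟨Nat.prime_two⟩
  by_contra hne
  set 𝒯 : Set X := {t | (∃ c k, k ∈ K1 X e ∧ c ^ 2 ^ e = 1 ∧ (c * k) ^ 2 ^ e = 1 ∧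
     t = (c * k) ^ 2 ^ (e - 1) * (c ^ 2 ^ (e - 1))⁻¹) ∧ ∃ j : ℕ, t ^ 2 ^ j = 1} with h𝒯
  have h𝒯conj : ∀ g, ∀ t ∈ 𝒯, g * t * g⁻¹ ∈ 𝒯 := by
    rintro g t ⟨⟨c, k, hk, h1, h2, rfl⟩, j, hj⟩
    have ec : g * c * g⁻¹ * (g * k * g⁻¹) = g * (c * k) * g⁻¹ := by group
    refine ⟨⟨g * c * g⁻¹, g * k * g⁻¹, K1_normal.conj_mem k hk g, ?_, ?_, ?_⟩, j, ?_⟩
    · rw [conj_pow, h1]
      simp
    · rw [ec, conj_pow, h2]
      simp
    · rw [ec, conj_pow, conj_pow]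
      group
    · rw [conj_pow, hj]
      simp
  have h𝒯D : ∀ t ∈ 𝒯, t ∈ lastD (Ae X e) := by
    rintro t ⟨⟨c, k, _, h1, h2, rfl⟩, -⟩
    exact mul_mem (y_mem_lastD he h2) (inv_mem (y_mem_lastD he h1))
  set t₀ := (c₀ * k₀) ^ 2 ^ (e - 1) * (c₀ ^ 2 ^ (e - 1))⁻¹ with ht₀def
  have ht₀𝒯 : t₀ ∈ 𝒯 := ⟨⟨c₀, k₀, hk₀, hc₀, hck₀, rfl⟩, ht₀⟩
  obtain ⟨j, hj⟩ := ht₀
  obtain ⟨m, hm, hord⟩ := (Nat.dvd_prime_pow Nat.prime_two).1 (orderOf_dvd_of_pow_eq_one hj)
  have hm0 : m ≠ 0 := by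
    rintro rfl
    rw [pow_zero, orderOf_eq_one_iff] at hord
    exact hne hord
  have hz2 : orderOf (t₀ ^ 2 ^ (m - 1)) = 2 := by
    have h1 := orderOf_pow_pow hord (show m - 1 ≤ m by omega)
    have h2 : m - (m - 1) = 1 := by omega
    rw [h2, pow_one] at h1
    exact h1
  obtain ⟨q, hqp, hq2, x₀, hx₀, hne₀⟩ := exists_core_moved hsol hO2 hz2
  haveI : Fact q.Prime := ⟨hqp⟩
  have hqK := hK q hqp hq2
  have hcop : ∀ t ∈ 𝒯, (orderOf t).Coprime q := by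
    rintro t ⟨_, j, hj⟩
    obtain ⟨m, _, hord⟩ := (Nat.dvd_prime_pow Nat.prime_two).1 (orderOf_dvd_of_pow_eq_one hj)
    rw [hord]
    exact Nat.Coprime.pow_left m ((Nat.coprime_primes Nat.prime_two hqp).mpr (Ne.symm hq2))
  have hmoved : t₀ * x₀ * t₀⁻¹ ≠ x₀ := by
    intro h
    apply hne₀
    have h1 : Commute t₀ x₀ := by
      show t₀ * x₀ = x₀ * t₀
      calc t₀ * x₀ = (t₀ * x₀ * t₀⁻¹) * t₀ := by group
        _ = x₀ * t₀ := by rw [h]
    have h2 := (h1.pow_left (2 ^ (m - 1))).eq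
    rw [h2]
    group
  obtain ⟨Q, hQn, hQle, ⟨t₁, ht₁, x₁, hx₁, hne₁⟩, hQQ₁, hL⟩ :=
    exists_min_section hsol 𝒯 h𝒯conj hcop ⟨t₀, ht₀𝒯, x₀, hx₀, hmoved⟩
  have hQ : IsPGroup q Q := (pCore_isPGroup q).to_le hQle
  have hQK : (Nat.card Q : K) ≠ 0 := card_ne_zero_of_pgroup hqK hQ
  have hQbot : Q ≠ ⊥ := by
    intro h
    rw [h, Subgroup.mem_bot] at hx₁
    apply hne₁
    rw [hx₁]
    simp
  have hsolQ : Group.IsSolvable Q := inferInstance
  have hlt := Cfsg.Agent.Lib.Components.Fitting.commutator_lt_of_solvable hQbot hsolQ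
  haveI := hQn
  have hQ'n : (⁅Q, Q⁆ : Subgroup X).Normal := inferInstance
  have hme : ∀ {a : X} {m : ℕ}, a ∈ Ae X e → orderOf a = 2 ^ m → m = e := by
    intro a m ha hord
    exact Nat.pow_right_injective (le_refl 2) (hord.symm.trans ha)
  have h𝒜 : ∀ a ∈ Ae X e, ∀ m : ℕ, 1 ≤ m → orderOf a = 2 ^ m → ∀ v, ∑ i ∈ Finset.range (2 ^ m), ρ (a ^ i) v = 0 := by
    intro a ha m' _ hord'
    have hh := hme ha hord'
    rw [hh]
    exact hsum a (by rw [← ha]; exact pow_orderOf_eq_one a)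
  have hab : ¬ ∀ u ∈ Q, ∀ g ∈ Q, u * g = g * u := by
    intro hab
    have hDc : lastD (Ae X e) ≤ Subgroup.centralizer (Q : Set X) := by
      rw [lastD, Subgroup.closure_le]
      rintro y ⟨a, ha, m, hm, hord, rfl⟩
      show _ ∈ Subgroup.centralizer _
      rw [Subgroup.mem_centralizer_iff]
      intro x hx
      exact (last_centralizes_abelian ρ hρ hm hord (h𝒜 a ha m hm hord) hQn hQK hab x hx).symm
    have := hDc (h𝒯D t₁ ht₁)
    rw [Subgroup.mem_centralizer_iff] at this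
    apply hne₁
    rw [← this x₁ hx₁]
    group
  apply hab
  set C₀ : Subgroup X := Q ⊓ Subgroup.centralizer (Q : Set X) with hC₀
  have hC₀n : C₀.Normal := inferInstance
  have hC₀Q : C₀ ≤ Q := inf_le_left
  have hcentral : ∀ c ∈ C₀, ∀ g ∈ Q, c * g = g * c := by
    intro c hc g hg
    have h1 := (Subgroup.mem_inf.mp hc).2
    rw [Subgroup.mem_centralizer_iff] at h1
    exact (h1 g hg).symm
  have hcomm : ∀ u ∈ Q, ∀ g ∈ Q, u * g * u⁻¹ * g⁻¹ ∈ C₀ := by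
    intro u hu g hg
    have h1 : u * g * u⁻¹ * g⁻¹ ∈ (⁅Q, Q⁆ : Subgroup X) := by
      have := Subgroup.commutator_mem_commutator hu hg
      rwa [commutatorElement_def] at this
    exact hL _ hQ'n hlt.le hlt.ne h1
  have hnonc : ∃ u ∈ Q, u ∉ C₀ := by
    push Not at hab
    obtain ⟨u, hu, g, hg, hug⟩ := hab
    exact ⟨u, hu, fun h => hug (hcentral u h g hg)⟩
  -- the exponent
  have hpow : ∀ x ∈ Q, x ^ q ∈ C₀ := by
    let M₂ : Subgroup X :=
      { carrier := {x | x ∈ Q ∧ x ^ q ∈ C₀}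
        mul_mem' := by
          rintro x y ⟨hx, hx'⟩ ⟨hy, hy'⟩
          obtain ⟨c, hc, e1⟩ := pow_mul_central hcentral hcomm hx hy q
          refine ⟨mul_mem hx hy, ?_⟩
          rw [e1]
          exact mul_mem (mul_mem hx' hy') hc
        one_mem' := ⟨one_mem _, by rw [one_pow]; exact one_mem _⟩
        inv_mem' := by
          rintro x ⟨hx, hx'⟩
          refine ⟨inv_mem hx, ?_⟩
          rw [inv_pow]
          exact inv_mem hx' }
    have hM₂n : M₂.Normal := by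
      refine ⟨?_⟩
      rintro x ⟨hx, hx'⟩ g
      refine ⟨hQn.conj_mem x hx g, ?_⟩
      rw [conj_pow]
      exact hC₀n.conj_mem _ hx' g
    by_cases h : M₂ = Q
    · intro x hx
      have hx2 : x ∈ M₂ := h ▸ hx
      exact hx2.2
    · exfalso
      have hle := hL M₂ hM₂n (fun x hx => hx.1) h
      obtain ⟨u, hu, hu0⟩ := hnonc
      obtain ⟨j, hj⟩ := hQ ⟨u, hu⟩
      have hj' : u ^ q ^ j = 1 := by
        have := congrArg Subtype.val hj
        simpa using this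
      have hex : ∃ i, u ^ q ^ i ∈ C₀ := ⟨j, by rw [hj']; exact one_mem _⟩
      have hi0 : Nat.find hex ≠ 0 := by
        intro h0
        have := Nat.find_spec hex
        rw [h0, pow_zero, pow_one] at this
        exact hu0 this
      have hi1 : u ^ q ^ (Nat.find hex - 1) ∉ C₀ := Nat.find_min hex (by omega)
      apply hi1
      apply hle
      refine ⟨pow_mem hu _, ?_⟩
      rw [← pow_mul, ← pow_succ]
      have h5 : Nat.find hex - 1 + 1 = Nat.find hex := by omega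
      rw [h5]
      exact Nat.find_spec hex
  -- the odd part acts trivially
  have hoddD : ∀ z ∈ oddD (Ae X e), ∀ g ∈ Q, z * g * z⁻¹ * g⁻¹ ∈ C₀ := by
    have hU := theorem_u hsol ρ hρ hq2 hqK (Ae X e) Ae_conj h𝒜
    let M₃ : Subgroup X :=
      { carrier := {x | x ∈ Q ∧ ∀ z ∈ oddD (Ae X e), z * x * z⁻¹ * x⁻¹ ∈ C₀}
        mul_mem' := by
          rintro x y ⟨hx, hx'⟩ ⟨hy, hy'⟩
          refine ⟨mul_mem hx hy, fun z hz => ?_⟩
          have e1 : z * (x * y) * z⁻¹ * (x * y)⁻¹ = (z * x * z⁻¹ * x⁻¹) * (x * (z * y * z⁻¹ * y⁻¹) * x⁻¹) := by group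
          rw [e1]
          exact mul_mem (hx' z hz) (hC₀n.conj_mem _ (hy' z hz) x)
        one_mem' := ⟨one_mem _, fun z _ => by simp [one_mem]⟩
        inv_mem' := by
          rintro x ⟨hx, hx'⟩
          refine ⟨inv_mem hx, fun z hz => ?_⟩
          have e1 : z * x⁻¹ * z⁻¹ * x⁻¹⁻¹ = x⁻¹ * (z * x * z⁻¹ * x⁻¹)⁻¹ * x⁻¹⁻¹ := by group
          rw [e1]
          exact hC₀n.conj_mem _ (inv_mem (hx' z hz)) x⁻¹ }
    have hM₃n : M₃.Normal := by
      refine ⟨?_⟩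
      rintro x ⟨hx, hx'⟩ g
      refine ⟨hQn.conj_mem x hx g, fun z hz => ?_⟩
      have hz' := oddD_conj Ae_conj g⁻¹ hz
      have h1 := hC₀n.conj_mem _ (hx' _ hz') g
      have e1 : z * (g * x * g⁻¹) * z⁻¹ * (g * x * g⁻¹)⁻¹ =
          g * (g⁻¹ * z * g⁻¹⁻¹ * x * (g⁻¹ * z * g⁻¹⁻¹)⁻¹ * x⁻¹) * g⁻¹ := by group
      rw [e1]
      exact h1
    suffices h : M₃ = Q by
      intro z hz g hg
      have hg2 : g ∈ M₃ := h ▸ hg
      exact hg2.2 z hz
    by_contra h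
    have hle := hL M₃ hM₃n (fun x hx => hx.1) h
    set C' : Subgroup Q := C₀.subgroupOf Q with hC'
    have hmemC' : ∀ g : Q, g ∈ C' ↔ (g : X) ∈ C₀ := fun g => Subgroup.mem_subgroupOf
    haveI hC'n : C'.Normal := Subgroup.Normal.subgroupOf hC₀n Q
    obtain ⟨Z, iZ, mZ, ψ, hψ, hker⟩ := Cfsg.Agent.Lib.Gross.Section.exists_module (P := Q) (q := q) C'
      (fun x y => (hmemC' _).mpr (hcomm x x.2 y y.2))
      (fun x => (hmemC' _).mpr (hpow x x.2))
    haveI hfinZ : Finite Z := Finite.of_surjective (fun g : Q => Multiplicative.toAdd (ψ g)) (fun v => by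
      obtain ⟨g, hg⟩ := hψ (Multiplicative.ofAdd v)
      exact ⟨g, by simp [hg]⟩)
    have hkerψ : ∀ g : Q, ψ g = 1 ↔ (g : X) ∈ C₀ := by
      intro g
      rw [← hmemC', ← hker, MonoidHom.mem_ker]
    let cc : oddD (Ae X e) → (Q →* Q) := fun s => (MulAut.conjNormal (s : X) : MulAut Q).toMonoidHom
    have hcc : ∀ (s : oddD (Ae X e)) (a : Q), ((cc s a : Q) : X) = (s : X) * a * (s : X)⁻¹ := by
      intro s a
      exact MulAut.conjNormal_apply _ _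
    obtain ⟨π, hπ⟩ := Cfsg.Agent.Lib.Gross.Section.exists_rep (q := q) (Γ := oddD (Ae X e)) ψ hψ cc
      (fun a => Subtype.ext (by rw [hcc]; simp))
      (fun s t a => Subtype.ext (by
        rw [hcc, hcc, hcc]
        simp only [Subgroup.coe_mul, mul_inv_rev]
        group))
      (fun s a ha => by
        rw [MonoidHom.mem_ker, hkerψ, hcc] at *
        exact hC₀n.conj_mem _ ha _)
    haveI hnontriv : Nontrivial Z := by
      obtain ⟨u, hu, hu0⟩ := hnonc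
      refine ⟨Multiplicative.toAdd (ψ ⟨u, hu⟩), 0, fun h0 => hu0 ((hkerψ ⟨u, hu⟩).mp ?_)⟩
      exact Multiplicative.toAdd.injective h0
    have hp : ∀ s : oddD (Ae X e), ∃ k : ℕ, (π s) ^ q ^ k = 1 := by
      intro s
      obtain ⟨k, m, hm, hord⟩ := Nat.exists_eq_pow_mul_and_not_dvd (orderOf_pos (s : X)).ne' q (Fact.out : q.Prime).ne_one
      refine ⟨k, ?_⟩
      rw [← map_pow]
      have hcopm : (orderOf ((s ^ q ^ k : oddD (Ae X e)) : X)).Coprime q := by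
        have e1 : ((s ^ q ^ k : oddD (Ae X e)) : X) = (s : X) ^ q ^ k := rfl
        rw [e1, orderOf_pow' _ (pow_pos (Fact.out : q.Prime).pos _).ne', hord, Nat.gcd_eq_right (Dvd.intro _ rfl),
          Nat.mul_div_cancel_left _ (pow_pos (Fact.out : q.Prime).pos _)]
        exact ((Nat.Prime.coprime_iff_not_dvd Fact.out).mpr hm).symm
      ext v
      obtain ⟨a, ha⟩ := hψ (Multiplicative.ofAdd v)
      have h1 := hπ (s ^ q ^ k) a
      have h2 : cc (s ^ q ^ k) a = a := by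
        apply Subtype.ext
        rw [hcc]
        exact hU _ (s ^ q ^ k).2 hcopm a (hQle a.2)
      rw [h2, ha] at h1
      exact h1.symm
    obtain ⟨v, hv0, hv⟩ := fixed_vector π hp
    obtain ⟨g, hg⟩ := hψ (Multiplicative.ofAdd v)
    have hgM : (g : X) ∈ M₃ := by
      refine ⟨g.2, fun z hz => ?_⟩
      have h1 := hπ ⟨z, hz⟩ g
      rw [hg] at h1
      have h2 : π ⟨z, hz⟩ (Multiplicative.toAdd (Multiplicative.ofAdd v)) = v := hv _
      rw [h2] at h1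
      have h3 : ψ (cc ⟨z, hz⟩ g * g⁻¹) = 1 := by
        rw [map_mul, map_inv, hg]
        rw [mul_inv_eq_one]
        exact Multiplicative.toAdd.injective h1
      have h4 := (hkerψ _).mp h3
      have h5 : ((cc ⟨z, hz⟩ g * g⁻¹ : Q) : X) = z * g * z⁻¹ * (g : X)⁻¹ := by
        rw [Subgroup.coe_mul, hcc]
        rfl
      rw [h5] at h4
      exact h4
    have hgC := (hle hgM)
    apply hv0
    have h6 := (hkerψ g).mpr hgC
    rw [hg] at h6
    exact h6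
  have hD2 : ∀ d ∈ lastD (Ae X e), ∃ k : ℕ, ∀ g ∈ Q, d ^ 2 ^ k * g * (d ^ 2 ^ k)⁻¹ * g⁻¹ ∈ C₀ := by
    intro d hd
    obtain ⟨k, m, hm, hord⟩ := Nat.exists_eq_two_pow_mul_odd (orderOf_pos d).ne'
    refine ⟨k, ?_⟩
    have e1 : orderOf (d ^ 2 ^ k) = m := by
      rw [orderOf_pow' d (by positivity), hord, Nat.gcd_eq_right (Dvd.intro _ rfl)]
      exact Nat.mul_div_cancel_left _ (by positivity)
    exact hoddD _ (Subgroup.subset_closure ⟨pow_mem hd _, by rw [e1]; exact hm⟩)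
  have hC₀K : (Nat.card C₀ : K) ≠ 0 := card_ne_zero_of_pgroup hqK (hQ.to_le hC₀Q)
  have hC₀c : ∀ x ∈ C₀, ∀ y ∈ C₀, x * y = y * x := fun x hx y hy => hcentral x hx y (hC₀Q hy)
  intro u hu g hg
  set c := u * g * u⁻¹ * g⁻¹ with hc
  have hcC : c ∈ C₀ := hcomm u hu g hg
  have hc1 : c = 1 := by
    apply hρ
    rw [map_one]
    apply eq_of_forall_wt (ρ := ρ) hC₀K hC₀c
    intro lam w hw
    rw [Module.End.one_apply]
    by_cases hw0 : w = 0
    · subst hw0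
      simp
    have hle : Q ≤ centerOn ρ Q (wtSpace ρ C₀ lam) (wtSpace_inv hcentral) := by
      refine hQQ₁.trans ?_
      rw [Subgroup.closure_le]
      rintro _ ⟨t, ht, x, hx, rfl⟩
      obtain ⟨⟨c', k', hk', h1, h2, rfl⟩, -⟩ := ht
      exact local_main ρ hq2 hqK hQn hC₀n hQ hC₀Q hcentral hcomm hpow hw hw0 he hsum hD2 hk' h1 h2 x hx
    have hgc := (hle hg).2 u hu w hw
    set w' := ρ (g * u) w with hw'
    have hw'0 : w' ≠ 0 := fun h0 => hw0 ((rho_eq_zero_iff ρ (g * u) w).mp h0)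
    have hw'U : w' ∈ wtSpace ρ C₀ lam := by
      have h1 : ρ u w ∈ wtSpace ρ C₀ lam := wtSpace_inv hcentral u hu w hw
      have h2 := wtSpace_inv hcentral g hg _ h1
      rw [hw', rho_mul]
      exact h2
    have hcw' : ρ c w' = w' := by
      have e : c * (g * u) = u * g := by rw [hc]; group
      rw [hw', ← rho_mul, e, rho_mul, rho_mul]
      exact hgc.symm
    have hlam : lam c = 1 := by
      have h2 := hw'U c hcC
      rw [hcw'] at h2
      have h3 : (lam c - 1) • w' = 0 := by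
        rw [sub_smul, one_smul, ← h2, sub_self]
      exact sub_eq_zero.mp ((smul_eq_zero.mp h3).resolve_right hw'0)
    rw [hw c hcC, hlam, one_smul]
  calc u * g = (u * g * u⁻¹ * g⁻¹) * (g * u) := by group
    _ = g * u := by rw [← hc, hc1, one_mul]

end main

end Cfsg.Agent.Lib.BryG.MainY
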