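import Mathlib
import Cfsg.Agent.Lib.BryG.MainY
import Cfsg.Agent.Lib.HallHigman.Layer

/-!
# The `2`-length of a section chain
-/

set_option autoImplicit false
set_option linter.unusedSectionVars false
set_option linter.style.haveILetI false

namespace Cfsg.Agent.Lib.BryG.Chain

open Module Cfsg Cfsg.Agent.Lib.Basic.PCore Cfsg.Agent.Lib.Solvable.PSeries
open Cfsg.Agent.Lib.BryG.MainY

universe u

section prod

variable {p : ℕ} [Fact p.Prime]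

theorem card_mul_relIndex {G : Type*} [Group G] [Finite G] {H K : Subgroup G} (h : H ≤ K) :
    Nat.card H * H.relIndex K = Nat.card K := by
  have h1 := H.relIndex_mul_index h
  have h2 := H.card_mul_index
  have h3 := K.card_mul_index
  have h4 : K.index ≠ 0 := Subgroup.index_ne_zero_of_finite
  apply Nat.eq_of_mul_eq_mul_right (Nat.pos_of_ne_zero h4)
  rw [h3, mul_assoc, h1, h2]

theorem goodIdx_mul {n a b : ℕ} (ha : GoodIdx p n a) (hb : GoodIdx p n b) : GoodIdx p n (a * b) := by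
  unfold GoodIdx at *
  split_ifs at ha hb ⊢
  · exact Nat.Coprime.mul_left ha hb
  · obtain ⟨x, rfl⟩ := ha
    obtain ⟨y, rfl⟩ := hb
    exact ⟨x + y, (pow_add _ _ _).symm⟩

theorem card_prod_sub {A B : Type*} [Group A] [Group B] (H : Subgroup A) (K : Subgroup B) :
    Nat.card (H.prod K) = Nat.card H * Nat.card K := by
  rw [Nat.card_congr (Subgroup.prodEquiv H K).toEquiv, Nat.card_prod]

theorem upper_prod_le {A B : Type*} [Group A] [Group B] [Finite A] [Finite B] (j : ℕ) :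
    (upperPSeries p A j).1.prod (upperPSeries p B j).1 ≤ (upperPSeries p (A × B) j).1 := by
  induction j with
  | zero =>
    simp
  | succ j ih =>
    set U := (upperPSeries p (A × B) j).1 with hU
    set W := (upperPSeries p A (j + 1)).1.prod (upperPSeries p B (j + 1)).1 with hW
    haveI hWn : W.Normal := Subgroup.prod_normal _ _
    haveI hsn : (U ⊔ W).Normal := Subgroup.sup_normal U W
    refine le_sup_right.trans (b := U ⊔ W) ?_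
    rw [upper_succ p (A × B) j]
    apply le_stepAt_of_relIndex j U hsn
    rw [Subgroup.relIndex_sup_left]
    refine GoodIdx.of_dvd ?_ (Subgroup.relIndex_dvd_of_le_left W ih)
    have hA := upper_le_succ (p := p) (G := A) j
    have hB := upper_le_succ (p := p) (G := B) j
    have hle : (upperPSeries p A j).1.prod (upperPSeries p B j).1 ≤ W := Subgroup.prod_mono hA hB
    have h1 := card_mul_relIndex hle
    have h2 := card_mul_relIndex hA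
    have h3 := card_mul_relIndex hB
    rw [card_prod_sub, hW, card_prod_sub, ← h2, ← h3] at h1
    have hpos : 0 < Nat.card (upperPSeries p A j).1 * Nat.card (upperPSeries p B j).1 :=
      Nat.mul_pos Nat.card_pos Nat.card_pos
    have h4 : ((upperPSeries p A j).1.prod (upperPSeries p B j).1).relIndex W =
        (upperPSeries p A j).1.relIndex (upperPSeries p A (j + 1)).1 *
          (upperPSeries p B j).1.relIndex (upperPSeries p B (j + 1)).1 := by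
      apply Nat.eq_of_mul_eq_mul_left hpos
      rw [h1]
      ring
    rw [h4]
    exact goodIdx_mul (relIndex_upper j) (relIndex_upper j)

theorem pLength_prod {A B : Type*} [Group A] [Group B] [Finite A] [Finite B] {k : ℕ} (hA : PLengthLE p k A)
    (hB : PLengthLE p k B) : PLengthLE p k (A × B) := by
  unfold PLengthLE at *
  have h := upper_prod_le (p := p) (A := A) (B := B) (2 * k + 1)
  rw [hA, hB, Subgroup.top_prod_top] at h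
  exact top_le_iff.mp h

theorem pLength_inf {Y : Type*} [Group Y] [Finite Y] {N₁ N₂ : Subgroup Y} [N₁.Normal] [N₂.Normal] {l : ℕ}
    (h₁ : PLengthLE p l (Y ⧸ N₁)) (h₂ : PLengthLE p l (Y ⧸ N₂)) : PLengthLE p l (Y ⧸ (N₁ ⊓ N₂ : Subgroup Y)) := by
  let φ : (Y ⧸ (N₁ ⊓ N₂ : Subgroup Y)) →* (Y ⧸ N₁) × (Y ⧸ N₂) :=
    QuotientGroup.lift (N₁ ⊓ N₂) ((QuotientGroup.mk' N₁).prod (QuotientGroup.mk' N₂)) (by
      intro x hx
      obtain ⟨h1, h2⟩ := Subgroup.mem_inf.mp hx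
      show ((x : Y ⧸ N₁), (x : Y ⧸ N₂)) = 1
      rw [(QuotientGroup.eq_one_iff x).mpr h1, (QuotientGroup.eq_one_iff x).mpr h2]
      rfl)
  have hinj : Function.Injective φ := by
    rw [injective_iff_map_eq_one]
    intro a ha
    obtain ⟨x, rfl⟩ := QuotientGroup.mk_surjective a
    have h3 : ((x : Y ⧸ N₁), (x : Y ⧸ N₂)) = 1 := ha
    have h4 := congrArg Prod.fst h3
    have h5 := congrArg Prod.snd h3
    exact (QuotientGroup.eq_one_iff x).mpr (Subgroup.mem_inf.mpr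
      ⟨(QuotientGroup.eq_one_iff x).mp h4, (QuotientGroup.eq_one_iff x).mp h5⟩)
  exact pLengthLE_of_injective φ hinj (pLength_prod h₁ h₂)

end prod

/-- A `2`-element of a quotient lifts to a `2`-element. -/
theorem exists_two_lift {Y Y₁ : Type*} [Group Y] [Finite Y] [Group Y₁] (f : Y →* Y₁) (hf : Function.Surjective f)
    {a : Y₁} {k : ℕ} (ha : a ^ 2 ^ k = 1) : ∃ y, f y = a ∧ ∃ s : ℕ, y ^ 2 ^ s = 1 := by
  classical
  rcases Nat.eq_zero_or_pos k with rfl | hk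
  · refine ⟨1, ?_, 0, by simp⟩
    rw [pow_zero, pow_one] at ha
    rw [ha, map_one]
  obtain ⟨y₀, rfl⟩ := hf a
  obtain ⟨s, r, hr, hord⟩ := Nat.exists_eq_two_pow_mul_odd (orderOf_pos y₀).ne'
  have hp1 : 1 < 2 ^ k := Nat.one_lt_pow hk.ne' (by norm_num)
  have hcop : r.Coprime (2 ^ k) := Nat.Coprime.pow_right k (Nat.coprime_two_right.mpr hr)
  obtain ⟨t, -, ht⟩ := Nat.exists_mul_mod_eq_one_of_coprime hcop hp1
  refine ⟨y₀ ^ (r * t), ?_, s, ?_⟩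
  · rw [map_pow]
    conv_lhs => rw [← Nat.div_add_mod (r * t) (2 ^ k), ht, pow_add, pow_mul, ha, one_pow, one_mul, pow_one]
  · rw [← pow_mul]
    have e : r * t * 2 ^ s = orderOf y₀ * t := by
      rw [hord]
      ring
    rw [e, pow_mul, pow_orderOf_eq_one, one_pow]

/-- The theorem to be proved. -/
def ThmA (l : ℕ) : Prop :=
  ∀ (H : Type u) [Group H] [Finite H], Group.IsSolvable H → pCore 2 H = ⊥ →
    ∀ (V : Type u) [AddCommGroup V] [Module (ZMod 2) V] [Finite V] (ρ : H →* End (ZMod 2) V),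
      Function.Injective ρ → (∀ a, (∃ k : ℕ, a ^ 2 ^ k = 1) → ∑ i ∈ Finset.range (2 ^ (l + 1)), (ρ a) ^ i = 0) →
        PLengthLE 2 l H

section sec

variable {Y : Type u} [Group Y] [Finite Y] {W : Type u} [AddCommGroup W] [Module (ZMod 2) W] [Finite W]

/-- The representation on a section. -/
def secRep (σ : Y →* End (ZMod 2) W) (W₁ W₂ : Submodule (ZMod 2) W) (h₁ : ∀ y, ∀ v ∈ W₁, σ y v ∈ W₁)
    (h₂ : ∀ y, ∀ v ∈ W₂, σ y v ∈ W₂) : Y →* End (ZMod 2) (W₂ ⧸ W₁.comap W₂.subtype) where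
  toFun y := Submodule.mapQ _ _ ((σ y).restrict (h₂ y)) (by
    intro v hv
    exact h₁ y _ hv)
  map_one' := by
    ext ⟨v, hv⟩
    show (Submodule.Quotient.mk (⟨σ 1 v, _⟩ : W₂) : W₂ ⧸ W₁.comap W₂.subtype) = Submodule.Quotient.mk ⟨v, hv⟩
    congr 1
    apply Subtype.ext
    simp
  map_mul' := by
    intro a b
    ext ⟨v, hv⟩
    show (Submodule.Quotient.mk (⟨σ (a * b) v, _⟩ : W₂) : W₂ ⧸ W₁.comap W₂.subtype) =
      Submodule.Quotient.mk ⟨σ a (σ b v), _⟩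
    congr 1
    apply Subtype.ext
    simp

theorem secRep_mk (σ : Y →* End (ZMod 2) W) (W₁ W₂ : Submodule (ZMod 2) W) (h₁ : ∀ y, ∀ v ∈ W₁, σ y v ∈ W₁)
    (h₂ : ∀ y, ∀ v ∈ W₂, σ y v ∈ W₂) (y : Y) (v : W) (hv : v ∈ W₂) :
    secRep σ W₁ W₂ h₁ h₂ y (Submodule.Quotient.mk ⟨v, hv⟩) = Submodule.Quotient.mk ⟨σ y v, h₂ y v hv⟩ := rfl

theorem mk_eq_zero_iff (W₁ W₂ : Submodule (ZMod 2) W) (v : W) (hv : v ∈ W₂) :
    (Submodule.Quotient.mk (⟨v, hv⟩ : W₂) : W₂ ⧸ W₁.comap W₂.subtype) = 0 ↔ v ∈ W₁ := by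
  rw [Submodule.Quotient.mk_eq_zero]
  rfl

section base

variable {M : Type u} [AddCommGroup M] [Module (ZMod 2) M] [Finite M]

/-- The faithful quotient of a representation. -/
def kerRep (ρM : Y →* End (ZMod 2) M) : Y ⧸ ρM.ker →* End (ZMod 2) M :=
  QuotientGroup.lift ρM.ker ρM (fun _ hx => hx)

theorem kerRep_mk (ρM : Y →* End (ZMod 2) M) (y : Y) : kerRep ρM (y : Y ⧸ ρM.ker) = ρM y := rfl

theorem kerRep_injective (ρM : Y →* End (ZMod 2) M) : Function.Injective (kerRep ρM) := by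
  intro a b hab
  obtain ⟨x, rfl⟩ := QuotientGroup.mk_surjective a
  obtain ⟨y, rfl⟩ := QuotientGroup.mk_surjective b
  rw [kerRep_mk, kerRep_mk] at hab
  apply QuotientGroup.eq.mpr
  rw [MonoidHom.mem_ker, map_mul, ← hab, ← map_mul, inv_mul_cancel, map_one]

theorem base_core (σ : Y →* End (ZMod 2) W)
    (W₁ W₂ : Submodule (ZMod 2) W) (hle : W₁ ≤ W₂) (h₁ : ∀ y, ∀ v ∈ W₁, σ y v ∈ W₁) (h₂ : ∀ y, ∀ v ∈ W₂, σ y v ∈ W₂)
    (hint : ∀ U : Submodule (ZMod 2) W, (∀ y, ∀ v ∈ U, σ y v ∈ U) → W₁ ≤ U → U ≤ W₂ → U ≠ W₁ → U = W₂)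
    (ρM : Y →* End (ZMod 2) M)
    (ψ : W₂ →ₗ[ZMod 2] M) (hψ : Function.Surjective ψ) (hmk0 : ∀ v (hv : v ∈ W₂), ψ ⟨v, hv⟩ = 0 ↔ v ∈ W₁)
    (hmkeq : ∀ v w (hv : v ∈ W₂) (hw : w ∈ W₂), ψ ⟨v, hv⟩ = ψ ⟨w, hw⟩ ↔ v - w ∈ W₁)
    (hρM : ∀ y v (hv : v ∈ W₂), ρM y (ψ ⟨v, hv⟩) = ψ ⟨σ y v, h₂ y v hv⟩)
    (hker1 : ∀ x, ρM x = 1 ↔ ∀ v ∈ W₂, σ x v - v ∈ W₁) : pCore 2 (Y ⧸ ρM.ker) = ⊥ := by
  classical
  haveI : Fact (Nat.Prime 2) := ⟨Nat.prime_two⟩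
  have hPn : (pCore 2 (Y ⧸ ρM.ker)).Normal := pCore_normal 2 (Y ⧸ ρM.ker)
  have hPp : IsPGroup 2 (pCore 2 (Y ⧸ ρM.ker)) := pCore_isPGroup 2
  by_cases hall : ∀ x : Y, (x : Y ⧸ ρM.ker) ∈ pCore 2 (Y ⧸ ρM.ker) → ∀ v ∈ W₂, σ x v - v ∈ W₁
  · rw [eq_bot_iff]
    intro a ha
    obtain ⟨x, rfl⟩ := QuotientGroup.mk_surjective a
    have h3 := (hker1 x).mpr (hall x ha)
    exact (QuotientGroup.eq_one_iff x).mpr (MonoidHom.mem_ker.mpr h3)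
  · exfalso
    push Not at hall
    obtain ⟨x₀, hx₀, v₀, hv₀, hne₀⟩ := hall
    let U : Submodule (ZMod 2) W :=
      { carrier := {v | v ∈ W₂ ∧ ∀ x : Y, (x : Y ⧸ ρM.ker) ∈ pCore 2 (Y ⧸ ρM.ker) → σ x v - v ∈ W₁}
        add_mem' := by
          rintro a b ⟨ha, ha'⟩ ⟨hb, hb'⟩
          refine ⟨add_mem ha hb, fun x hx => ?_⟩
          have e1 : σ x (a + b) - (a + b) = (σ x a - a) + (σ x b - b) := by
            rw [map_add]
            abel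
          rw [e1]
          exact add_mem (ha' x hx) (hb' x hx)
        zero_mem' := ⟨zero_mem _, fun x _ => by simp⟩
        smul_mem' := by
          rintro c a ⟨ha, ha'⟩
          refine ⟨W₂.smul_mem c ha, fun x hx => ?_⟩
          have e1 : σ x (c • a) - c • a = c • (σ x a - a) := by
            rw [map_smul, smul_sub]
          rw [e1]
          exact W₁.smul_mem c (ha' x hx) }
    have hUinv : ∀ y, ∀ v ∈ U, σ y v ∈ U := by
      rintro y v ⟨hv, hv'⟩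
      refine ⟨h₂ y v hv, fun x hx => ?_⟩
      have hx' : ((y⁻¹ * x * y : Y) : Y ⧸ ρM.ker) ∈ pCore 2 (Y ⧸ ρM.ker) := by
        have h3 := hPn.conj_mem _ hx (y⁻¹ : Y ⧸ ρM.ker)
        have e1 : ((y⁻¹ * x * y : Y) : Y ⧸ ρM.ker) = (y⁻¹ : Y ⧸ ρM.ker) * (x : Y ⧸ ρM.ker) * (y⁻¹ : Y ⧸ ρM.ker)⁻¹ := by
          simp
        rw [e1]
        exact h3
      have h4 := h₁ y _ (hv' _ hx')
      have e1 : σ y (σ (y⁻¹ * x * y) v - v) = σ x (σ y v) - σ y v := by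
        rw [map_sub, ← Module.End.mul_apply, ← map_mul]
        have e2 : y * (y⁻¹ * x * y) = x * y := by group
        rw [e2, map_mul, Module.End.mul_apply]
      rw [← e1]
      exact h4
    have h1U : W₁ ≤ U := fun v hv => ⟨hle hv, fun x _ => sub_mem (h₁ x v hv) hv⟩
    have hU2 : U ≤ W₂ := fun v hv => hv.1
    have hUW₂ : U ≠ W₂ := by
      intro h
      have h3 : v₀ ∈ U := h ▸ hv₀
      exact hne₀ (h3.2 x₀ hx₀)
    have hUW₁ : U = W₁ := by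
      by_contra h
      exact hUW₂ (hint U hUinv h1U hU2 h)
    haveI hnt : Nontrivial M := by
      refine ⟨ψ ⟨v₀, hv₀⟩, 0, fun h => ?_⟩
      have h3 : v₀ ∈ W₁ := (hmk0 _ _).mp h
      exact hne₀ (sub_mem (h₁ x₀ v₀ h3) h3)
    let π : pCore 2 (Y ⧸ ρM.ker) →* End (ZMod 2) M := (kerRep ρM).comp (pCore 2 (Y ⧸ ρM.ker)).subtype
    obtain ⟨m, hm0, hm⟩ := fixed_vector (q := 2) π (by
      intro s
      obtain ⟨k, hk⟩ := hPp s
      refine ⟨k, ?_⟩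
      rw [← map_pow, hk, map_one])
    obtain ⟨⟨v, hv⟩, rfl⟩ := hψ m
    have hvU : v ∈ U := by
      refine ⟨hv, fun x hx => ?_⟩
      have h3 := hm ⟨_, hx⟩
      have h4 : π ⟨_, hx⟩ = ρM x := rfl
      rw [h4, hρM] at h3
      exact (hmkeq _ _ _ _).mp h3
    rw [hUW₁] at hvU
    exact hm0 ((hmk0 v hv).mpr hvU)

theorem base_sum {l : ℕ} (σ : Y →* End (ZMod 2) W)
    (W₁ W₂ : Submodule (ZMod 2) W) (h₂ : ∀ y, ∀ v ∈ W₂, σ y v ∈ W₂)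
    (hτ : ∀ a, (∃ k : ℕ, a ^ 2 ^ k = 1) → ∀ v ∈ W₂, ∑ i ∈ Finset.range (2 ^ (l + 1)), ((σ a) ^ i) v ∈ W₁)
    (ρM : Y →* End (ZMod 2) M)
    (ψ : W₂ →ₗ[ZMod 2] M) (hψ : Function.Surjective ψ) (hmk0 : ∀ v (hv : v ∈ W₂), ψ ⟨v, hv⟩ = 0 ↔ v ∈ W₁)
    (hρM : ∀ y v (hv : v ∈ W₂), ρM y (ψ ⟨v, hv⟩) = ψ ⟨σ y v, h₂ y v hv⟩) (a : Y ⧸ ρM.ker)
    (ha : ∃ k : ℕ, a ^ 2 ^ k = 1) : ∑ i ∈ Finset.range (2 ^ (l + 1)), ((kerRep ρM) a) ^ i = 0 := by
  classical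
  obtain ⟨k, hk⟩ := ha
  obtain ⟨y, rfl, hy⟩ := exists_two_lift (QuotientGroup.mk' ρM.ker) (QuotientGroup.mk'_surjective ρM.ker) hk
  have hy' := hτ y hy
  ext m
  obtain ⟨⟨v, hv⟩, rfl⟩ := hψ m
  have e1 : (kerRep ρM ((QuotientGroup.mk' ρM.ker) y)) = ρM y := rfl
  rw [e1, LinearMap.sum_apply, LinearMap.zero_apply]
  have hmemi : ∀ i : ℕ, ((σ y) ^ i) v ∈ W₂ := fun i => by
    rw [← map_pow]
    exact h₂ _ v hv
  have e2 : ∀ i ∈ Finset.range (2 ^ (l + 1)), ((ρM y) ^ i) (ψ ⟨v, hv⟩) = ψ ⟨((σ y) ^ i) v, hmemi i⟩ := by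
    intro i _
    rw [← map_pow, hρM]
    congr 2
    rw [← map_pow]
  rw [Finset.sum_congr rfl e2, ← map_sum]
  have e3 : ∑ i ∈ Finset.range (2 ^ (l + 1)), (⟨((σ y) ^ i) v, hmemi i⟩ : W₂) =
      ⟨∑ i ∈ Finset.range (2 ^ (l + 1)), ((σ y) ^ i) v, sum_mem (fun i _ => hmemi i)⟩ := by
    apply Subtype.ext
    simp
  rw [e3]
  exact (hmk0 _ _).mpr (hy' v hv)

/-- The case without intermediate submodules. -/
theorem section_base {l : ℕ} (hA : ThmA.{u} l) (hsol : Group.IsSolvable Y) (σ : Y →* End (ZMod 2) W)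
    (W₁ W₂ : Submodule (ZMod 2) W) (hle : W₁ ≤ W₂) (h₁ : ∀ y, ∀ v ∈ W₁, σ y v ∈ W₁) (h₂ : ∀ y, ∀ v ∈ W₂, σ y v ∈ W₂)
    (hτ : ∀ a, (∃ k : ℕ, a ^ 2 ^ k = 1) → ∀ v ∈ W₂, ∑ i ∈ Finset.range (2 ^ (l + 1)), ((σ a) ^ i) v ∈ W₁)
    (hint : ∀ U : Submodule (ZMod 2) W, (∀ y, ∀ v ∈ U, σ y v ∈ U) → W₁ ≤ U → U ≤ W₂ → U ≠ W₁ → U = W₂)
    (ρM : Y →* End (ZMod 2) M)
    (ψ : W₂ →ₗ[ZMod 2] M) (hψ : Function.Surjective ψ) (hmk0 : ∀ v (hv : v ∈ W₂), ψ ⟨v, hv⟩ = 0 ↔ v ∈ W₁)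
    (hρM : ∀ y v (hv : v ∈ W₂), ρM y (ψ ⟨v, hv⟩) = ψ ⟨σ y v, h₂ y v hv⟩) :
    ∃ (N : Subgroup Y) (_ : N.Normal), (∀ x ∈ N, ∃ k : ℕ, ∀ v ∈ W₂, ((σ x - 1) ^ k) v ∈ W₁) ∧
      PLengthLE 2 l (Y ⧸ N) := by
  classical
  haveI : Fact (Nat.Prime 2) := ⟨Nat.prime_two⟩
  have hmkeq : ∀ v w (hv : v ∈ W₂) (hw : w ∈ W₂), ψ ⟨v, hv⟩ = ψ ⟨w, hw⟩ ↔ v - w ∈ W₁ := by
    intro v w hv hw
    rw [← sub_eq_zero, ← map_sub]
    exact hmk0 (v - w) (sub_mem hv hw)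
  have hker1 : ∀ x, ρM x = 1 ↔ ∀ v ∈ W₂, σ x v - v ∈ W₁ := by
    intro x
    constructor
    · intro h v hv
      have h3 := hρM x v hv
      rw [h, Module.End.one_apply] at h3
      exact (hmkeq _ _ _ _).mp h3.symm
    · intro h
      ext m
      obtain ⟨⟨v, hv⟩, rfl⟩ := hψ m
      rw [hρM, Module.End.one_apply]
      exact (hmkeq _ _ _ _).mpr (h v hv)
  have hO2 := base_core σ W₁ W₂ hle h₁ h₂ hint ρM ψ hψ hmk0 hmkeq hρM hker1
  have hsolY₁ : Group.IsSolvable (Y ⧸ ρM.ker) := inferInstance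
  refine ⟨ρM.ker, inferInstance, ?_, hA (Y ⧸ ρM.ker) hsolY₁ hO2 M (kerRep ρM)
    (kerRep_injective ρM) (base_sum σ W₁ W₂ h₂ hτ ρM ψ hψ hmk0 hρM)⟩
  intro x hx
  refine ⟨1, fun v hv => ?_⟩
  rw [pow_one]
  exact (hker1 x).mp (MonoidHom.mem_ker.mp hx) v hv

end base

/-- **The main induction on sections.** -/
theorem section_main {l : ℕ} (hA : ThmA.{u} l) (hsol : Group.IsSolvable Y) (σ : Y →* End (ZMod 2) W) :
    ∀ (d : ℕ) (W₁ W₂ : Submodule (ZMod 2) W), finrank (ZMod 2) W₂ - finrank (ZMod 2) W₁ = d → W₁ ≤ W₂ →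
      (∀ y, ∀ v ∈ W₁, σ y v ∈ W₁) → (∀ y, ∀ v ∈ W₂, σ y v ∈ W₂) →
      (∀ a, (∃ k : ℕ, a ^ 2 ^ k = 1) → ∀ v ∈ W₂, ∑ i ∈ Finset.range (2 ^ (l + 1)), ((σ a) ^ i) v ∈ W₁) →
      ∃ (N : Subgroup Y) (_ : N.Normal), (∀ x ∈ N, ∃ k : ℕ, ∀ v ∈ W₂, ((σ x - 1) ^ k) v ∈ W₁) ∧
        PLengthLE 2 l (Y ⧸ N) := by
  classical
  haveI : Fact (Nat.Prime 2) := ⟨Nat.prime_two⟩
  haveI : Module.Finite (ZMod 2) W := Module.Finite.of_finite
  intro d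
  induction d using Nat.strong_induction_on with
  | _ d ih =>
    intro W₁ W₂ hd hle h₁ h₂ hτ
    by_cases hint : ∃ U : Submodule (ZMod 2) W, (∀ y, ∀ v ∈ U, σ y v ∈ U) ∧ W₁ ≤ U ∧ U ≤ W₂ ∧ U ≠ W₁ ∧ U ≠ W₂
    · obtain ⟨U, hU, h1U, hU2, hne1, hne2⟩ := hint
      have hlt1 : W₁ < U := lt_of_le_of_ne h1U (Ne.symm hne1)
      have hlt2 : U < W₂ := lt_of_le_of_ne hU2 hne2
      have hf1 := Submodule.finrank_lt_finrank_of_lt hlt1
      have hf2 := Submodule.finrank_lt_finrank_of_lt hlt2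
      obtain ⟨N₁, hN₁, hu₁, hp₁⟩ := ih (finrank (ZMod 2) U - finrank (ZMod 2) W₁) (by omega) W₁ U rfl h1U h₁ hU
        (fun a ha v hv => hτ a ha v (hU2 hv))
      obtain ⟨N₂, hN₂, hu₂, hp₂⟩ := ih (finrank (ZMod 2) W₂ - finrank (ZMod 2) U) (by omega) U W₂ rfl hU2 hU h₂
        (fun a ha v hv => h1U (hτ a ha v hv))
      refine ⟨N₁ ⊓ N₂, inferInstance, ?_, pLength_inf hp₁ hp₂⟩
      intro x hx
      obtain ⟨hx1, hx2⟩ := Subgroup.mem_inf.mp hx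
      obtain ⟨k₁, hk₁⟩ := hu₁ x hx1
      obtain ⟨k₂, hk₂⟩ := hu₂ x hx2
      refine ⟨k₁ + k₂, fun v hv => ?_⟩
      rw [pow_add, Module.End.mul_apply]
      exact hk₁ _ (hk₂ v hv)
    · push Not at hint
      haveI : Finite (W₂ ⧸ W₁.comap W₂.subtype) := Finite.of_surjective _ (Submodule.mkQ_surjective _)
      exact section_base hA hsol σ W₁ W₂ hle h₁ h₂ hτ hint (secRep σ W₁ W₂ h₁ h₂) (Submodule.mkQ _)
        (Submodule.mkQ_surjective _) (fun v hv => mk_eq_zero_iff W₁ W₂ v hv) (fun y v hv => rfl)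

/-- The three step chain. -/
theorem chain_main {l : ℕ} (hA : ThmA.{u} l) (hsol : Group.IsSolvable Y) (hO2 : pCore 2 Y = ⊥)
    (σ : Y →* End (ZMod 2) W) (hσ : Function.Injective σ) (D K : Submodule (ZMod 2) W) (hKD : K ≤ D)
    (hDinv : ∀ y, ∀ v ∈ D, σ y v ∈ D) (hKinv : ∀ y, ∀ v ∈ K, σ y v ∈ K)
    (h1 : ∀ a, (∃ k : ℕ, a ^ 2 ^ k = 1) → ∀ v, ∑ i ∈ Finset.range (2 ^ (l + 1)), ((σ a) ^ i) v ∈ D)
    (h2 : ∀ a, (∃ k : ℕ, a ^ 2 ^ k = 1) → ∀ v ∈ D, ∑ i ∈ Finset.range (2 ^ (l + 1)), ((σ a) ^ i) v ∈ K)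
    (h3 : ∀ a, (∃ k : ℕ, a ^ 2 ^ k = 1) → ∀ v ∈ K, ∑ i ∈ Finset.range (2 ^ (l + 1)), ((σ a) ^ i) v = 0) :
    PLengthLE 2 l Y := by
  classical
  haveI : Fact (Nat.Prime 2) := ⟨Nat.prime_two⟩
  obtain ⟨N₁, hN₁, hu₁, hp₁⟩ := section_main hA hsol σ _ D ⊤ rfl le_top hDinv (fun _ _ _ => trivial)
    (fun a ha v _ => h1 a ha v)
  obtain ⟨N₂, hN₂, hu₂, hp₂⟩ := section_main hA hsol σ _ K D rfl hKD hKinv hDinv h2
  obtain ⟨N₃, hN₃, hu₃, hp₃⟩ := section_main hA hsol σ _ ⊥ K rfl bot_le (fun y v hv => by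
      rw [Submodule.mem_bot] at hv ⊢
      rw [hv, map_zero]) hKinv
    (fun a ha v hv => by
      rw [Submodule.mem_bot]
      exact h3 a ha v hv)
  set N : Subgroup Y := (N₁ ⊓ N₂) ⊓ N₃ with hN
  haveI hNn : N.Normal := inferInstance
  have hNp : PLengthLE 2 l (Y ⧸ N) := pLength_inf (pLength_inf hp₁ hp₂) hp₃
  have h2el : IsPGroup 2 N := by
    intro x
    obtain ⟨hx12, hx3⟩ := Subgroup.mem_inf.mp x.2
    obtain ⟨hx1, hx2⟩ := Subgroup.mem_inf.mp hx12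
    obtain ⟨k₁, hk₁⟩ := hu₁ x hx1
    obtain ⟨k₂, hk₂⟩ := hu₂ x hx2
    obtain ⟨k₃, hk₃⟩ := hu₃ x hx3
    set T := σ (x : Y) - 1 with hT
    have hT0 : T ^ (k₃ + (k₂ + k₁)) = 0 := by
      ext v
      rw [pow_add, pow_add, Module.End.mul_apply, Module.End.mul_apply]
      have h4 := hk₃ _ (hk₂ _ (hk₁ v trivial))
      rw [Submodule.mem_bot] at h4
      rw [h4]
      rfl
    have hlt : k₃ + (k₂ + k₁) ≤ 2 ^ (k₃ + (k₂ + k₁)) := Nat.lt_two_pow_self.le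
    have hT1 : T ^ 2 ^ (k₃ + (k₂ + k₁)) = 0 := pow_eq_zero_of_le hlt hT0
    refine ⟨k₃ + (k₂ + k₁), Subtype.ext ?_⟩
    apply hσ
    have h5 := Cfsg.Agent.Lib.HallHigman.Block.sub_one_pow_char_pow (p := 2) (σ (x : Y)) (k₃ + (k₂ + k₁))
    rw [← hT, hT1] at h5
    have h6 : ((x ^ 2 ^ (k₃ + (k₂ + k₁)) : N) : Y) = (x : Y) ^ 2 ^ (k₃ + (k₂ + k₁)) := rfl
    rw [h6, map_pow, show ((1 : N) : Y) = 1 from rfl, map_one]
    exact (sub_eq_zero.mp h5.symm)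
  have hNbot : N = ⊥ := by
    rw [eq_bot_iff, ← hO2]
    exact le_pCore hNn h2el
  refine pLengthLE_of_injective (QuotientGroup.mk' N) ?_ hNp
  rw [injective_iff_map_eq_one]
  intro a ha
  have h6 : a ∈ N := (QuotientGroup.eq_one_iff a).mp ha
  rw [hNbot, Subgroup.mem_bot] at h6
  exact h6

end sec

end Cfsg.Agent.Lib.BryG.Chain
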