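import Mathlib
import Cfsg.Agent.Lib.BryG.Chain1
import Cfsg.Agent.Lib.Gross.TwoLength

/-!
# The induction step for the `2`-length
-/

set_option autoImplicit false
set_option linter.unusedSectionVars false
set_option linter.style.haveILetI false

namespace Cfsg.Agent.Lib.BryG.Chain

open Module Cfsg Cfsg.Agent.Lib.Basic.PCore Cfsg.Agent.Lib.Solvable.PSeries
open Cfsg.Agent.Lib.HallHigman.Layer Cfsg.Agent.Lib.Gross.TheoremU Cfsg.Agent.Lib.Gross.TwoLength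
open Cfsg.Agent.Lib.BryG.Loc Cfsg.Agent.Lib.BryG.MainY

universe u

/-- The cocycle computation of the layer. -/
theorem cocycle {G : Type u} [Group G] [Finite G] {V : Type*} [AddCommGroup V] [Module (ZMod 2) V]
    (ρ : G ⧸ pCore 2 G →* End (ZMod 2) V) (π : pCore 2 G →* Multiplicative V)
    (hact : ∀ (g : G) (u : pCore 2 G),
        Multiplicative.toAdd (π (MulAut.conjNormal g u)) = ρ (g : G ⧸ pCore 2 G) (Multiplicative.toAdd (π u)))
    (g : G) (u : pCore 2 G) (k : ℕ) : ∃ c : pCore 2 G, (g * (u : G)) ^ k = g ^ k * (c : G) ∧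
      Multiplicative.toAdd (π c) =
        ∑ i ∈ Finset.range k, ((ρ ((g⁻¹ : G) : G ⧸ pCore 2 G)) ^ i) (Multiplicative.toAdd (π u)) := by
  classical
  set T := ρ ((g⁻¹ : G) : G ⧸ pCore 2 G) with hT
  set v := Multiplicative.toAdd (π u) with hv
  induction k with
  | zero =>
    refine ⟨1, by simp, ?_⟩
    simp
  | succ k ih =>
    obtain ⟨c, hc1, hc2⟩ := ih
    refine ⟨MulAut.conjNormal g⁻¹ c * u, ?_, ?_⟩
    · rw [pow_succ, hc1, pow_succ]
      simp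
      group
    · rw [map_mul, toAdd_mul, hact, hc2, Finset.sum_range_succ', map_sum, add_comm]
      simp only [pow_succ', pow_zero, Module.End.one_apply, Module.End.mul_apply]
      rw [add_comm, ← hv]

section step

variable {H : Type u} [Group H] [Finite H]

local notation "XX" => (H ⧸ pPrimeCore 2 H)
local notation "BB" => (pCore 2 (H ⧸ pPrimeCore 2 H))

/-- The lift of a `2`-element of the second quotient with its cocycle. -/
theorem key_lift {V₂ : Type*} [AddCommGroup V₂] [Module (ZMod 2) V₂]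
    (ρ₂ : XX ⧸ BB →* End (ZMod 2) V₂) (π₂ : BB →* Multiplicative V₂)
    (hact : ∀ (g : XX) (u : BB),
      Multiplicative.toAdd (π₂ (MulAut.conjNormal g u)) = ρ₂ (g : XX ⧸ BB) (Multiplicative.toAdd (π₂ u)))
    (a : XX ⧸ BB) (ha : ∃ k : ℕ, a ^ 2 ^ k = 1) (n : ℕ) :
    ∃ (g : H) (S : Sylow 2 H), g ∈ S ∧ ∀ u : BB, ∃ s ∈ S, ((s : H) : XX) = u ∧
      ∃ h : (((g ^ n)⁻¹ * (g * s) ^ n : H) : XX) ∈ BB,
        Multiplicative.toAdd (π₂ ⟨_, h⟩) = ∑ i ∈ Finset.range n, ((ρ₂ a) ^ i) (Multiplicative.toAdd (π₂ u)) := by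
  classical
  haveI : Fact (Nat.Prime 2) := ⟨Nat.prime_two⟩
  obtain ⟨k, hk⟩ := ha
  obtain ⟨x, hx⟩ := QuotientGroup.mk_surjective a⁻¹
  have hxk : x ^ 2 ^ k ∈ BB := by
    rw [← QuotientGroup.eq_one_iff, QuotientGroup.mk_pow, hx, inv_pow, hk, inv_one]
  obtain ⟨j, hj⟩ := (pCore_isPGroup 2 (G := XX)) ⟨_, hxk⟩
  have hj' : x ^ 2 ^ (k + j) = 1 := by
    have h3 : (x ^ 2 ^ k) ^ 2 ^ j = 1 := by
      have := congrArg Subtype.val hj
      simpa using this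
    rw [pow_add, pow_mul, h3]
  obtain ⟨g, rfl, hg⟩ := exists_pow_lift (p := 2) _ (pPrimeCore_coprime 2) x (k + j) hj'
  have hzp : IsPGroup 2 (Subgroup.zpowers g) := by
    rintro ⟨y, hy⟩
    obtain ⟨m, rfl⟩ := Subgroup.mem_zpowers_iff.mp hy
    refine ⟨k + j, Subtype.ext ?_⟩
    show (g ^ m) ^ 2 ^ (k + j) = 1
    rw [← zpow_natCast, ← zpow_mul, mul_comm, zpow_mul, zpow_natCast, hg, one_zpow]
  obtain ⟨S, hS⟩ := hzp.exists_le_sylow
  have hgS : g ∈ S := hS (Subgroup.mem_zpowers g)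
  refine ⟨g, S, hgS, fun u => ?_⟩
  have huS : (u : XX) ∈ ((S.mapSurjective (QuotientGroup.mk'_surjective (pPrimeCore 2 H)) : Sylow 2 XX) : Subgroup XX) :=
    pCore_le_sylow _ u.2
  obtain ⟨s, hsS, hsu⟩ := huS
  have hsu' : ((s : H) : XX) = u := hsu
  obtain ⟨c, hc1, hc2⟩ := cocycle ρ₂ π₂ hact (g : XX) u n
  have hT : ρ₂ (((g : XX)⁻¹ : XX) : XX ⧸ BB) = ρ₂ a := by
    rw [QuotientGroup.mk_inv, hx, inv_inv]
  rw [hT] at hc2
  have hcc : (((g ^ n)⁻¹ * (g * s) ^ n : H) : XX) = (c : XX) := by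
    rw [QuotientGroup.mk_mul, QuotientGroup.mk_inv, QuotientGroup.mk_pow, QuotientGroup.mk_pow, QuotientGroup.mk_mul, hsu',
      hc1]
    group
  refine ⟨s, hsS, hsu', by rw [hcc]; exact c.2, ?_⟩
  rw [← hc2]
  congr 2
  exact Subtype.ext hcc

/-- An element of a coset of an odd group and of `2`-power order. -/
theorem mem_of_odd {D : Subgroup H} (hD : D.Normal) {s d : H} {j : ℕ} (hs : s ^ 2 ^ j = 1) (hd : d ∈ D)
    (he : (s : XX) = (d : XX)) : s ∈ D := by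
  classical
  haveI : Fact (Nat.Prime 2) := ⟨Nat.prime_two⟩
  have ho : d⁻¹ * s ∈ pPrimeCore 2 H := QuotientGroup.eq.mp he.symm
  have h1 : (d⁻¹ * s) ^ Nat.card (pPrimeCore 2 H) = 1 := by
    have h0 := pow_card_eq_one' (x := (⟨_, ho⟩ : pPrimeCore 2 H))
    have h3 := congrArg Subtype.val h0
    rwa [Subgroup.coe_pow, Subgroup.coe_one] at h3
  have h2 : ((d⁻¹ * s : H) : H ⧸ D) = (s : H ⧸ D) := by
    rw [QuotientGroup.mk_mul, QuotientGroup.mk_inv, (QuotientGroup.eq_one_iff d).mpr hd, inv_one, one_mul]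
  have h3 : (s : H ⧸ D) ^ Nat.card (pPrimeCore 2 H) = 1 := by
    rw [← h2, ← QuotientGroup.mk_pow, h1]
    rfl
  have h4 : (s : H ⧸ D) ^ 2 ^ j = 1 := by
    rw [← QuotientGroup.mk_pow, hs]
    rfl
  have h5 : orderOf (s : H ⧸ D) ∣ Nat.gcd (Nat.card (pPrimeCore 2 H)) (2 ^ j) :=
    Nat.dvd_gcd (orderOf_dvd_of_pow_eq_one h3) (orderOf_dvd_of_pow_eq_one h4)
  have h6 : Nat.gcd (Nat.card (pPrimeCore 2 H)) (2 ^ j) = 1 := Nat.Coprime.pow_right j (pPrimeCore_coprime 2)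
  rw [h6, Nat.dvd_one, orderOf_eq_one_iff] at h5
  exact (QuotientGroup.eq_one_iff s).mp h5

/-- The image of a subgroup in the layer. -/
def imgS {V₂ : Type*} [AddCommGroup V₂] [Module (ZMod 2) V₂] (π₂ : BB →* Multiplicative V₂) (S : Subgroup H)
    (hS : ∀ d ∈ S, (d : XX) ∈ BB) : Submodule (ZMod 2) V₂ where
  carrier := {v | ∃ d, ∃ hd : d ∈ S, Multiplicative.toAdd (π₂ ⟨(d : XX), hS d hd⟩) = v}
  add_mem' := by
    rintro _ _ ⟨d₁, h₁, rfl⟩ ⟨d₂, h₂, rfl⟩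
    refine ⟨d₁ * d₂, mul_mem h₁ h₂, ?_⟩
    rw [← toAdd_mul, ← map_mul]
    rfl
  zero_mem' := by
    refine ⟨1, one_mem _, ?_⟩
    have e : (⟨((1 : H) : XX), hS 1 (one_mem _)⟩ : BB) = 1 := rfl
    rw [e, map_one]
    rfl
  smul_mem' := by
    rintro c _ ⟨d, hd, rfl⟩
    have hc : c = 0 ∨ c = 1 := by
      revert c
      decide
    rcases hc with rfl | rfl
    · refine ⟨1, one_mem _, ?_⟩
      have e : (⟨((1 : H) : XX), hS 1 (one_mem _)⟩ : BB) = 1 := rfl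
      rw [e, map_one, zero_smul]
      rfl
    · exact ⟨d, hd, by rw [one_smul]⟩

theorem mem_imgS {V₂ : Type*} [AddCommGroup V₂] [Module (ZMod 2) V₂] (π₂ : BB →* Multiplicative V₂) {S : Subgroup H}
    (hS : ∀ d ∈ S, (d : XX) ∈ BB) {d : H} (hd : d ∈ S) {h : (d : XX) ∈ BB} : Multiplicative.toAdd (π₂ ⟨(d : XX), h⟩) ∈ imgS π₂ S hS :=
  ⟨d, hd, rfl⟩

theorem imgS_inv {V₂ : Type*} [AddCommGroup V₂] [Module (ZMod 2) V₂]
    (ρ₂ : XX ⧸ BB →* End (ZMod 2) V₂) (π₂ : BB →* Multiplicative V₂)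
    (hact : ∀ (g : XX) (u : BB),
      Multiplicative.toAdd (π₂ (MulAut.conjNormal g u)) = ρ₂ (g : XX ⧸ BB) (Multiplicative.toAdd (π₂ u)))
    {S : Subgroup H} (hSn : S.Normal) (hS : ∀ d ∈ S, (d : XX) ∈ BB) (y : XX ⧸ BB) :
    ∀ v ∈ imgS π₂ S hS, ρ₂ y v ∈ imgS π₂ S hS := by
  rintro _ ⟨d, hd, rfl⟩
  obtain ⟨x, rfl⟩ := QuotientGroup.mk_surjective y
  obtain ⟨h, rfl⟩ := QuotientGroup.mk_surjective x
  rw [← hact]
  refine ⟨h * d * h⁻¹, hSn.conj_mem d hd h, ?_⟩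
  congr 2

end step

/-- **The induction step.** -/
theorem step {l : ℕ} (hA : ThmA.{u} l) : ThmA.{u} (l + 1) := by
  intro H _ _ hsol hO2 V _ _ _ ρ hρ hs
  classical
  haveI : Fact (Nat.Prime 2) := ⟨Nat.prime_two⟩
  haveI : Module.Finite (ZMod 2) V := Module.Finite.of_finite
  -- the exponent
  have hexp : ∀ a : H, (∃ k : ℕ, a ^ 2 ^ k = 1) → a ^ 2 ^ (l + 2) = 1 := by
    intro a ha
    apply hρ
    have h1 := geom_sum_mul (ρ a) (2 ^ (l + 2))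
    have h2 := hs a ha
    have e : l + 1 + 1 = l + 2 := rfl
    rw [e] at h2
    rw [h2, zero_mul] at h1
    rw [map_pow, map_one]
    exact (sub_eq_zero.mp h1.symm)
  have hs' : ∀ a : H, (∃ k : ℕ, a ^ 2 ^ k = 1) → ∑ i ∈ Finset.range (2 ^ (l + 2)), (ρ a) ^ i = 0 := hs
  -- the base change
  let K := AlgebraicClosure (ZMod 2)
  let W := TensorProduct (ZMod 2) K V
  let ρ' : H →* End K W := ((Module.End.baseChangeHom (ZMod 2) K V).toMonoidHom).comp ρ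
  have hρ' : Function.Injective ρ' := by
    intro a b hab
    apply hρ
    exact LinearMap.baseChangeHom_injective (ZMod 2) V K hab
  have hK : ∀ q : ℕ, q.Prime → q ≠ 2 → (q : K) ≠ 0 := by
    intro q hq hq2
    have h2K : ((2 : ℕ) : K) = 0 := CharP.cast_eq_zero K 2
    exact Cfsg.Agent.Lib.Gross.LemmaZ.cast_ne_zero_of_ne Nat.prime_two hq hq2 h2K
  have hsum' : ∀ a : H, a ^ 2 ^ (l + 2) = 1 → ∀ v, ∑ i ∈ Finset.range (2 ^ (l + 2)), ρ' (a ^ i) v = 0 := by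
    intro a ha v
    have h1 := hs' a ⟨_, ha⟩
    have h2 : ∑ i ∈ Finset.range (2 ^ (l + 2)), ρ' (a ^ i) = 0 := by
      have e1 : ∀ i, ρ' (a ^ i) = Module.End.baseChangeHom (ZMod 2) K V ((ρ a) ^ i) := by
        intro i
        rw [← map_pow]
        rfl
      simp only [e1]
      rw [← map_sum, h1, map_zero]
    have h3 := LinearMap.congr_fun h2 v
    simpa [LinearMap.sum_apply] using h3
  -- `D` modulo the odd core
  have hU := centralizes_of_layer hsol ρ hρ (l + 2) (fun a ha => hs' a ⟨l + 2, by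
    rw [← ha]
    exact pow_orderOf_eq_one a⟩)
  have hodd := oddD_le_core hsol (𝒜 := Ae H (l + 2)) Ae_conj hO2 hU
  have hDB : ∀ d ∈ lastD (Ae H (l + 2)), (d : H ⧸ pPrimeCore 2 H) ∈ pCore 2 (H ⧸ pPrimeCore 2 H) :=
    fun d hd => lastD_map_le Ae_conj hodd hd
  have hKB : ∀ d ∈ K1 H (l + 2), (d : H ⧸ pPrimeCore 2 H) ∈ pCore 2 (H ⧸ pPrimeCore 2 H) :=
    fun d hd => hDB d (K1_le (by omega) hd)
  have hDn : (lastD (Ae H (l + 2))).Normal := lastD_normal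
  have hKn : (K1 H (l + 2)).Normal := K1_normal
  -- the layer
  have hps : IsPSolvable 2 H := isPSolvable_of_solvable
  have hcore := pPrimeCore_quotient (G := H) 2
  have hsol₁ := isPSolvable_quotient hps (pPrimeCore 2 H)
  obtain ⟨V₂, _, _, _, ρ₂, π₂, hπ₂, hρ₂, hact⟩ := exists_layer hsol₁ hcore
  apply pLengthLE_succ_of_layer
  have hSel : ∀ (S : Sylow 2 H) (g s : H), g ∈ S → s ∈ S → g ^ 2 ^ (l + 2) = 1 ∧ (g * s) ^ 2 ^ (l + 2) = 1 := by
    intro S g s hg hs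
    have h2 : ∀ x ∈ (S : Subgroup H), x ^ 2 ^ (l + 2) = 1 := by
      intro x hx
      obtain ⟨j, hj⟩ := S.2 ⟨x, hx⟩
      apply hexp
      refine ⟨j, ?_⟩
      have := congrArg Subtype.val hj
      simpa using this
    exact ⟨h2 g hg, h2 _ (mul_mem hg hs)⟩
  refine chain_main hA inferInstance pCore_quotient_eq_bot ρ₂ hρ₂ (imgS π₂ _ hDB) (imgS π₂ _ hKB)
    ?_ (imgS_inv ρ₂ π₂ hact hDn hDB) (imgS_inv ρ₂ π₂ hact hKn hKB) ?_ ?_ ?_
  · rintro _ ⟨d, hd, rfl⟩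
    exact ⟨d, K1_le (by omega) hd, rfl⟩
  · -- the first step
    intro a ha v
    obtain ⟨g, S, hgS, hlift⟩ := key_lift ρ₂ π₂ hact a ha (2 ^ (l + 1))
    obtain ⟨u, hu⟩ := hπ₂ (Multiplicative.ofAdd v)
    obtain ⟨s, hsS, hsu, h, hcoc⟩ := hlift u
    have hv : Multiplicative.toAdd (π₂ u) = v := by rw [hu]; rfl
    rw [hv] at hcoc
    rw [← hcoc]
    obtain ⟨h1, h2⟩ := hSel S g s hgS hsS
    exact ⟨(g ^ 2 ^ (l + 1))⁻¹ * (g * s) ^ 2 ^ (l + 1),
      mul_mem (inv_mem (y_mem_lastD (e := l + 2) (by omega) h1)) (y_mem_lastD (e := l + 2) (by omega) h2), rfl⟩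
  · -- the second step
    rintro a ha _ ⟨d, hd, rfl⟩
    obtain ⟨g, S, hgS, hlift⟩ := key_lift ρ₂ π₂ hact a ha (2 ^ (l + 1))
    obtain ⟨s, hsS, hsu, h, hcoc⟩ := hlift ⟨_, hDB d hd⟩
    rw [← hcoc]
    obtain ⟨h1, h2⟩ := hSel S g s hgS hsS
    have hsj : ∃ j : ℕ, s ^ 2 ^ j = 1 := by
      obtain ⟨j, hj⟩ := S.2 ⟨s, hsS⟩
      refine ⟨j, ?_⟩
      have := congrArg Subtype.val hj
      simpa using this
    obtain ⟨j, hj⟩ := hsj
    have hsD : s ∈ lastD (Ae H (l + 2)) := mem_of_odd hDn hj hd hsu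
    have ht : (g * s) ^ 2 ^ (l + 1) * (g ^ 2 ^ (l + 1))⁻¹ ∈ K1 H (l + 2) :=
      Subgroup.subset_closure ⟨g, s, hsD, h1, h2, rfl⟩
    have hw : (g ^ 2 ^ (l + 1))⁻¹ * (g * s) ^ 2 ^ (l + 1) ∈ K1 H (l + 2) := by
      have h3 := hKn.conj_mem _ ht (g ^ 2 ^ (l + 1))⁻¹
      have e : (g ^ 2 ^ (l + 1))⁻¹ * ((g * s) ^ 2 ^ (l + 1) * (g ^ 2 ^ (l + 1))⁻¹) * (g ^ 2 ^ (l + 1))⁻¹⁻¹ =
          (g ^ 2 ^ (l + 1))⁻¹ * (g * s) ^ 2 ^ (l + 1) := by group
      rwa [e] at h3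
    exact ⟨_, hw, rfl⟩
  · -- the third step
    rintro a ha _ ⟨k, hk, rfl⟩
    obtain ⟨g, S, hgS, hlift⟩ := key_lift ρ₂ π₂ hact a ha (2 ^ (l + 1))
    obtain ⟨s, hsS, hsu, h, hcoc⟩ := hlift ⟨_, hKB k hk⟩
    rw [← hcoc]
    obtain ⟨h1, h2⟩ := hSel S g s hgS hsS
    have hsj : ∃ j : ℕ, s ^ 2 ^ j = 1 := by
      obtain ⟨j, hj⟩ := S.2 ⟨s, hsS⟩
      refine ⟨j, ?_⟩
      have := congrArg Subtype.val hj
      simpa using this
    obtain ⟨j, hj⟩ := hsj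
    have hsK : s ∈ K1 H (l + 2) := mem_of_odd hKn hj hk hsu
    have htS : (g * s) ^ 2 ^ (l + 1) * (g ^ 2 ^ (l + 1))⁻¹ ∈ (S : Subgroup H) :=
      mul_mem (pow_mem (mul_mem hgS hsS) _) (inv_mem (pow_mem hgS _))
    have ht2 : ∃ j : ℕ, ((g * s) ^ 2 ^ (l + 1) * (g ^ 2 ^ (l + 1))⁻¹) ^ 2 ^ j = 1 := by
      obtain ⟨j, hj⟩ := S.2 ⟨_, htS⟩
      refine ⟨j, ?_⟩
      have := congrArg Subtype.val hj
      simpa using this
    have ht1 := main_Y (K := K) (V := W) hsol hO2 ρ' hρ' hK (e := l + 2) (by omega) hsum' hsK h1 h2 ht2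
    have ht1' : (g * s) ^ 2 ^ (l + 1) * (g ^ 2 ^ (l + 1))⁻¹ = 1 := ht1
    have e1 : (g * s) ^ 2 ^ (l + 1) = g ^ 2 ^ (l + 1) := mul_inv_eq_one.mp ht1'
    have e2 : (⟨_, h⟩ : pCore 2 (H ⧸ pPrimeCore 2 H)) = 1 := by
      apply Subtype.ext
      show (((g ^ 2 ^ (l + 1))⁻¹ * (g * s) ^ 2 ^ (l + 1) : H) : H ⧸ pPrimeCore 2 H) = 1
      rw [e1, inv_mul_cancel]
      rfl
    rw [e2, map_one]
    rfl

/-- The base of the induction. -/
theorem base : ThmA.{u} 0 := by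
  intro H _ _ hsol hO2 V _ _ _ ρ hρ hs
  classical
  haveI : Fact (Nat.Prime 2) := ⟨Nat.prime_two⟩
  rw [pLengthLE_zero_iff]
  by_contra hcop
  have hd : 2 ∣ Nat.card H := by
    rw [Nat.coprime_comm] at hcop
    exact not_not.1 ((Nat.Prime.coprime_iff_not_dvd Nat.prime_two).not.1 hcop)
  obtain ⟨x, hx⟩ := exists_prime_orderOf_dvd_card' 2 hd
  have h1 : x ^ 2 ^ 1 = 1 := by
    have h0 : x ^ orderOf x = 1 := pow_orderOf_eq_one x
    rw [hx] at h0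
    simpa using h0
  have h2 := hs x ⟨1, h1⟩
  simp only [zero_add, pow_one, Finset.sum_range_succ, Finset.sum_range_zero, pow_zero] at h2
  have h3 : ρ x = 1 := by
    have h4 : ρ x = - 1 := by
      rw [eq_neg_iff_add_eq_zero, add_comm]
      exact h2
    rw [h4]
    ext v
    simp only [LinearMap.neg_apply, Module.End.one_apply]
    have h2v : (2 : ZMod 2) • v = 0 := by
      have : (2 : ZMod 2) = 0 := rfl
      rw [this, zero_smul]
    rw [two_smul] at h2v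
    exact neg_eq_of_add_eq_zero_left h2v
  have h5 : x = 1 := hρ (by rw [h3, map_one])
  rw [h5, orderOf_one] at hx
  omega

/-- **Bryukhanova's theorem for modules.** -/
theorem thmA : ∀ l : ℕ, ThmA.{u} l := by
  intro l
  induction l with
  | zero => exact base
  | succ l ih => exact step ih

/-- **Bryukhanova's theorem.** -/
theorem two_length_le {G : Type u} [Group G] [Finite G] (hsol : Group.IsSolvable G) (e : ℕ)
    (hexp : ∀ x : G, (∃ k : ℕ, x ^ 2 ^ k = 1) → x ^ 2 ^ e = 1) : PLengthLE 2 e G := by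
  classical
  haveI : Fact (Nat.Prime 2) := ⟨Nat.prime_two⟩
  cases e with
  | zero =>
    rw [pLengthLE_zero_iff]
    by_contra hcop
    have hd : 2 ∣ Nat.card G := by
      rw [Nat.coprime_comm] at hcop
      exact not_not.1 ((Nat.Prime.coprime_iff_not_dvd Nat.prime_two).not.1 hcop)
    obtain ⟨x, hx⟩ := exists_prime_orderOf_dvd_card' 2 hd
    have h1 : x ^ 2 ^ 1 = 1 := by
      have h0 : x ^ orderOf x = 1 := pow_orderOf_eq_one x
      rw [hx] at h0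
      simpa using h0
    have h2 := hexp x ⟨1, h1⟩
    rw [pow_zero, pow_one] at h2
    rw [h2, orderOf_one] at hx
    omega
  | succ l =>
    obtain ⟨V, _, _, _, ρ, hρ, hlay⟩ := layer_setup hsol (l + 1) hexp
    apply pLengthLE_succ_of_layer
    exact thmA l _ inferInstance pCore_quotient_eq_bot V ρ hρ (fun a ha => (hlay a ha).2)

end Cfsg.Agent.Lib.BryG.Chain
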